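import Cfsg.Agent.AltEight29.Exists
import Cfsg.Agent.S0058

/-!
Consequences of a configuration: the centralisers of the standard elements, the behaviour of
Sylow three-subgroups, and the generation of `3'`-subgroups normalised by the standard subgroup
of order nine.
-/

set_option autoImplicit false

open Equiv Subgroup

namespace CfsgLib.AltEight29

variable {G : Type*} [Group G]

/-- A normal three-complement by transfer, described by the orders of the elements. -/
theorem exists_complement_three [Finite G] (h27 : ¬ 27 ∣ Nat.card G) (L : Subgroup G) (z : G)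
    (hzL : z ∈ L) (hz : z ^ 3 = 1) (hz1 : z ≠ 1)
    (hc : ∀ g ∈ L, g * z = z * g → g ^ 9 = 1 → g ∈ zpowers z)
    (hn : ∀ g ∈ L, g * z * g⁻¹ ∈ zpowers z → g * z = z * g) :
    ∃ O : Subgroup G, (∀ x, x ∈ O ↔ x ∈ L ∧ ¬ 3 ∣ orderOf x) ∧
      (Nat.card O).Coprime 3 ∧ ∀ x ∈ L, ∃ k : ℕ, x * z ^ k ∈ O := by
  classical
  have : Fact (Nat.Prime 3) := ⟨Nat.prime_three⟩
  set z' : L := ⟨z, hzL⟩ with hz'
  have hz3 : z' ^ 3 = 1 := Subtype.ext hz
  have hord : orderOf z' = 3 :=
    orderOf_eq_prime hz3 fun e => hz1 (congrArg Subtype.val e)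
  have hpz : IsPGroup 3 (zpowers z') :=
    IsPGroup.of_card (n := 1) (by rw [Nat.card_zpowers, hord, pow_one])
  obtain ⟨P, hP⟩ := hpz.exists_le_sylow
  obtain ⟨k, hk⟩ := P.2.exists_card_eq
  have hk2 : k ≤ 2 := by
    by_contra h
    apply h27
    refine dvd_trans ?_ (Subgroup.card_subgroup_dvd_card L)
    refine dvd_trans ?_ (Subgroup.card_subgroup_dvd_card (P : Subgroup L))
    rw [hk]
    exact (pow_dvd_pow 3 (by omega : 3 ≤ k) : 3 ^ 3 ∣ 3 ^ k)
  have hPz : (P : Subgroup L) = zpowers z' := by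
    refine le_antisymm (fun g hg => ?_) hP
    have hab : ∀ u ∈ (P : Subgroup L), ∀ v ∈ (P : Subgroup L), u * v = v * u := by
      interval_cases k
      · intro u hu v hv
        rw [pow_zero] at hk
        rw [Subgroup.card_eq_one.1 hk, mem_bot] at hu hv
        rw [hu, hv]
      · intro u hu v hv
        have : IsCyclic (P : Subgroup L) := isCyclic_of_prime_card (p := 3) (by rw [hk, pow_one])
        exact congrArg Subtype.val
          ((IsCyclic.commutative (α := (P : Subgroup L))).is_comm.comm ⟨u, hu⟩ ⟨v, hv⟩)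
      · intro u hu v hv
        exact congrArg Subtype.val
          ((IsPGroup.isMulCommutative_of_card_eq_prime_sq hk).is_comm.comm
            (⟨u, hu⟩ : (P : Subgroup L)) ⟨v, hv⟩)
    have h9 : g ^ 9 = 1 := orderOf_dvd_iff_pow_eq_one.1 (dvd_trans
      (Subgroup.orderOf_dvd_natCard _ hg) (hk ▸ (pow_dvd_pow 3 hk2 : 3 ^ k ∣ 3 ^ 2)))
    have hcm := hab g hg z' (hP (mem_zpowers z'))
    obtain ⟨i, hi⟩ := mem_zpowers_iff.1 (hc g g.2 (congrArg Subtype.val hcm)
      (by rw [← Subgroup.coe_pow, h9]; rfl))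
    exact mem_zpowers_iff.2 ⟨i, Subtype.ext (by rw [Subgroup.coe_zpow]; exact hi)⟩
  have hPn : normalizer ((P : Subgroup L) : Set L) ≤ centralizer ((P : Subgroup L) : Set L) := by
    intro g hg
    rw [hPz] at hg ⊢
    have h := (mem_normalizer_iff.1 hg z').1 (mem_zpowers z')
    obtain ⟨i, hi⟩ := mem_zpowers_iff.1 h
    have hcz : g * z' = z' * g := Subtype.ext (hn g g.2 (mem_zpowers_iff.2
      ⟨i, by have := congrArg Subtype.val hi; simpa using this⟩))
    rw [mem_centralizer_iff]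
    intro u hu
    obtain ⟨j, rfl⟩ := mem_zpowers_iff.1 hu
    exact ((show Commute g z' from hcz).zpow_right j).eq.symm
  set f := MonoidHom.transferSylow P hPn
  have hcomp := MonoidHom.ker_transferSylow_isComplement' P hPn
  have hndvd : ¬ 3 ∣ Nat.card f.ker := MonoidHom.not_dvd_card_ker_transferSylow P hPn
  refine ⟨f.ker.map L.subtype, fun x => ⟨?_, ?_⟩, ?_, fun x hx => ?_⟩
  · rintro ⟨y, hy, rfl⟩
    refine ⟨y.2, fun h => hndvd (h.trans ?_)⟩
    rw [orderOf_injective L.subtype Subtype.val_injective]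
    exact Subgroup.orderOf_dvd_natCard _ hy
  · rintro ⟨hx, hno⟩
    refine ⟨⟨x, hx⟩, ?_, rfl⟩
    rw [SetLike.mem_coe, MonoidHom.mem_ker, ← orderOf_eq_one_iff]
    refine Nat.eq_one_of_dvd_coprimes ((Nat.prime_three.coprime_iff_not_dvd).2 hno) ?_ ?_
    · have hd := orderOf_dvd_natCard (f ⟨x, hx⟩)
      rwa [show Nat.card (P : Subgroup L) = 3 by rw [hPz, Nat.card_zpowers, hord]] at hd
    · rw [← Subgroup.orderOf_mk x hx]
      exact orderOf_map_dvd _ _
  · rw [← Nat.card_congr (equivMapOfInjective f.ker L.subtype Subtype.val_injective).toEquiv]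
    exact ((Nat.prime_three.coprime_iff_not_dvd).2 hndvd).symm
  · obtain ⟨⟨⟨a, ha⟩, ⟨b, hb⟩⟩, hab⟩ := hcomp.2 (⟨x, hx⟩ : L)
    have hb' : b⁻¹ ∈ zpowers z' := hPz ▸ inv_mem hb
    obtain ⟨i, hi : z' ^ i = b⁻¹⟩ := (Submonoid.mem_powers_iff _ _).1
      ((mem_powers_iff_mem_zpowers).2 hb')
    refine ⟨i, a, ha, ?_⟩
    change (a : G) = x * z ^ i
    have hab' : (a * b : L) = ⟨x, hx⟩ := hab
    have : a = ⟨x, hx⟩ * z' ^ i := by rw [hi, ← hab', mul_inv_cancel_right]
    exact congrArg Subtype.val this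

namespace Config

variable (K : Config G)

/-- The standard element of order three with large centraliser. -/
abbrev z : G := K.ι zM
/-- The second generator. -/
abbrev w : G := K.ι wM
/-- The standard subgroup of order nine. -/
abbrev D : Subgroup G := closure ({K.z, K.w} : Set G)

theorem z_cube : K.z ^ 3 = 1 := by rw [← map_pow, zM_cube, map_one]
theorem w_cube : K.w ^ 3 = 1 := by rw [← map_pow, wM_cube, map_one]
theorem z_ne : K.z ≠ 1 := fun e => zM_ne (K.inj (by rw [map_one]; exact e))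
theorem zw_comm : Commute K.z K.w := by
  change K.z * K.w = K.w * K.z
  rw [← map_mul, ← map_mul, zM_wM]

theorem z_zcube : K.z ^ (3 : ℤ) = 1 := by exact_mod_cast K.z_cube

theorem n_inv : K.n⁻¹ = K.n := inv_eq_of_mul_eq_one_right K.n_sq

theorem n_conj_mul (a b : G) : K.n * (a * b) * K.n = (K.n * a * K.n) * (K.n * b * K.n) := by
  calc K.n * (a * b) * K.n = K.n * a * 1 * b * K.n := by group
    _ = K.n * a * (K.n * K.n) * b * K.n := by rw [K.n_sq]
    _ = _ := by group

theorem n_conj_n (a : G) : K.n * (K.n * a * K.n) * K.n = a := by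
  calc K.n * (K.n * a * K.n) * K.n = (K.n * K.n) * a * (K.n * K.n) := by group
    _ = a := by rw [K.n_sq, one_mul, mul_one]

theorem mem_range_of (g : G) (h : g * K.z * g⁻¹ ∈ zpowers K.z) : g ∈ K.ι.range := by
  rw [K.range_eq, mem_normalizer_iff]
  intro u
  have hfin : ∀ v ∈ zpowers K.z, g * v * g⁻¹ ∈ zpowers K.z := by
    intro v hv
    obtain ⟨i, rfl⟩ := mem_zpowers_iff.1 hv
    rw [← conj_zpow]
    exact zpow_mem h i
  refine ⟨hfin u, fun hu => ?_⟩
  obtain ⟨i, hi⟩ := mem_zpowers_iff.1 h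
  obtain ⟨j, hj⟩ := mem_zpowers_iff.1 hu
  have hi' : K.z ^ (i * i) = K.z := by
    have hne : ¬ (3 : ℤ) ∣ i := by
      intro hd
      obtain ⟨e, rfl⟩ := hd
      rw [zpow_mul, K.z_zcube, one_zpow] at hi
      exact K.z_ne (conj_eq_one_iff.1 hi.symm)
    obtain ⟨e, he⟩ : (3 : ℤ) ∣ i * i - 1 := by
      have h3 := Int.emod_two_eq_zero_or_one i
      have : i % 3 = 1 ∨ i % 3 = 2 := by omega
      rcases this with e | e
      · exact Int.dvd_of_emod_eq_zero (by rw [Int.sub_emod, Int.mul_emod, e]; decide)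
      · exact Int.dvd_of_emod_eq_zero (by rw [Int.sub_emod, Int.mul_emod, e]; decide)
    rw [show i * i = 3 * e + 1 by omega, zpow_add, zpow_mul,
      K.z_zcube, one_zpow, one_mul, zpow_one]
  refine mem_zpowers_iff.2 ⟨i * j, ?_⟩
  have : g * K.z ^ (i * j) * g⁻¹ = g * u * g⁻¹ := by
    rw [← conj_zpow, ← hi, ← zpow_mul, show i * (i * j) = (i * i) * j by ring, zpow_mul, hi', hj]
  exact mul_left_cancel (mul_right_cancel this)

theorem centralizer_z (g : G) (h : g * K.z = K.z * g) :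
    ∃ m : M35, m * zM = zM * m ∧ K.ι m = g := by
  obtain ⟨m, rfl⟩ := K.mem_range_of g (by rw [h, mul_inv_cancel_right]; exact mem_zpowers _)
  exact ⟨m, K.inj (by rw [map_mul, map_mul]; exact h), rfl⟩

theorem centralizer_w (g : G) (h : g * K.w = K.w * g) :
    ∃ m : M35, m * zM = zM * m ∧ K.n * K.ι m * K.n = g := by
  obtain ⟨m, hm, hmg⟩ := K.centralizer_z (K.n * g * K.n) (by
    change _ * K.ι zM = K.ι zM * _
    rw [← K.n_w, ← K.n_conj_mul, ← K.n_conj_mul, h])
  exact ⟨m, hm, by rw [hmg, K.n_conj_n]⟩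

theorem z_mem_D : K.z ∈ K.D := subset_closure (by simp)
theorem w_mem_D : K.w ∈ K.D := subset_closure (by simp)

theorem mem_D {x : G} (hx : x ∈ K.D) : ∃ a b : ℕ, a < 3 ∧ b < 3 ∧ x = K.z ^ a * K.w ^ b :=
  mem_closure_two K.zw_comm K.z_cube K.w_cube hx

theorem D_comm {x y : G} (hx : x ∈ K.D) (hy : y ∈ K.D) : x * y = y * x := by
  obtain ⟨a, b, -, -, rfl⟩ := K.mem_D hx
  obtain ⟨a', b', -, -, rfl⟩ := K.mem_D hy
  exact ((((Commute.refl K.z).pow_pow a a').mul_right (K.zw_comm.pow_pow a b')).mul_left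
    ((K.zw_comm.symm.pow_pow b a').mul_right ((Commute.refl K.w).pow_pow b b'))).eq

theorem D_cube {x : G} (hx : x ∈ K.D) : x ^ 3 = 1 := by
  obtain ⟨a, b, -, -, rfl⟩ := K.mem_D hx
  rw [(K.zw_comm.pow_pow a b).mul_pow, ← pow_mul, ← pow_mul, mul_comm a, mul_comm b, pow_mul,
    pow_mul, K.z_cube, K.w_cube, one_pow, one_pow, one_mul]

theorem mem_D_of_commute {g : G} (h1 : g * K.z = K.z * g) (h2 : g * K.w = K.w * g) : g ∈ K.D := by
  obtain ⟨a, b, rfl⟩ := K.cent_D g h1 h2
  rw [map_mul, map_pow, map_pow]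
  exact mul_mem (pow_mem K.z_mem_D a) (pow_mem K.w_mem_D b)

theorem card_D : Nat.card K.D = 9 := by
  let f : Fin 3 × Fin 3 → K.D := fun p =>
    ⟨K.ι (zM ^ p.1.1 * wM ^ p.2.1), by
      rw [map_mul, map_pow, map_pow]
      exact mul_mem (pow_mem K.z_mem_D _) (pow_mem K.w_mem_D _)⟩
  have hf : Function.Bijective f := by
    refine ⟨fun p q h => ?_, fun x => ?_⟩
    · have hinj : ∀ p q : Fin 3 × Fin 3,
          zM ^ p.1.1 * wM ^ p.2.1 = zM ^ q.1.1 * wM ^ q.2.1 → p = q := by decide +kernel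
      exact hinj p q (K.inj (congrArg Subtype.val h))
    · obtain ⟨a, b, ha, hb, he⟩ := K.mem_D x.2
      exact ⟨(⟨a, ha⟩, ⟨b, hb⟩), Subtype.ext (by
        change K.ι (zM ^ a * wM ^ b) = x
        rw [he, map_mul, map_pow, map_pow])⟩
  rw [← Nat.card_eq_of_bijective f hf, Nat.card_prod, Nat.card_eq_fintype_card, Fintype.card_fin]

/-- All four mixed elements have centralisers of order eighteen. -/
theorem card_mixed (a b : ℕ) (ha : a < 3) (hb : b < 3) (ha0 : a ≠ 0) (hb0 : b ≠ 0) :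
    Nat.card (centralizer ({K.z ^ a * K.w ^ b} : Set G)) = 18 := by
  have hz2 : K.z ^ 2 = K.z⁻¹ := eq_inv_of_mul_eq_one_left (by rw [← pow_succ, K.z_cube])
  have hw2 : K.w ^ 2 = K.w⁻¹ := eq_inv_of_mul_eq_one_left (by rw [← pow_succ, K.w_cube])
  have h1 : K.ι hM * (K.z * K.w) * (K.ι hM)⁻¹ = K.z * K.w⁻¹ := by
    rw [← map_inv, ← map_inv, ← map_mul, ← map_mul, ← map_mul, ← map_mul]
    exact congrArg K.ι (by decide +kernel)
  have e1 : Nat.card (centralizer ({K.z * K.w⁻¹} : Set G)) = 18 := by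
    rw [← h1, card_centralizer_conj, K.card_zw]
  rcases (by omega : a = 1 ∨ a = 2) with rfl | rfl <;>
    rcases (by omega : b = 1 ∨ b = 2) with rfl | rfl <;>
    simp only [pow_one, hz2, hw2]
  · exact K.card_zw
  · exact e1
  · rw [← inv_inv K.w, ← mul_inv_rev, card_centralizer_inv, K.zw_comm.inv_right.symm.eq]
    exact e1
  · rw [← mul_inv_rev, card_centralizer_inv, ← K.zw_comm.eq]
    exact K.card_zw

variable [Finite G]

/-- A subgroup of order nine is conjugate to the standard one. -/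
theorem conj_D (Q : Subgroup G) (hQ : Nat.card Q = 9) :
    ∃ c : G, ∀ x, x ∈ Q ↔ c⁻¹ * x * c ∈ K.D := by
  have : Fact (Nat.Prime 3) := ⟨Nat.prime_three⟩
  have mk : ∀ R : Subgroup G, Nat.card R = 9 → ∃ P : Sylow 3 G, (P : Subgroup G) = R := by
    intro R hR
    obtain ⟨P, hP⟩ := (IsPGroup.of_card (n := 2) (by rw [hR]; rfl) : IsPGroup 3 R).exists_le_sylow
    refine ⟨P, (Subgroup.eq_of_le_of_card_ge hP ?_).symm⟩
    obtain ⟨k, hk⟩ := P.2.exists_card_eq
    have hk2 : k ≤ 2 := by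
      by_contra h
      apply K.not27
      refine dvd_trans ?_ (Subgroup.card_subgroup_dvd_card (P : Subgroup G))
      rw [hk]
      exact (pow_dvd_pow 3 (by omega : 3 ≤ k) : 3 ^ 3 ∣ 3 ^ k)
    rw [hR, hk]
    exact (Nat.pow_le_pow_right (by norm_num) hk2 : 3 ^ k ≤ 3 ^ 2)
  obtain ⟨P, hP⟩ := mk Q hQ
  obtain ⟨P', hP'⟩ := mk K.D K.card_D
  obtain ⟨c, rfl⟩ := MulAction.exists_smul_eq G P' P
  refine ⟨c, fun x => ?_⟩
  rw [← hP, ← hP', Sylow.coe_subgroup_smul, Subgroup.mem_pointwise_smul_iff_inv_smul_mem]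
  simp [MulAut.smul_def, MulAut.conj_apply]

include K in
/-- Inside a subgroup centralising an involution the subgroups of order three are conjugate. -/
theorem exists_conj_three (s : G) (hs : s * s = 1) (hs1 : s ≠ 1) (C : Subgroup G)
    (hCs : C ≤ centralizer ({s} : Set G)) (p q : G) (hpC : p ∈ C) (hqC : q ∈ C)
    (hp : p ^ 3 = 1) (hp1 : p ≠ 1) (hq : q ^ 3 = 1) (hq1 : q ≠ 1) :
    ∃ c ∈ C, c * p * c⁻¹ = q ∨ c * p * c⁻¹ = q⁻¹ := by
  have : Fact (Nat.Prime 3) := ⟨Nat.prime_three⟩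
  have hord : ∀ r : G, r ^ 3 = 1 → r ≠ 1 → r ∈ C →
      ∃ P : Sylow 3 C, (P : Subgroup C).map C.subtype = zpowers r := by
    intro r hr hr1 hrs
    have hr' : orderOf r = 3 := orderOf_eq_prime hr hr1
    have hrC : zpowers r ≤ C := zpowers_le.2 hrs
    have hpr : IsPGroup 3 ((zpowers r).subgroupOf C) := IsPGroup.of_card (n := 1) (by
      rw [Nat.card_congr (Subgroup.subgroupOfEquivOfLe hrC).toEquiv, Nat.card_zpowers, hr', pow_one])
    obtain ⟨P, hP⟩ := hpr.exists_le_sylow
    refine ⟨P, le_antisymm ?_ (by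
      rw [← Subgroup.map_subgroupOf_eq_of_le hrC]
      exact Subgroup.map_mono hP)⟩
    set Q := (P : Subgroup C).map C.subtype with hQ
    obtain ⟨k, hk⟩ := P.2.exists_card_eq
    have hQk : Nat.card Q = 3 ^ k := by
      rw [hQ, ← Nat.card_congr (equivMapOfInjective _ C.subtype Subtype.val_injective).toEquiv, hk]
    have hle : zpowers r ≤ Q := by
      rw [← Subgroup.map_subgroupOf_eq_of_le hrC]; exact Subgroup.map_mono hP
    have hk2 : k ≤ 2 := by
      by_contra h
      apply K.not27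
      refine dvd_trans ?_ (Subgroup.card_subgroup_dvd_card Q)
      rw [hQk]
      exact (pow_dvd_pow 3 (by omega : 3 ≤ k) : 3 ^ 3 ∣ 3 ^ k)
    have hk1 : k ≠ 2 := by
      rintro rfl
      obtain ⟨c, hc⟩ := K.conj_D Q hQk
      have hall : ∀ d ∈ K.D, (c⁻¹ * s * c) * d = d * (c⁻¹ * s * c) := by
        intro d hd
        have hQd : c * d * c⁻¹ ∈ Q := by
          rw [hc, show c⁻¹ * (c * d * c⁻¹) * c = d by group]; exact hd
        obtain ⟨u, -, hu⟩ := hQd
        have hcomm : c * d * c⁻¹ * s = s * (c * d * c⁻¹) := by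
          rw [← hu]; exact mem_centralizer_singleton_iff.1 (hCs u.2)
        calc c⁻¹ * s * c * d = c⁻¹ * (s * (c * d * c⁻¹)) * c := by group
          _ = c⁻¹ * (c * d * c⁻¹ * s) * c := by rw [hcomm]
          _ = _ := by group
      have h3 := K.D_cube (K.mem_D_of_commute (hall _ K.z_mem_D) (hall _ K.w_mem_D))
      apply hs1
      have h3' : s ^ 3 = 1 := by
        calc s ^ 3 = c * (c⁻¹ * s * c) ^ 3 * c⁻¹ := by
              simp only [pow_succ, pow_zero, one_mul, mul_assoc, mul_inv_cancel_left,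
                inv_mul_cancel_left, mul_inv_cancel, mul_one]
          _ = 1 := by rw [h3]; group
      rwa [pow_succ, pow_two, hs, one_mul] at h3'
    refine le_of_eq (Subgroup.eq_of_le_of_card_ge hle ?_).symm
    rw [Nat.card_zpowers, hr', hQk]
    exact (Nat.pow_le_pow_right (by norm_num) (by omega : k ≤ 1) : 3 ^ k ≤ 3 ^ 1)
  obtain ⟨P, hP⟩ := hord p hp hp1 hpC
  obtain ⟨P', hP'⟩ := hord q hq hq1 hqC
  obtain ⟨c, rfl⟩ := MulAction.exists_smul_eq C P P'
  have hmem : (c : G) * p * (c : G)⁻¹ ∈ zpowers q := by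
    obtain ⟨u, hu, hup⟩ : p ∈ (P : Subgroup C).map C.subtype := hP ▸ mem_zpowers p
    rw [← hP']
    refine ⟨c * u * c⁻¹, ?_, ?_⟩
    · rw [SetLike.mem_coe, Sylow.coe_subgroup_smul,
        Subgroup.mem_pointwise_smul_iff_inv_smul_mem]
      simp [MulAut.smul_def, MulAut.conj_apply, mul_assoc]
      exact hu
    · simp [← hup]
  obtain ⟨i, hi⟩ := (Submonoid.mem_powers_iff _ _).1 ((mem_powers_iff_mem_zpowers).2 hmem)
  rw [pow_eq_pow_mod i hq] at hi
  have := Nat.mod_lt i (by norm_num : 3 > 0)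
  refine ⟨c, c.2, ?_⟩
  interval_cases h : i % 3
  · rw [pow_zero] at hi
    exact absurd (conj_eq_one_iff.1 hi.symm) hp1
  · left; rw [← hi, pow_one]
  · right
    rw [← hi, show q ^ 2 = q⁻¹ from eq_inv_of_mul_eq_one_left (by rw [← pow_succ, hq])]

include K in
/-- Two elements of order three centralising one involution have centralisers of equal order. -/
theorem card_centralizer_eq (s p q : G) (hs : s * s = 1) (hs1 : s ≠ 1)
    (hp : p ^ 3 = 1) (hp1 : p ≠ 1) (hq : q ^ 3 = 1) (hq1 : q ≠ 1)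
    (hsp : p * s = s * p) (hsq : q * s = s * q) :
    Nat.card (centralizer ({p} : Set G)) = Nat.card (centralizer ({q} : Set G)) := by
  obtain ⟨c, -, h | h⟩ := K.exists_conj_three s hs hs1 _ le_rfl p q
    (mem_centralizer_singleton_iff.2 hsp) (mem_centralizer_singleton_iff.2 hsq) hp hp1 hq hq1
  · rw [← h, card_centralizer_conj]
  · rw [← card_centralizer_inv q, ← h, card_centralizer_conj]

/-- A `3'`-subgroup normalised by the standard subgroup is generated by its elements centralising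
one of the two standard generators. -/
theorem le_of_normalised (O H : Subgroup G) (hco : (Nat.card O).Coprime 3)
    (hzO : K.z ∈ normalizer (O : Set G)) (hwO : K.w ∈ normalizer (O : Set G))
    (h1 : ∀ g ∈ O, g * K.z = K.z * g → g ∈ H) (h2 : ∀ g ∈ O, g * K.w = K.w * g → g ∈ H) :
    O ≤ H := by
  have hD : K.D ≤ normalizer (O : Set G) := by
    rw [D, closure_le]
    rintro u (rfl | rfl)
    · exact hzO
    · exact hwO
  have : IsMulCommutative K.D := ⟨⟨fun a b => Subtype.ext (K.D_comm a.2 b.2)⟩⟩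
  have hcyc : ¬ IsCyclic K.D := by
    intro hc
    obtain ⟨g, hg⟩ := (isCyclic_iff_exists_orderOf_eq_natCard).1 hc
    have hg3 : g ^ 3 = 1 := Subtype.ext (K.D_cube g.2)
    have := Nat.le_of_dvd (by norm_num) (orderOf_dvd_of_pow_eq_one hg3)
    rw [hg, K.card_D] at this
    omega
  have hcop : (Nat.card K.D).Coprime (Nat.card O) := by
    rw [K.card_D, show 9 = 3 ^ 2 by norm_num]
    exact (Nat.Coprime.pow_left 2 hco.symm)
  rw [← Cfsg.Agent.S0058.result K.D O hcyc hD hcop]
  refine iSup₂_le fun a ha => ?_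
  obtain ⟨haD, ha1⟩ := ha
  obtain ⟨i, j, hi, hj, rfl⟩ := K.mem_D haD
  intro g hg
  have hgC := mem_centralizer_singleton_iff.1 hg.2
  have hz4 : (K.z ^ 2) ^ 2 = K.z := by rw [← pow_mul, pow_succ, K.z_cube, one_mul]
  have hw4 : (K.w ^ 2) ^ 2 = K.w := by rw [← pow_mul, pow_succ, K.w_cube, one_mul]
  by_cases hj0 : j = 0
  · subst hj0
    refine h1 g hg.1 ?_
    rw [pow_zero, mul_one] at hgC ha1
    rcases (by omega : i = 0 ∨ i = 1 ∨ i = 2) with rfl | rfl | rfl
    · exact absurd (pow_zero _) ha1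
    · rwa [pow_one] at hgC
    · have := ((show Commute g (K.z ^ 2) from hgC).pow_right 2).eq
      rwa [hz4] at this
  by_cases hi0 : i = 0
  · subst hi0
    refine h2 g hg.1 ?_
    rw [pow_zero, one_mul] at hgC ha1
    rcases (by omega : j = 1 ∨ j = 2) with rfl | rfl
    · rwa [pow_one] at hgC
    · have := ((show Commute g (K.w ^ 2) from hgC).pow_right 2).eq
      rwa [hw4] at this
  -- a mixed element
  set a := K.z ^ i * K.w ^ j with ha
  set U := O ⊓ centralizer ({a} : Set G) with hU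
  have hUcard : Nat.card U ∣ 2 := by
    have hd1 : Nat.card U ∣ 18 := K.card_mixed i j hi hj hi0 hj0 ▸ card_dvd_of_le inf_le_right
    have hd2 : (Nat.card U).Coprime (3 ^ 2) :=
      Nat.Coprime.pow_right 2 (Nat.Coprime.coprime_dvd_left (card_dvd_of_le inf_le_left) hco)
    exact hd2.dvd_of_dvd_mul_left (by norm_num [hd1])
  by_cases hg1 : g = 1
  · exact hg1 ▸ one_mem H
  have hU2 : ∀ u ∈ U, u ≠ 1 → u = g := by
    intro u hu hu1
    by_contra hne
    have hle := Nat.le_of_dvd (by norm_num) hUcard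
    let F : Fin 3 → U := ![⟨1, one_mem _⟩, ⟨g, hg⟩, ⟨u, hu⟩]
    have hF : Function.Injective F := by
      intro x y hxy
      have := congrArg Subtype.val hxy
      fin_cases x <;> fin_cases y <;> simp_all [F]
    have := Nat.card_le_card_of_injective F hF
    rw [Nat.card_eq_fintype_card, Fintype.card_fin] at this
    omega
  have hfix : ∀ d ∈ K.D, g * d = d * g := by
    intro d hd
    have hm : d * g * d⁻¹ ∈ U := by
      refine ⟨(mem_normalizer_iff.1 (hD hd) g).1 hg.1, mem_centralizer_singleton_iff.2 ?_⟩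
      have hda : d⁻¹ * a = a * d⁻¹ := K.D_comm (inv_mem hd) haD
      have hda' : d * a = a * d := K.D_comm hd haD
      calc d * g * d⁻¹ * a = d * (g * a) * d⁻¹ := by rw [mul_assoc _ d⁻¹, hda]; group
        _ = (d * a) * g * d⁻¹ := by rw [hgC]; group
        _ = _ := by rw [hda']; group
    have := hU2 _ hm (fun e => hg1 (conj_eq_one_iff.1 e))
    calc g * d = (d * g * d⁻¹) * d := by rw [this]
      _ = _ := by group
  exact h1 g hg.1 (hfix _ K.z_mem_D)

end Config

end CfsgLib.AltEight29
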