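import Cfsg.Agent.AltEight29.LocalTables

/-!
Finite facts for the centraliser of `(3 4)(5 6)`.
-/

set_option autoImplicit false
set_option maxRecDepth 16000
set_option synthInstance.maxSize 4000

open Equiv

attribute [local instance 10000] List.decidableBAll List.decidableBEx

namespace CfsgLib.AltEight29

/-- The conjugators carrying the fixed-point-free involutions of `L96` to `sv`. -/
def K9 : List (alternatingGroup (Fin 8)) :=
  [1, u1, u1 * u1].flatMap fun a => [1, u2, u2 * u2].map fun b => a * b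

theorem L96_invol : ∀ σ ∈ L96, σ * σ = 1 → σ * ev = ev * σ →
    σ ∈ [1, ev] ∨ σ ∈ [fv, fv * ev] ∨ (∃ k ∈ K9, k * σ * k⁻¹ = sv) ∨
      (∃ k ∈ K9, k * (ev * σ) * k⁻¹ = sv) ∨ ∃ h ∈ L48, h * σ * h⁻¹ ∈ [cv, cv * ev] := by
  decide +kernel

theorem L48_L96 : ∀ l ∈ L48, l ∈ L96 ∧ l * cv ∈ L96 := by decide +kernel

theorem L96_fv : ∀ σ ∈ L96, σ * fv * σ⁻¹ ∈ [fv, fv * ev] ∧
    (σ * cv * σ⁻¹ * cv) * fv * (σ * cv * σ⁻¹ * cv)⁻¹ ∈ [fv, fv * ev] := by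
  decide +kernel

theorem L96_cv : ∀ σ ∈ L96, σ * cv = cv * σ → σ * σ = 1 := by decide +kernel

theorem L48_normal_O16 : ∀ l ∈ L48, ∀ o ∈ O16, l * o * l⁻¹ * o⁻¹ ∈ O16 := by decide +kernel

/-- An element conjugating `u1 * u2` to `(0 5 3)(1 6 4)`. -/
def uk : alternatingGroup (Fin 8) :=
  mk8 (swap 1 5 * swap 5 4 * swap 4 6 * swap 6 7 * swap 7 2 * swap 2 3)

theorem uk_table : uk * (u1 * u2) * uk⁻¹ = fv * (qv⁻¹ * fv * qv) := by decide +kernel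

theorem uk_cent : ∀ e : Fin 2, ∀ a b : Fin 3,
    let σ := uk * (sw ^ e.1 * (u1 ^ a.1 * u2 ^ b.1)) * uk⁻¹
    σ * ev = ev * σ → σ * cv = cv * σ → fv * σ * fv = σ⁻¹ → σ * σ = 1 := by
  decide +kernel

theorem sw_L48 : ∀ l ∈ L48, (sw * l * sw) * ev = ev * (sw * l * sw) →
    fv * (sw * l * sw) * fv = (sw * l * sw)⁻¹ → (sw * l * sw) * (sw * l * sw) = 1 := by
  decide +kernel

theorem sw_four : sw * ev * sw = av ∧ sw * fv * sw = bv ∧ sw * sw = 1 := by decide +kernel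

theorem conj_facts : u2⁻¹ * ev * u2 = fv ∧ u2 * ev * u2⁻¹ = ev * fv ∧
    bv * cv * bv * cv = av ∧ cv * (bv * cv * bv) = av ∧ bv * bv = 1 ∧
    u1 * u1 * av * (u1 * u1)⁻¹ = bv := by
  decide +kernel

end CfsgLib.AltEight29
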