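import Cfsg.Agent.AltEight29.Local
import Cfsg.Agent.AltEight29.CentralTables
import Cfsg.Agent.S0215

/-!
The centraliser of `(3 4)(5 6)` lies in the embedded alternating group, by the Z*-theorem.
-/

set_option autoImplicit false

open Equiv Subgroup

namespace CfsgLib.AltEight29

/-- An involution commuting with none of its other conjugates is isolated in every Sylow subgroup. -/
theorem isolated_of_commute {Q : Type*} [Group Q] [Finite Q] (P : Sylow 2 Q) (u : Q)
    (huP : u ∈ (P : Subgroup Q))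
    (h : ∀ g : Q, g * u * g⁻¹ * u = u * (g * u * g⁻¹) → g * u * g⁻¹ = u) :
    ∀ g : Q, g * u * g⁻¹ ∈ P → g * u * g⁻¹ = u := by
  have : Fact (Nat.Prime 2) := ⟨Nat.prime_two⟩
  set C := (centralizer ({u} : Set Q)).subgroupOf (P : Subgroup Q) with hC
  have htop : C = ⊤ := by
    by_contra hne
    have : Group.IsNilpotent (P : Subgroup Q) := P.2.isNilpotent
    obtain ⟨⟨t, htP⟩, ht, htC⟩ := SetLike.exists_of_lt
      ((Group.normalizerCondition_of_isNilpotent (G := (P : Subgroup Q))) C (lt_top_iff_ne_top.2 hne))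
    apply htC
    rw [hC, mem_subgroupOf, mem_centralizer_singleton_iff]
    have hu : (⟨u, huP⟩ : (P : Subgroup Q)) ∈ C := mem_centralizer_singleton_iff.2 rfl
    have hm := (mem_normalizer_iff.1 ht ⟨u, huP⟩).1 hu
    have := h t (mem_centralizer_singleton_iff.1 hm)
    exact mul_inv_eq_iff_eq_mul.1 this
  intro g hg
  refine h g ?_
  have : (⟨g * u * g⁻¹, hg⟩ : (P : Subgroup Q)) ∈ C := htop ▸ mem_top _
  exact mem_centralizer_singleton_iff.1 this

/-- The elements of odd order over an odd subgroup of a quotient by a central involution form a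
subgroup. -/
theorem exists_odd_lift {Y : Type*} [Group Y] [Finite Y] (E : Subgroup Y) [E.Normal]
    (hE : Nat.card E = 2) (N : Subgroup (Y ⧸ E)) (hN : Odd (Nat.card N)) :
    ∃ W : Subgroup Y, Odd (Nat.card W) ∧
      (∀ x, x ∈ W ↔ (x : Y ⧸ E) ∈ N ∧ x ^ Nat.card N = 1) ∧
      ∀ x : Y, (x : Y ⧸ E) ∈ N → ∃ e ∈ E, x * e ∈ W := by
  set m := Nat.card N with hm
  set NY := N.comap (QuotientGroup.mk' E) with hNY
  have hEN : E ≤ NY := fun e he => by
    rw [hNY, mem_comap, QuotientGroup.mk'_apply, (QuotientGroup.eq_one_iff e).2 he]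
    exact one_mem N
  set E' := E.subgroupOf NY with hE'
  have hE'card : Nat.card E' = 2 := by
    rw [hE', Nat.card_congr (Subgroup.subgroupOfEquivOfLe hEN).toEquiv, hE]
  have hidx : E'.index = m := by
    let f : NY →* N := ((QuotientGroup.mk' E).comp NY.subtype).codRestrict N fun x => x.2
    have hker : f.ker = E' := by
      ext x
      rw [MonoidHom.mem_ker, hE', mem_subgroupOf, ← QuotientGroup.eq_one_iff]
      exact Subtype.ext_iff
    have hsurj : Function.Surjective f := fun n => by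
      obtain ⟨x, hx⟩ := QuotientGroup.mk'_surjective E n.1
      exact ⟨⟨x, by rw [hNY, mem_comap, hx]; exact n.2⟩, Subtype.ext hx⟩
    rw [← hker, Subgroup.index_ker, MonoidHom.range_eq_top.2 hsurj, card_top]
  obtain ⟨K, hK⟩ := Subgroup.exists_right_complement'_of_coprime (N := E') (by
    rw [hE'card, hidx]; exact Nat.coprime_two_left.2 hN)
  have hKcard : Nat.card K = m := by rw [← hK.symm.index_eq_card, hidx]
  have hcent : ∀ e ∈ E, ∀ x : Y, e * x = x * e := by
    intro e he x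
    by_cases he1 : e = 1
    · rw [he1, one_mul, mul_one]
    have h2 : ∀ a ∈ E, a = 1 ∨ a = e := by
      intro a ha
      by_contra hne
      push Not at hne
      let F : Fin 3 → E := ![⟨1, one_mem _⟩, ⟨e, he⟩, ⟨a, ha⟩]
      have hF : Function.Injective F := by
        intro i j hij
        have := congrArg Subtype.val hij
        fin_cases i <;> fin_cases j <;> simp_all [F]
      have := Nat.card_le_card_of_injective F hF
      rw [hE, Nat.card_eq_fintype_card, Fintype.card_fin] at this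
      omega
    rcases h2 _ ((inferInstance : E.Normal).conj_mem e he x) with h | h
    · exact absurd (conj_eq_one_iff.1 h) he1
    · exact (mul_inv_eq_iff_eq_mul.1 h).symm
  have key : ∀ x : NY, x ∈ K ↔ (x : Y) ^ m = 1 := by
    intro x
    constructor
    · intro hx
      have : (⟨x, hx⟩ : K) ^ m = 1 := hKcard ▸ pow_card_eq_one'
      simpa using congrArg (fun t : K => ((t : NY) : Y)) this
    · intro hx
      obtain ⟨⟨⟨e, he⟩, ⟨k, hk⟩⟩, hek⟩ := hK.2 x
      have hk1 : (k : Y) ^ m = 1 := by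
        have : (⟨k, hk⟩ : K) ^ m = 1 := hKcard ▸ pow_card_eq_one'
        simpa using congrArg (fun t : K => ((t : NY) : Y)) this
      have hxe : (x : Y) = e * k := by rw [← hek]; rfl
      have he2 : (e : Y) ^ 2 = 1 := by
        have : (⟨e, he⟩ : E') ^ 2 = 1 := hE'card ▸ pow_card_eq_one'
        simpa using congrArg (fun t : E' => ((t : NY) : Y)) this
      rw [hxe, (show Commute (e : Y) k from hcent e he k).mul_pow, hk1, mul_one] at hx
      obtain ⟨r, hr⟩ := hN
      rw [hr, pow_succ, pow_mul, he2, one_pow, one_mul] at hx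
      have : x = k := Subtype.ext (by rw [hxe, hx, one_mul])
      exact this ▸ hk
  refine ⟨K.map NY.subtype, ?_, fun x => ?_, fun x hx => ?_⟩
  · rw [← Nat.card_congr (equivMapOfInjective K _ Subtype.val_injective).toEquiv, hKcard]
    exact hN
  · constructor
    · rintro ⟨y, hy, rfl⟩; exact ⟨y.2, (key y).1 hy⟩
    · rintro ⟨h1, h2⟩; exact ⟨⟨x, h1⟩, (key ⟨x, h1⟩).2 h2, rfl⟩
  · obtain ⟨⟨⟨e, he⟩, ⟨k, hk⟩⟩, hek⟩ := hK.2 (⟨x, hx⟩ : NY)
    refine ⟨(e : Y)⁻¹, inv_mem he, k, hk, ?_⟩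
    have hxe : x = e * k := by rw [show x = ((⟨x, hx⟩ : NY) : Y) from rfl, ← hek]; rfl
    change (k : Y) = x * (e : Y)⁻¹
    rw [hxe, hcent e he k, mul_inv_cancel_right]

theorem pow_half_eq {M : Type*} [Group M] {x : M} (h : Odd (orderOf x)) :
    ∃ k : ℕ, x = (x ^ 2) ^ k := by
  obtain ⟨r, hr⟩ := h
  exact ⟨r + 1, by rw [← pow_mul, show 2 * (r + 1) = orderOf x + 1 by omega, pow_succ,
    pow_orderOf_eq_one, one_mul]⟩

theorem eq_one_of_odd_sq {M : Type*} [Group M] {x : M} (h : Odd (orderOf x)) (h2 : x * x = 1) :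
    x = 1 := by
  obtain ⟨k, hk⟩ := pow_half_eq h
  rw [hk, pow_two, h2, one_pow]

namespace Embedded

variable {G : Type*} [Group G] [Finite G] (X : Embedded G)

theorem fv_conj_ev : ∃ g : G, g * X.Φ ev * g⁻¹ = X.Φ fv :=
  ⟨(X.Φ u2)⁻¹, by rw [inv_inv, ← map_inv, ← map_mul, ← map_mul, conj_facts.1]⟩

/-- The centraliser of `(3 4)(5 6)`. -/
theorem centralizer_ev (x : G) (hx : x * X.Φ ev = X.Φ ev * x) : ∃ σ ∈ L96, x = X.Φ σ := by
  classical
  set E := X.Φ ev with hEdef
  set F := X.Φ fv with hFdef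
  set C := X.Φ cv with hCdef
  have hE2 : E * E = 1 := X.map_sq ev_sq
  have hF2 : F * F = 1 := X.map_sq fv_sq
  have hC2 : C * C = 1 := X.map_sq cv_basic.1
  have hFi : F⁻¹ = F := inv_eq_of_mul_eq_one_right hF2
  have hCi : C⁻¹ = C := inv_eq_of_mul_eq_one_right hC2
  have hE1 : E ≠ 1 := fun e => ev_ne (X.inj (e.trans (map_one X.Φ).symm))
  have hEF : F * E = E * F := X.map_comm ev_fv.symm
  have hCE : C * E = E * C := X.map_comm cv_basic.2.1
  have hCFC : C * F * C = E * F := by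
    rw [show C * F * C = C * F * C⁻¹ by rw [hCi], hCdef, hFdef, ← map_inv, ← map_mul, ← map_mul,
      cv_basic.2.2.1, map_mul]
  -- elements moving `F` within its coset
  have hmov : ∀ y, y * E = E * y → (y * F * y⁻¹ = F ∨ y * F * y⁻¹ = F * E) →
      ∃ σ ∈ L96, y = X.Φ σ := by
    intro y hy h
    rcases h with h | h
    · obtain ⟨l, hl, rfl⟩ := X.L_spec.1 y (X.mem_L.2 ⟨hy, mul_inv_eq_iff_eq_mul.1 h⟩)
      exact ⟨l, (L48_L96 l hl).1, rfl⟩
    · have hyC : y * C * E = E * (y * C) := by rw [mul_assoc, hCE, ← mul_assoc, hy, mul_assoc]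
      have hyC2 : y * C * F * (y * C)⁻¹ = F := by
        calc y * C * F * (y * C)⁻¹ = y * (C * F * C) * y⁻¹ := by rw [mul_inv_rev, hCi]; group
          _ = (y * E * y⁻¹) * (y * F * y⁻¹) := by rw [hCFC]; group
          _ = E * (F * E) := by rw [h, hy, mul_inv_cancel_right]
          _ = F := by rw [hEF, ← mul_assoc, hE2, one_mul]
      obtain ⟨l, hl, hle⟩ := X.L_spec.1 (y * C) (X.mem_L.2 ⟨hyC, mul_inv_eq_iff_eq_mul.1 hyC2⟩)
      refine ⟨l * cv, (L48_L96 l hl).2, ?_⟩
      rw [map_mul, ← hle, mul_assoc, hC2, mul_one]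
  set Y := centralizer ({E} : Set G) with hYdef
  have memY : ∀ y, y ∈ Y ↔ y * E = E * y := fun y => mem_centralizer_singleton_iff
  set eY : Y := ⟨E, (memY E).2 rfl⟩ with heY
  have hnorm : (zpowers eY).Normal := ⟨fun a ha g => by
    obtain ⟨i, rfl⟩ := mem_zpowers_iff.1 ha
    have hc : Commute g eY := Subtype.ext ((memY g).1 g.2)
    rw [(hc.zpow_right i).eq, mul_inv_cancel_right]
    exact zpow_mem (mem_zpowers eY) i⟩
  have hord : orderOf eY = 2 := orderOf_eq_prime (Subtype.ext (by rw [pow_two]; exact hE2))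
    (fun e => hE1 (congrArg Subtype.val e))
  have hcardE : Nat.card (zpowers eY) = 2 := by rw [Nat.card_zpowers, hord]
  have memE : ∀ a : Y, a ∈ zpowers eY → (a : G) = 1 ∨ (a : G) = E := by
    intro a ha
    obtain ⟨i, rfl⟩ := (Submonoid.mem_powers_iff _ _).1 ((mem_powers_iff_mem_zpowers).2 ha)
    rw [pow_eq_pow_mod i (show eY ^ 2 = 1 from hord ▸ pow_orderOf_eq_one eY)]
    rcases Nat.mod_two_eq_zero_or_one i with e | e <;> rw [e]
    · left; rw [pow_zero]; rfl
    · right; rw [pow_one]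
  set fY : Y := ⟨F, (memY F).2 hEF⟩ with hfY
  set fb : Y ⧸ zpowers eY := QuotientGroup.mk fY with hfb
  -- the image of `F` commutes with none of its other conjugates
  have hcomm : ∀ g : Y ⧸ zpowers eY, g * fb * g⁻¹ * fb = fb * (g * fb * g⁻¹) → g * fb * g⁻¹ = fb := by
    intro g
    induction g using QuotientGroup.induction_on with
    | H y => ?_
    intro h
    rw [hfb, ← QuotientGroup.mk_inv, ← QuotientGroup.mk_mul, ← QuotientGroup.mk_mul,
      ← QuotientGroup.mk_mul, ← QuotientGroup.mk_mul, QuotientGroup.eq] at h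
    set r : G := (y : G) * F * (y : G)⁻¹ with hr
    have hrE : r * E = E * r := (memY r).1 (mul_mem (mul_mem y.2 fY.2) (inv_mem y.2))
    have hr2 : r * r = 1 := by rw [hr, conj_mul, hF2, mul_one, mul_inv_cancel]
    have hri : r⁻¹ = r := inv_eq_of_mul_eq_one_right hr2
    have hrF : r * F * r⁻¹ = F ∨ r * F * r⁻¹ = F * E := by
      have hval := memE _ h
      have hv : (((y * fY * y⁻¹ * fY)⁻¹ * (fY * (y * fY * y⁻¹)) : Y) : G) = F * r * F * r := by
        change ((r * F)⁻¹ * (F * r)) = _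
        rw [mul_inv_rev, hri, hFi]; group
      rw [hv] at hval
      rcases hval with e | e
      · left
        calc r * F * r⁻¹ = (F * F) * r * F * r := by rw [hri, hF2, one_mul]
          _ = F * (F * r * F * r) := by group
          _ = F := by rw [e, mul_one]
      · right
        calc r * F * r⁻¹ = (F * F) * r * F * r := by rw [hri, hF2, one_mul]
          _ = F * (F * r * F * r) := by group
          _ = F * E := by rw [e]
    obtain ⟨σ, hσ, hrσ⟩ := hmov r hrE hrF
    have hσ2 : σ * σ = 1 := X.inj (by rw [map_mul, ← hrσ, hr2, map_one])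
    have hσe : σ * ev = ev * σ := X.comm_of (by rw [← hrσ]; exact hrE)
    obtain ⟨g0, hg0⟩ := X.fv_conj_ev
    rcases L96_invol σ hσ hσ2 hσe with h1 | h1 | ⟨k, -, hk⟩ | ⟨k, -, hk⟩ | ⟨l, hl, hlσ⟩
    · exfalso
      simp only [List.mem_cons, List.not_mem_nil, or_false] at h1
      rcases h1 with rfl | rfl
      · rw [map_one] at hrσ
        exact absurd (X.inj ((conj_eq_one_iff.1 hrσ).trans (map_one X.Φ).symm)) (by decide +kernel)
      · have : F = E := by
          calc F = (y : G)⁻¹ * r * y := by rw [hr]; group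
            _ = (y : G)⁻¹ * (E * y) := by rw [hrσ, ← hEdef]; group
            _ = E := by rw [← (memY _).1 y.2]; group
        exact absurd (X.inj this) (by decide +kernel)
    · simp only [List.mem_cons, List.not_mem_nil, or_false] at h1
      rw [hfb, ← QuotientGroup.mk_inv, ← QuotientGroup.mk_mul, ← QuotientGroup.mk_mul,
        QuotientGroup.eq]
      rcases h1 with rfl | rfl
      · have : (y * fY * y⁻¹)⁻¹ * fY = 1 := Subtype.ext (by
          change r⁻¹ * F = 1
          rw [hri, hrσ, ← hFdef, hF2])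
        rw [this]; exact one_mem _
      · have : (y * fY * y⁻¹)⁻¹ * fY = eY := Subtype.ext (by
          change r⁻¹ * F = E
          rw [hri, hrσ, map_mul, ← hFdef, ← hEdef, mul_assoc, ← hEF, ← mul_assoc, hF2, one_mul])
        rw [this]; exact mem_zpowers _
    · exfalso
      apply X.sv_not_conj_ev (X.Φ k * y * g0)
      rw [← hk, map_mul, map_mul, map_inv, ← hrσ, hr, show F = g0 * X.Φ ev * g0⁻¹ from hg0.symm]
      group
    · exfalso
      apply X.sv_not_conj_ev (X.Φ k * y * X.Φ u2)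
      rw [← hk, map_mul, map_mul, map_inv, map_mul, ← hrσ, ← hEdef, hr]
      have hef : X.Φ u2 * E * (X.Φ u2)⁻¹ = E * F := by
        rw [hEdef, hFdef, ← map_inv, ← map_mul, ← map_mul, conj_facts.2.1, map_mul]
      calc X.Φ k * y * X.Φ u2 * E * (X.Φ k * y * X.Φ u2)⁻¹
          = X.Φ k * y * (X.Φ u2 * E * (X.Φ u2)⁻¹) * (y : G)⁻¹ * (X.Φ k)⁻¹ := by group
        _ = X.Φ k * ((y : G) * E * ((y : G)⁻¹ * y) * F * (y : G)⁻¹) * (X.Φ k)⁻¹ := by rw [hef]; group
        _ = _ := by rw [(memY _).1 y.2]; group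
    · exfalso
      obtain ⟨le, lf⟩ := L48_comm l hl
      set g1 := X.Φ l * y with hg1
      have hgE : g1⁻¹ * E * g1⁻¹⁻¹ = E := by
        have : g1 * E = E * g1 := by
          rw [hg1, mul_assoc, (memY _).1 y.2, ← mul_assoc, hEdef, X.map_comm le, mul_assoc]
        rw [inv_inv, mul_assoc, ← this, inv_mul_cancel_left]
      have hlr : g1 * F * g1⁻¹ = X.Φ (l * σ * l⁻¹) := by
        rw [map_mul, map_mul, map_inv, ← hrσ, hg1, hr]; group
      simp only [List.mem_cons, List.not_mem_nil, or_false] at hlσ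
      rcases hlσ with e | e <;> rw [e] at hlr
      · exact X.fours_not_conj g1⁻¹ ev fv (by simp [Vlist]) (by simp [Vlist]) hgE
          (by rw [← hFdef, ← hlr]; group)
      · refine X.fours_not_conj g1⁻¹ ev (ev * fv) (by simp [Vlist]) (by simp [Vlist]) hgE ?_
        rw [map_mul] at hlr ⊢
        calc g1⁻¹ * X.Φ cv * g1⁻¹⁻¹ = (g1⁻¹ * (X.Φ cv * E) * g1⁻¹⁻¹) * (g1⁻¹ * E * g1⁻¹⁻¹) := by
              rw [conj_mul, mul_assoc (X.Φ cv), hE2, mul_one]
          _ = F * E := by rw [hgE, hEdef, ← hlr]; group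
          _ = E * F := hEF
  -- the Z*-theorem
  have hfb2 : orderOf fb = 2 := by
    refine orderOf_eq_prime ?_ ?_
    · rw [hfb, ← QuotientGroup.mk_pow, show fY ^ 2 = 1 from Subtype.ext (by rw [pow_two]; exact hF2),
        QuotientGroup.mk_one]
    · intro e
      rcases memE _ ((QuotientGroup.eq_one_iff fY).1 e) with h | h
      · exact absurd (X.inj (h.trans (map_one X.Φ).symm)) (by decide +kernel)
      · exact absurd (X.inj h) (by decide +kernel)
  have : Fact (Nat.Prime 2) := ⟨Nat.prime_two⟩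
  obtain ⟨P, hP⟩ := (IsPGroup.of_card (n := 1) (by rw [Nat.card_zpowers, hfb2, pow_one]) :
    IsPGroup 2 (zpowers fb)).exists_le_sylow
  obtain ⟨N, hNn, hNodd, hN⟩ := Cfsg.Agent.S0215.result P fb hfb2 (hP (mem_zpowers fb))
    (isolated_of_commute P fb (hP (mem_zpowers fb)) hcomm)
  obtain ⟨W0, hW0odd, hW0, hW0lift⟩ := exists_odd_lift (zpowers eY) hcardE N hNodd
  set W := W0.map Y.subtype with hWdef
  have hWY : W ≤ Y := Subgroup.map_subtype_le _
  have hWodd : ∀ y ∈ W, Odd (orderOf y) := by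
    rintro _ ⟨y, hy, rfl⟩
    rw [orderOf_injective Y.subtype Subtype.val_injective]
    exact hW0odd.of_dvd_nat (Subgroup.orderOf_dvd_natCard _ hy)
  have hWconj : ∀ a ∈ Y, ∀ y ∈ W, a * y * a⁻¹ ∈ W := by
    rintro a ha _ ⟨y, hy, rfl⟩
    obtain ⟨h1, h2⟩ := (hW0 y).1 hy
    refine ⟨⟨a, ha⟩ * y * ⟨a, ha⟩⁻¹, (hW0 _).2 ⟨?_, ?_⟩, rfl⟩
    · rw [QuotientGroup.mk_mul, QuotientGroup.mk_mul, QuotientGroup.mk_inv]
      exact hNn.conj_mem _ h1 _
    · rw [conj_pow, h2, mul_one, mul_inv_cancel]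
  have inY : ∀ σ, σ * ev = ev * σ → X.Φ σ ∈ Y := fun σ h => (memY _).2 (X.map_comm h)
  -- decomposition
  have hdec : ∀ a ∈ Y, ∃ u ∈ W, ∃ σ ∈ L96, a = u * X.Φ σ := by
    intro a ha
    set ay : Y := ⟨a, ha⟩
    have hmem : ((fY * ay * fY⁻¹ * ay⁻¹ : Y) : Y ⧸ zpowers eY) ∈ N := by
      simp only [QuotientGroup.mk_mul, QuotientGroup.mk_inv]; exact hN _
    obtain ⟨e, he, hu⟩ := hW0lift _ hmem
    set u := ((fY * ay * fY⁻¹ * ay⁻¹ * e : Y) : G) with hudef
    have huW : u ∈ W := ⟨_, hu, rfl⟩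
    have hu' : u = F * (a * F * a⁻¹) * (e : G) := by
      rw [hudef]
      change F * a * F⁻¹ * a⁻¹ * (e : G) = _
      rw [hFi]; group
    have heC : ∀ b : G, b ∈ Y → (e : G) * b = b * e := by
      intro b hb
      rcases memE e he with h | h <;> rw [h]
      · rw [one_mul, mul_one]
      · exact ((memY b).1 hb).symm
    have he2 : (e : G) * e = 1 := by
      rcases memE e he with h | h <;> rw [h]
      · exact one_mul 1
      · exact hE2
    have hFu : F * u = (a * F * a⁻¹) * e := by rw [hu']; simp only [← mul_assoc, hF2, one_mul]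
    have hFuF : F * u * F = u⁻¹ := by
      refine eq_inv_of_mul_eq_one_left ?_
      calc F * u * F * u = (F * u) * (F * u) := by group
        _ = (a * F * a⁻¹) * (a * F * a⁻¹) * ((e : G) * e) := by
            rw [hFu, mul_assoc (a * F * a⁻¹) (e : G), ← mul_assoc (e : G) (a * F * a⁻¹),
              heC _ (mul_mem (mul_mem ha ((memY F).2 hEF)) (inv_mem ha))]
            group
        _ = 1 := by rw [he2, mul_one, conj_mul, hF2, mul_one, mul_inv_cancel]
    obtain ⟨k, hk⟩ := pow_half_eq (hWodd u huW)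
    set v := u ^ k with hv
    have hvv : v * v = u := by rw [hv, ← pow_two, ← pow_mul, mul_comm, pow_mul, ← hk]
    have hvF : F * v * F = v⁻¹ := by
      rw [hv, ← inv_pow, ← hFuF]
      have := conj_pow (a := F) (b := u) (i := k)
      rw [hFi] at this; exact this.symm
    have hvW : v ∈ W := pow_mem huW k
    have hva : v * a * E = E * (v * a) :=
      (memY _).1 (mul_mem (hWY hvW) ha)
    obtain ⟨σ, hσ, hσe⟩ := hmov (v * a) hva (by
      have h1 : v * a * F * (v * a)⁻¹ = v * (F * u) * v⁻¹ * e := by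
        rw [hFu]
        calc v * a * F * (v * a)⁻¹ = v * (a * F * a⁻¹) * v⁻¹ * 1 := by group
          _ = v * (a * F * a⁻¹) * v⁻¹ * ((e : G) * e) := by rw [he2]
          _ = v * (a * F * a⁻¹) * (v⁻¹ * (e : G)) * e := by group
          _ = _ := by rw [← heC _ (inv_mem (hWY hvW))]; group
      have h2 : v * (F * u) * v⁻¹ = F := by
        calc v * (F * u) * v⁻¹ = (F * F) * v * F * (v * v) * v⁻¹ := by rw [hvv, hF2, one_mul]; group
          _ = F * (F * v * F) * v := by group
          _ = F := by rw [hvF, inv_mul_cancel_right]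
      rw [h1, h2]
      rcases memE e he with h | h <;> rw [h]
      · left; rw [mul_one]
      · right; rfl)
    exact ⟨v⁻¹, inv_mem hvW, σ, hσ, by rw [← hσe, inv_mul_cancel_left]⟩
  -- the odd part meets the centraliser of the four group trivially
  have hWL : ∀ y ∈ W, y ∈ X.L → y = 1 := by
    intro y hy hyL
    obtain ⟨l, hl, rfl⟩ := X.L_spec.1 y hyL
    refine eq_one_of_odd_sq (hWodd _ hy) (X.map_sq (L48_cent_O16 l hl fun o ho => ?_))
    have hoY := inY o (O16_basic o ho).2.1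
    have hm : X.Φ (l * o * l⁻¹ * o⁻¹) ∈ W := by
      simp only [map_mul, map_inv]
      have h1 := hWconj _ hoY _ (inv_mem hy)
      rw [show X.Φ l * X.Φ o * (X.Φ l)⁻¹ * (X.Φ o)⁻¹ = X.Φ l * (X.Φ o * (X.Φ l)⁻¹ * (X.Φ o)⁻¹) by group]
      exact mul_mem hy h1
    have := eq_one_of_odd_sq (hWodd _ hm) (X.map_sq (O16_basic _ (L48_normal_O16 l hl o ho)).1)
    have h1 : l * o * l⁻¹ * o⁻¹ = 1 := X.inj (this.trans (map_one _).symm)
    calc l * o = (l * o * l⁻¹ * o⁻¹) * o * l := by group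
      _ = o * l := by rw [h1, one_mul]
  have hWM : ∀ y ∈ W, (y * F * y⁻¹ = F ∨ y * F * y⁻¹ = F * E) → y = 1 := by
    intro y hy h
    have hyE := (memY y).1 (hWY hy)
    have h2 : (y * y) * F * (y * y)⁻¹ = F := by
      rcases h with e | e
      · calc (y * y) * F * (y * y)⁻¹ = y * (y * F * y⁻¹) * y⁻¹ := by group
          _ = F := by rw [e, e]
      · calc (y * y) * F * (y * y)⁻¹ = y * (y * F * y⁻¹) * y⁻¹ := by group
          _ = y * (F * E) * y⁻¹ := by rw [e]
          _ = (y * F * y⁻¹) * (y * E * y⁻¹) := by group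
          _ = F := by rw [e, hyE, mul_inv_cancel_right, mul_assoc, hE2, mul_one]
    refine eq_one_of_odd_sq (hWodd _ hy) (hWL _ (mul_mem hy hy) (X.mem_L.2
      ⟨(memY _).1 (mul_mem (hWY hy) (hWY hy)), mul_inv_eq_iff_eq_mul.1 h2⟩))
  -- involutions without fixed points invert
  have hinv : ∀ T : G, T ∈ Y → T * T = 1 → (∀ y ∈ W, T * y * T = y → y = 1) →
      ∀ y ∈ W, T * y * T = y⁻¹ := by
    intro T hT hT2 hfix y hy
    have hTi : T⁻¹ = T := inv_eq_of_mul_eq_one_right hT2
    have hTW : ∀ u ∈ W, T * u * T ∈ W := fun u hu => by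
      have := hWconj T hT u hu; rwa [hTi] at this
    let θ : W → W := fun u => ⟨(u : G)⁻¹ * (T * u * T), mul_mem (inv_mem u.2) (hTW u u.2)⟩
    have hθ : Function.Injective θ := by
      intro a b hab
      have he : (a : G)⁻¹ * (T * a * T) = (b : G)⁻¹ * (T * b * T) := congrArg Subtype.val hab
      have h2 : T * ((b : G) * (a : G)⁻¹) * T = (b : G) * (a : G)⁻¹ := by
        calc T * ((b : G) * (a : G)⁻¹) * T = T * b * (T * T) * (a : G)⁻¹ * T := by rw [hT2]; group
          _ = (T * b * T) * (T * a * T)⁻¹ := by rw [mul_inv_rev, mul_inv_rev, hTi]; group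
          _ = b * ((b : G)⁻¹ * (T * b * T)) * ((a : G)⁻¹ * (T * a * T))⁻¹ * (a : G)⁻¹ := by group
          _ = _ := by rw [he]; group
      have := hfix _ (mul_mem b.2 (inv_mem a.2)) h2
      exact Subtype.ext (mul_inv_eq_one.1 this).symm
    obtain ⟨u, hu⟩ := (Finite.injective_iff_surjective.1 hθ) ⟨y, hy⟩
    have hu' : (u : G)⁻¹ * (T * u * T) = y := congrArg Subtype.val hu
    rw [← hu']
    calc T * ((u : G)⁻¹ * (T * u * T)) * T = T * (u : G)⁻¹ * T * u * (T * T) := by group
      _ = T⁻¹ * (u : G)⁻¹ * T⁻¹ * u := by rw [hT2, mul_one, hTi]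
      _ = _ := by group
  have hFW : ∀ y ∈ W, F * y * F = y⁻¹ := hinv F fY.2 hF2 fun y hy h => hWL y hy
    (X.mem_L.2 ⟨(memY y).1 (hWY hy), by
      calc y * X.Φ fv = (F * y * F) * F := by rw [h]
        _ = X.Φ fv * y := by rw [mul_assoc, hF2, mul_one]⟩)
  have hCY : C ∈ Y := inY cv cv_basic.2.1
  -- odd elements of the centraliser of the second four group
  have hodd : ∀ a ∈ Y, a * C = C * a → Odd (orderOf a) → a ∈ W := by
    intro a ha haC hao
    obtain ⟨u, hu, σ, hσ, rfl⟩ := hdec a ha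
    set y := u⁻¹ * (C * u * C) with hy
    have hyW : y ∈ W := mul_mem (inv_mem hu) (by have := hWconj C hCY u hu; rwa [hCi] at this)
    have hyσ : y = X.Φ (σ * cv * σ⁻¹ * cv) := by
      rw [map_mul, map_mul, map_mul, map_inv, ← hCdef, hy]
      calc u⁻¹ * (C * u * C) = u⁻¹ * (C * (u * X.Φ σ)) * (X.Φ σ)⁻¹ * C := by group
        _ = _ := by rw [← haC]; group
    have hy1 : y = 1 := hWM y hyW (by
      have h := (L96_fv σ hσ).2
      simp only [List.mem_cons, List.not_mem_nil, or_false] at h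
      rcases h with e | e
      · left; rw [hyσ, hFdef, ← map_inv, ← map_mul, ← map_mul, e]
      · right; rw [hyσ, hFdef, ← map_inv, ← map_mul, ← map_mul, e, map_mul])
    have hσc : σ * cv = cv * σ := by
      have h0 : σ * cv * σ⁻¹ * cv = 1 := X.inj (by rw [map_one, ← hyσ, hy1])
      calc σ * cv = (σ * cv * σ⁻¹ * cv) * cv * σ := by
            rw [mul_assoc (σ * cv * σ⁻¹) cv cv, cv_basic.1, mul_one, inv_mul_cancel_right]
        _ = cv * σ := by rw [h0, one_mul]
    have hσσ : X.Φ σ * X.Φ σ = 1 := X.map_sq (L96_cv σ hσ hσc)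
    have hσY : X.Φ σ ∈ Y := by
      have := mul_mem (inv_mem (hWY hu)) ha; rwa [inv_mul_cancel_left] at this
    obtain ⟨k, hk⟩ := pow_half_eq hao
    rw [hk]
    refine pow_mem ?_ k
    rw [pow_two, show u * X.Φ σ * (u * X.Φ σ) = u * (X.Φ σ * u * (X.Φ σ)⁻¹) * (X.Φ σ * X.Φ σ) by group,
      hσσ, mul_one]
    exact mul_mem hu (hWconj _ hσY u hu)
  have hWC : ∀ y ∈ W, C * y * C = y → y = 1 := by
    intro y hy hyC
    have hyC' : y * C = C * y := by
      calc y * C = (C * y * C) * C := by rw [hyC]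
        _ = C * y := by rw [mul_assoc, hC2, mul_one]
    have hyE := (memY y).1 (hWY hy)
    set q := X.Φ qv with hq
    have hqE : q * E * q⁻¹ = C * E := by
      rw [hq, hEdef, hCdef, ← map_inv, ← map_mul, ← map_mul, qv_table.1, map_mul]
    have hqC : q * C * q⁻¹ = E := by
      rw [hq, hEdef, hCdef, ← map_inv, ← map_mul, ← map_mul, qv_table.2.1]
    have k1 : (q * y * q⁻¹) * E = E * (q * y * q⁻¹) := by
      rw [← hqC, conj_mul, conj_mul, hyC']
    have k2 : (q * y * q⁻¹) * (C * E) = (C * E) * (q * y * q⁻¹) := by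
      rw [← hqE, conj_mul, conj_mul, hyE]
    have k3 : (q * y * q⁻¹) * C = C * (q * y * q⁻¹) := by
      have := (show Commute _ (C * E) from k2).mul_right (show Commute _ E from k1)
      rw [mul_assoc C E E, hE2, mul_one] at this
      exact this.eq
    have hqy := hFW _ (hodd _ ((memY _).2 k1) k3 (by
      rw [← MulAut.conj_apply, ← MulEquiv.coe_toMonoidHom,
        orderOf_injective _ (MulAut.conj q).injective]
      exact hWodd y hy))
    set F' := q⁻¹ * F * q with hF'
    have hF'y : F' * y * F' = y⁻¹ := by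
      calc F' * y * F' = q⁻¹ * (F * (q * y * q⁻¹) * F) * q := by rw [hF']; group
        _ = _ := by rw [hqy]; group
    have hty : y * (F * F') = (F * F') * y := by
      have h1 : F' * y = y⁻¹ * F' := by
        have hF'2 : F' * F' = 1 := by
          rw [hF', show q⁻¹ * F * q * (q⁻¹ * F * q) = q⁻¹ * (F * F) * q by group, hF2, mul_one,
            inv_mul_cancel]
        calc F' * y = F' * y * (F' * F') := by rw [hF'2, mul_one]
          _ = (F' * y * F') * F' := by group
          _ = y⁻¹ * F' := by rw [hF'y]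
      have h2 : F * y⁻¹ = y * F := by
        calc F * y⁻¹ = F * (F * y * F) := by rw [hFW y hy]
          _ = y * F := by simp only [← mul_assoc, hF2, one_mul]
      calc y * (F * F') = (y * F) * F' := by rw [mul_assoc]
        _ = F * (y⁻¹ * F') := by rw [← h2, mul_assoc]
        _ = F * (F' * y) := by rw [h1]
        _ = F * F' * y := (mul_assoc _ _ _).symm
    have hΦt : F * F' = X.Φ (uk * (u1 * u2) * uk⁻¹) := by
      rw [uk_table, hF', hFdef, hq, map_mul, map_mul, map_mul, map_inv]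
    rw [hΦt, map_mul, map_mul, map_inv, X.map_u12] at hty
    obtain ⟨e, a, b, hab⟩ := X.czw ((X.Φ uk)⁻¹ * y * X.Φ uk) (by
      calc (X.Φ uk)⁻¹ * y * X.Φ uk * (X.K.z * X.K.w)
          = (X.Φ uk)⁻¹ * (y * (X.Φ uk * (X.K.z * X.K.w) * (X.Φ uk)⁻¹)) * X.Φ uk := by group
        _ = (X.Φ uk)⁻¹ * ((X.Φ uk * (X.K.z * X.K.w) * (X.Φ uk)⁻¹) * y) * X.Φ uk := by rw [hty]
        _ = _ := by group)
    have hyk : y = X.Φ (uk * (sw ^ e.1 * (u1 ^ a.1 * u2 ^ b.1)) * uk⁻¹) := by
      rw [map_mul, map_mul X.Φ uk, map_inv, ← hab]; group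
    subst hyk
    refine eq_one_of_odd_sq (hWodd _ hy) (X.map_sq (uk_cent e a b (X.comm_of hyE) (X.comm_of hyC') ?_))
    exact X.inj (by simp only [map_mul, map_inv]; simpa only [map_mul, map_inv] using hFW _ hy)
  have hCW : ∀ y ∈ W, C * y * C = y⁻¹ := hinv C hCY hC2 hWC
  have hBY : X.Φ bv ∈ Y := inY bv (by decide +kernel)
  set C' := X.Φ bv * C * X.Φ bv with hC'
  have hC'W : ∀ y ∈ W, C' * y * C' = y⁻¹ := by
    intro y hy
    have hb2 : X.Φ bv * X.Φ bv = 1 := X.map_sq conj_facts.2.2.2.2.1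
    have hbi : (X.Φ bv)⁻¹ = X.Φ bv := inv_eq_of_mul_eq_one_right hb2
    have hby : X.Φ bv * y * X.Φ bv ∈ W := by
      have := hWconj _ hBY y hy; rwa [hbi] at this
    calc C' * y * C' = X.Φ bv * (C * (X.Φ bv * y * X.Φ bv) * C) * X.Φ bv := by rw [hC']; group
      _ = (X.Φ bv * X.Φ bv) * y⁻¹ * (X.Φ bv * X.Φ bv) := by
          rw [hCW _ hby, mul_inv_rev, mul_inv_rev, hbi]; group
      _ = y⁻¹ := by rw [hb2, one_mul, mul_one]
  have hAW : ∀ y ∈ W, y * X.Φ av = X.Φ av * y := by
    intro y hy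
    have hav : X.Φ av = C * C' := by
      rw [hC', hCdef, ← map_mul, ← map_mul, ← map_mul, conj_facts.2.2.2.1]
    have hC'2 : C' * C' = 1 := by
      rw [hC', show X.Φ bv * C * X.Φ bv * (X.Φ bv * C * X.Φ bv) =
        X.Φ bv * C * (X.Φ bv * X.Φ bv) * C * X.Φ bv by group, X.map_sq conj_facts.2.2.2.2.1,
        mul_one, mul_assoc (X.Φ bv), hC2, mul_one, X.map_sq conj_facts.2.2.2.2.1]
    have h1 : C' * y = y⁻¹ * C' := by
      rw [← hC'W y hy, mul_assoc (C' * y), hC'2, mul_one]
    have h2 : C * y⁻¹ = y * C := by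
      rw [← hCW y hy, ← mul_assoc, ← mul_assoc, hC2, one_mul]
    rw [hav]
    calc y * (C * C') = (y * C) * C' := by rw [mul_assoc]
      _ = C * (y⁻¹ * C') := by rw [← h2, mul_assoc]
      _ = C * (C' * y) := by rw [h1]
      _ = C * C' * y := (mul_assoc _ _ _).symm
  -- the odd part is trivial
  have hW1 : ∀ y ∈ W, y = 1 := by
    intro y hy
    have hz : X.Φ (u1 * u1) ∈ Y := inY _ (by decide +kernel)
    have hB : y * X.Φ bv = X.Φ bv * y := by
      have h := hWconj _ (inv_mem hz) y hy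
      rw [inv_inv] at h
      have := hAW _ h
      rw [← conj_facts.2.2.2.2.2, map_mul, map_mul, map_inv]
      calc y * (X.Φ (u1 * u1) * X.Φ av * (X.Φ (u1 * u1))⁻¹)
          = X.Φ (u1 * u1) * ((X.Φ (u1 * u1))⁻¹ * y * X.Φ (u1 * u1) * X.Φ av) * (X.Φ (u1 * u1))⁻¹ := by group
        _ = _ := by rw [this]; group
    have hsw : X.Φ sw * X.Φ sw = 1 := X.map_sq sw_four.2.2
    have hA := hAW y hy
    obtain ⟨l, hl, hle⟩ := X.L_spec.1 (X.Φ sw * y * X.Φ sw) (by
      have key : ∀ p q : alternatingGroup (Fin 8), sw * p * sw = q → y * X.Φ q = X.Φ q * y →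
          X.Φ sw * y * X.Φ sw * X.Φ p = X.Φ p * (X.Φ sw * y * X.Φ sw) := by
        intro p q hpq hq
        rw [← hpq, map_mul, map_mul] at hq
        calc X.Φ sw * y * X.Φ sw * X.Φ p
            = X.Φ sw * (y * (X.Φ sw * X.Φ p * X.Φ sw)) * (X.Φ sw)⁻¹ := by group
          _ = X.Φ sw * ((X.Φ sw * X.Φ p * X.Φ sw) * y) * (X.Φ sw)⁻¹ := by rw [hq]
          _ = (X.Φ sw * X.Φ sw) * (X.Φ p * X.Φ sw * y) * (X.Φ sw)⁻¹ := by group
          _ = _ := by rw [hsw, one_mul, inv_eq_of_mul_eq_one_right hsw]; group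
      exact X.mem_L.2 ⟨key ev av sw_four.1 hA, key fv bv sw_four.2.1 hB⟩)
    have hyl : y = X.Φ (sw * l * sw) := by
      rw [map_mul, map_mul, ← hle]
      calc y = (X.Φ sw * X.Φ sw) * y * (X.Φ sw * X.Φ sw) := by rw [hsw, one_mul, mul_one]
        _ = _ := by group
    subst hyl
    refine eq_one_of_odd_sq (hWodd _ hy)
      (X.map_sq (sw_L48 l hl (X.comm_of ((memY _).1 (hWY hy))) ?_))
    exact X.inj (by simp only [map_mul, map_inv]; simpa only [map_mul, map_inv] using hFW _ hy)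
  obtain ⟨u, hu, σ, hσ, rfl⟩ := hdec x ((memY x).2 hx)
  exact ⟨σ, hσ, by rw [hW1 u hu, one_mul]⟩

end Embedded

end CfsgLib.AltEight29
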