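import Cfsg.Agent.AltEight29.Tables

/-!
Normalised data for the three-local recognition of the alternating group of degree eight: an
embedding of `M35` onto the normaliser of a subgroup of order three and an involution exchanging
the two standard generators of the Sylow three-subgroup.
-/

set_option autoImplicit false

open Equiv Subgroup

namespace CfsgLib.AltEight29

variable {G : Type*} [Group G]

/-- The normalised configuration. -/
structure Config (G : Type*) [Group G] where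
  ι : M35 →* G
  inj : Function.Injective ι
  range_eq : ι.range = normalizer (zpowers (ι zM) : Set G)
  n : G
  n_sq : n * n = 1
  n_z : n * ι zM * n = ι wM
  n_w : n * ι wM * n = ι zM
  cent_D : ∀ g : G, g * ι zM = ι zM * g → g * ι wM = ι wM * g →
    ∃ a b : ℕ, g = ι (zM ^ a * wM ^ b)
  card_zw : Nat.card (centralizer ({ι zM * ι wM} : Set G)) = 18
  not27 : ¬ 27 ∣ Nat.card G

/-- Words `z ^ a * w ^ b` in two commuting elements of exponent three. -/
theorem mem_closure_two {z w x : G} (hzw : Commute z w) (hz : z ^ 3 = 1) (hw : w ^ 3 = 1)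
    (hx : x ∈ closure ({z, w} : Set G)) : ∃ a b : ℕ, a < 3 ∧ b < 3 ∧ x = z ^ a * w ^ b := by
  suffices h : ∃ a b : ℕ, x = z ^ a * w ^ b by
    obtain ⟨a, b, rfl⟩ := h
    exact ⟨a % 3, b % 3, Nat.mod_lt _ (by norm_num), Nat.mod_lt _ (by norm_num), by
      rw [← pow_eq_pow_mod a hz, ← pow_eq_pow_mod b hw]⟩
  induction hx using Subgroup.closure_induction with
  | mem y hy =>
    rcases hy with rfl | rfl
    · exact ⟨1, 0, by simp⟩
    · exact ⟨0, 1, by simp⟩
  | one => exact ⟨0, 0, by simp⟩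
  | mul y y' _ _ h h' =>
    obtain ⟨a, b, rfl⟩ := h
    obtain ⟨a', b', rfl⟩ := h'
    exact ⟨a + a', b + b', by rw [pow_add, pow_add]; exact ((hzw.pow_pow a' b).symm.mul_mul_mul_comm _ _)⟩
  | inv y _ h =>
    obtain ⟨a, b, rfl⟩ := h
    refine ⟨2 * a, 2 * b, inv_eq_of_mul_eq_one_right ?_⟩
    rw [((hzw.pow_pow (2 * a) b).symm.mul_mul_mul_comm _ _), ← pow_add, ← pow_add]
    have h1 : z ^ (a + 2 * a) = 1 := by rw [show a + 2 * a = 3 * a by ring, pow_mul, hz, one_pow]
    have h2 : w ^ (b + 2 * b) = 1 := by rw [show b + 2 * b = 3 * b by ring, pow_mul, hw, one_pow]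
    rw [h1, h2, one_mul]

/-- Conjugation carries centralisers of elements to one another. -/
theorem card_centralizer_conj (g x : G) :
    Nat.card (centralizer ({g * x * g⁻¹} : Set G)) = Nat.card (centralizer ({x} : Set G)) := by
  refine Nat.card_congr ((MulAut.conj g⁻¹).toEquiv.subtypeEquiv fun a => ?_)
  rw [mem_centralizer_singleton_iff, mem_centralizer_singleton_iff]
  change a * (g * x * g⁻¹) = g * x * g⁻¹ * a ↔
    (g⁻¹ * a * g⁻¹⁻¹) * x = x * (g⁻¹ * a * g⁻¹⁻¹)
  constructor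
  · intro h
    calc (g⁻¹ * a * g⁻¹⁻¹) * x = g⁻¹ * (a * (g * x * g⁻¹)) * g := by group
      _ = g⁻¹ * (g * x * g⁻¹ * a) * g := by rw [h]
      _ = _ := by group
  · intro h
    calc a * (g * x * g⁻¹) = g * ((g⁻¹ * a * g⁻¹⁻¹) * x) * g⁻¹ := by group
      _ = g * (x * (g⁻¹ * a * g⁻¹⁻¹)) * g⁻¹ := by rw [h]
      _ = _ := by group

theorem card_centralizer_inv (x : G) :
    Nat.card (centralizer ({x⁻¹} : Set G)) = Nat.card (centralizer ({x} : Set G)) := by
  refine Nat.card_congr (Equiv.subtypeEquivRight fun a => ?_)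
  rw [mem_centralizer_singleton_iff, mem_centralizer_singleton_iff]
  exact ⟨fun h => by simpa using (show Commute a x⁻¹ from h).inv_right.eq,
    fun h => (show Commute a x from h).inv_right.eq⟩

/-- The frame of the proof that a configuration exists. -/
theorem exists_config_of [Finite G] (ι : M35 →* G) (inj : Function.Injective ι)
    (range_eq : ι.range = normalizer (zpowers (ι zM) : Set G))
    (h27 : ¬ 27 ∣ Nat.card G)
    (hC : ∀ g : G, g * ι zM = ι zM * g → g * ι wM = ι wM * g →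
      g ∈ closure ({ι zM, ι wM} : Set G))
    (q : G) (hq2 : q * q ∉ closure ({ι zM, ι wM} : Set G))
    (hqN : q ∈ normalizer (closure ({ι zM, ι wM} : Set G) : Set G))
    (hconj : ∀ x ∈ normalizer (closure ({ι zM, ι wM} : Set G) : Set G),
      ((x * q * x⁻¹) * q⁻¹ ∈ closure ({ι zM, ι wM} : Set G) ∨
        (x * q * x⁻¹) * q ∈ closure ({ι zM, ι wM} : Set G)) ∧
      (x * (q * q) * x⁻¹) * (q * q)⁻¹ ∈ closure ({ι zM, ι wM} : Set G))
    (hC180 : Nat.card (centralizer ({ι zM} : Set G)) = 180)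
    (y : G) (hy : y ∈ closure ({ι zM, ι wM} : Set G))
    (hy18 : Nat.card (centralizer ({y} : Set G)) = 18) : Nonempty (Config G) := by
  set z := ι zM with hzdef
  set w := ι wM with hwdef
  set h := ι hM with hhdef
  set k := ι kM with hkdef
  set D := closure ({z, w} : Set G) with hD
  have hzw : Commute z w := by
    change ι zM * ι wM = ι wM * ι zM; rw [← map_mul, ← map_mul, zM_wM]
  have hz : z ^ 3 = 1 := by rw [hzdef, ← map_pow, zM_cube, map_one]
  have hw : w ^ 3 = 1 := by rw [hwdef, ← map_pow, wM_cube, map_one]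
  have hhz : h * z * h⁻¹ = z := by
    rw [hhdef, hzdef, ← map_inv, ← map_mul, ← map_mul, hM_z, mul_inv_cancel_right]
  have hhw : h * w * h⁻¹ = w⁻¹ := by
    rw [hhdef, hwdef, ← map_inv, ← map_mul, ← map_mul, hM_w, mul_inv_cancel_right, map_inv]
  have hkz : k * z * k⁻¹ = z⁻¹ := by
    rw [hkdef, hzdef, ← map_inv, ← map_mul, ← map_mul, kM_z, mul_inv_cancel_right, map_inv]
  have hkw : k * w * k⁻¹ = w := by
    rw [hkdef, hwdef, ← map_inv, ← map_mul, ← map_mul, kM_w, mul_inv_cancel_right]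
  have hzD : z ∈ D := subset_closure (by simp)
  have hwD : w ∈ D := subset_closure (by simp)
  have hDmem : ∀ x ∈ D, ∃ a b : ℕ, a < 3 ∧ b < 3 ∧ x = z ^ a * w ^ b :=
    fun x hx => mem_closure_two hzw hz hw hx
  have hDc : ∀ d ∈ D, ∀ x ∈ D, d * x * d⁻¹ = x := by
    intro d hd x hx
    obtain ⟨a, b, -, -, rfl⟩ := hDmem d hd
    obtain ⟨a', b', -, -, rfl⟩ := hDmem x hx
    have hc : Commute (z ^ a * w ^ b) (z ^ a' * w ^ b') :=
      (((Commute.refl z).pow_pow a a').mul_right (hzw.pow_pow a b')).mul_left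
        ((hzw.symm.pow_pow b a').mul_right ((Commute.refl w).pow_pow b b'))
    rw [hc.eq, mul_inv_cancel_right]
  -- action by elements inverting or fixing the generators
  have normal_of : ∀ x : G, x * z * x⁻¹ ∈ D → x * w * x⁻¹ ∈ D →
      x ∈ normalizer (D : Set G) := by
    intro x h1 h2
    have hle : D.map (MulAut.conj x).toMonoidHom ≤ D := by
      rw [hD, MonoidHom.map_closure, closure_le]
      rintro _ ⟨u, hu, rfl⟩
      rcases hu with rfl | rfl
      · exact h1
      · exact h2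
    have hcard : D.map (MulAut.conj x).toMonoidHom = D :=
      Subgroup.eq_of_le_of_card_ge hle (le_of_eq (Nat.card_congr
        (Subgroup.equivMapOfInjective D _ (MulAut.conj x).injective).toEquiv))
    rw [mem_normalizer_iff]
    refine fun u => ⟨fun hu => hle ⟨u, hu, rfl⟩, fun hu => ?_⟩
    rw [← hcard] at hu
    obtain ⟨v, hv, hvu⟩ := hu
    rwa [← (MulAut.conj x).injective hvu]
  have hhN : h ∈ normalizer (D : Set G) :=
    normal_of h (by rw [hhz]; exact hzD) (by rw [hhw]; exact inv_mem hwD)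
  have hkN : k ∈ normalizer (D : Set G) :=
    normal_of k (by rw [hkz]; exact inv_mem hzD) (by rw [hkw]; exact hwD)
  -- elements fixed or inverted by `h` or `k`
  have hfix : ∀ x ∈ D, h * x * h⁻¹ = x → ∃ a : ℕ, a < 3 ∧ x = z ^ a := by
    intro x hx hxe
    obtain ⟨a, b, ha, hb, rfl⟩ := hDmem x hx
    rw [← conj_mul, ← conj_pow, ← conj_pow, hhz, hhw, mul_right_inj, inv_pow] at hxe
    have hb2 : w ^ (b + b) = 1 := by
      rw [pow_add]; nth_rewrite 1 [← hxe]; rw [inv_mul_cancel]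
    refine ⟨a, ha, ?_⟩
    have : w ^ b = 1 := by
      calc w ^ b = (w ^ 3) ^ b * (w ^ (b + b))⁻¹ := by rw [← pow_mul, eq_mul_inv_iff_mul_eq, ← pow_add]; congr 1; ring
        _ = 1 := by rw [hw, hb2, one_pow, inv_one, one_mul]
    rw [this, mul_one]
  have kfix : ∀ x ∈ D, k * x * k⁻¹ = x → ∃ b : ℕ, b < 3 ∧ x = w ^ b := by
    intro x hx hxe
    obtain ⟨a, b, ha, hb, rfl⟩ := hDmem x hx
    rw [← conj_mul, ← conj_pow, ← conj_pow, hkz, hkw, mul_left_inj, inv_pow] at hxe
    have hb2 : z ^ (a + a) = 1 := by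
      rw [pow_add]; nth_rewrite 1 [← hxe]; rw [inv_mul_cancel]
    refine ⟨b, hb, ?_⟩
    have : z ^ a = 1 := by
      calc z ^ a = (z ^ 3) ^ a * (z ^ (a + a))⁻¹ := by rw [← pow_mul, eq_mul_inv_iff_mul_eq, ← pow_add]; congr 1; ring
        _ = 1 := by rw [hz, hb2, one_pow, inv_one, one_mul]
    rw [this, one_mul]
  have hz1 : z ≠ 1 := fun e => zM_ne (inj (by rw [map_one]; exact e))
  -- `q` does not normalise the first generator
  have hqz : q * z * q⁻¹ ∉ zpowers z := by
    intro hmem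
    have hqr : q ∈ ι.range := by
      rw [range_eq, mem_normalizer_iff]
      have hle : (zpowers z).map (MulAut.conj q).toMonoidHom ≤ zpowers z := by
        rw [MonoidHom.map_zpowers, zpowers_le]; exact hmem
      have hcard : (zpowers z).map (MulAut.conj q).toMonoidHom = zpowers z :=
        Subgroup.eq_of_le_of_card_ge hle (le_of_eq (Nat.card_congr
          (Subgroup.equivMapOfInjective _ _ (MulAut.conj q).injective).toEquiv))
      refine fun u => ⟨fun hu => hle ⟨u, hu, rfl⟩, fun hu => ?_⟩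
      rw [← hcard] at hu
      obtain ⟨v, hv, hvu⟩ := hu
      rwa [← (MulAut.conj q).injective hvu]
    obtain ⟨m, rfl⟩ := hqr
    obtain ⟨a, b, ha, hb, hab⟩ := hDmem _
      ((mem_normalizer_iff.1 hqN w).1 hwD)
    have e : m * wM * m⁻¹ = zM ^ a * wM ^ b := inj (by
      simp only [map_mul, map_pow, map_inv]; exact hab)
    have e2 : m.1.2 * c5 * m.1.2⁻¹ = c5 ^ b := by
      simpa [zM, wM, mk35] using congrArg (fun t : M35 => t.1.2) e
    have hmemc : m.1.2 * c5 * m.1.2⁻¹ ∈ [c5, c5 * c5] := by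
      interval_cases b
      · exfalso
        rw [pow_zero, mul_inv_eq_one, mul_eq_left] at e2
        exact absurd e2 (by decide +kernel)
      · rw [e2, pow_one]; simp
      · rw [e2, pow_two]; simp
    have htt := normal_square_table _ hmemc
    apply hq2
    have hss : m.1.1 * m.1.1 = 1 ∨ m.1.1 * m.1.1 = c3 ∨ m.1.1 * m.1.1 = c3 * c3 := by
      have : ∀ σ : Perm (Fin 3), σ * σ = 1 ∨ σ * σ = c3 ∨ σ * σ = c3 * c3 := by decide +kernel
      exact this _
    obtain ⟨a, ha⟩ : ∃ a : ℕ, m.1.1 * m.1.1 = c3 ^ a := by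
      rcases hss with e | e | e
      · exact ⟨0, e⟩
      · exact ⟨1, by rw [e, pow_one]⟩
      · exact ⟨2, by rw [e, pow_two]⟩
    obtain ⟨b, hb⟩ : ∃ b : ℕ, m.1.2 * m.1.2 = c5 ^ b := by
      simp only [List.mem_cons, List.not_mem_nil, or_false] at htt
      rcases htt with e | e | e
      · exact ⟨0, e⟩
      · exact ⟨1, by rw [e, pow_one]⟩
      · exact ⟨2, by rw [e, pow_two]⟩
    have : m * m = zM ^ a * wM ^ b := Subtype.ext (by
      simp only [Subgroup.coe_mul, SubgroupClass.coe_pow]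
      refine Prod.ext ?_ ?_ <;> simp [zM, wM, mk35, ha, hb])
    rw [← map_mul, this, map_mul, map_pow, map_pow]
    exact mul_mem (pow_mem hzD a) (pow_mem hwD b)
  -- the square of `q` inverts
  have huN : q * q ∈ normalizer (D : Set G) := mul_mem hqN hqN
  have swap_of : ∀ x ∈ normalizer (D : Set G), ∀ t : G, ∀ e ∈ D,
      x * t * x⁻¹ = e * t → ∀ d ∈ D, x * d * x⁻¹ = d → x * (t * d * t⁻¹) * x⁻¹ = e * (t * d * t⁻¹) * e⁻¹ := by
    intro x _ t e _ hxt d _ hxd
    calc x * (t * d * t⁻¹) * x⁻¹ = (x * t * x⁻¹) * (x * d * x⁻¹) * (x * t * x⁻¹)⁻¹ := by group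
      _ = _ := by rw [hxt, hxd]; group
  obtain ⟨eh, heh⟩ : ∃ e, e = (h * (q * q) * h⁻¹) * (q * q)⁻¹ := ⟨_, rfl⟩
  have hehD : eh ∈ D := heh ▸ (hconj h hhN).2
  obtain ⟨ek, hek⟩ : ∃ e, e = (k * (q * q) * k⁻¹) * (q * q)⁻¹ := ⟨_, rfl⟩
  have hekD : ek ∈ D := hek ▸ (hconj k hkN).2
  have huz : ∃ a : ℕ, a < 3 ∧ q * q * z * (q * q)⁻¹ = z ^ a := by
    have hm := (mem_normalizer_iff.1 huN z).1 hzD
    refine hfix _ hm ?_
    rw [swap_of h hhN (q * q) eh hehD (by rw [heh]; group) z hzD hhz]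
    exact hDc eh hehD _ hm
  have huw : ∃ b : ℕ, b < 3 ∧ q * q * w * (q * q)⁻¹ = w ^ b := by
    have hm := (mem_normalizer_iff.1 huN w).1 hwD
    refine kfix _ hm ?_
    rw [swap_of k hkN (q * q) ek hekD (by rw [hek]; group) w hwD hkw]
    exact hDc ek hekD _ hm
  have hqzD : q * z * q⁻¹ ∈ D := (mem_normalizer_iff.1 hqN z).1 hzD
  have notcomm_h : (h * q * h⁻¹) * q⁻¹ ∉ D := by
    intro he
    obtain ⟨a, -, ha⟩ := hfix _ hqzD (by
      rw [swap_of h hhN q _ he (by group) z hzD hhz]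
      exact hDc _ he _ hqzD)
    exact hqz (ha ▸ pow_mem (mem_zpowers z) a)
  have hhq : (h * q * h⁻¹) * q ∈ D := ((hconj h hhN).1).resolve_left notcomm_h
  -- determine the action of `q * q`
  have hw1 : w ≠ 1 := fun e => by
    have : wM = 1 := inj (by rw [map_one]; exact e)
    exact absurd this (by decide +kernel)
  obtain ⟨a, ha, haz⟩ := huz
  obtain ⟨b, hb, hbw⟩ := huw
  have ha0 : a ≠ 0 := fun e => by
    rw [e, pow_zero, mul_inv_eq_one, mul_eq_left] at haz; exact hz1 haz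
  have hb0 : b ≠ 0 := fun e => by
    rw [e, pow_zero, mul_inv_eq_one, mul_eq_left] at hbw; exact hw1 hbw
  have hz2 : z ^ 2 = z⁻¹ := eq_inv_of_mul_eq_one_left (by rw [← pow_succ, hz])
  have hw2 : w ^ 2 = w⁻¹ := eq_inv_of_mul_eq_one_left (by rw [← pow_succ, hw])
  -- if `q * q` acts as an element `t` of the diagonal group then `q` commutes with `t` modulo `D`
  have hself : ∀ t : G, t * z * t⁻¹ = q * q * z * (q * q)⁻¹ → t * w * t⁻¹ = q * q * w * (q * q)⁻¹ →
      (t * q * t⁻¹) * q⁻¹ ∈ D := by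
    intro t h1 h2
    have hd : (q * q)⁻¹ * t ∈ D := by
      apply hC
      · rw [← mul_inv_eq_iff_eq_mul]
        calc (q * q)⁻¹ * t * z * ((q * q)⁻¹ * t)⁻¹ = (q * q)⁻¹ * (t * z * t⁻¹) * (q * q) := by simp only [mul_inv_rev, inv_inv, mul_assoc]
          _ = z := by rw [h1]; group
      · rw [← mul_inv_eq_iff_eq_mul]
        calc (q * q)⁻¹ * t * w * ((q * q)⁻¹ * t)⁻¹ = (q * q)⁻¹ * (t * w * t⁻¹) * (q * q) := by simp only [mul_inv_rev, inv_inv, mul_assoc]
          _ = w := by rw [h2]; group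
    obtain ⟨d, hdD, rfl⟩ : ∃ d ∈ D, t = q * q * d := ⟨_, hd, by group⟩
    have h3 : (d * (q * d⁻¹ * q⁻¹)) ∈ D :=
      mul_mem hdD ((mem_normalizer_iff.1 hqN d⁻¹).1 (inv_mem hdD))
    have h4 := (mem_normalizer_iff.1 huN _).1 h3
    convert h4 using 1
    group
  have ha2 : a = 2 := by
    rcases (by omega : a = 1 ∨ a = 2) with rfl | rfl
    · exfalso
      rcases (by omega : b = 1 ∨ b = 2) with rfl | rfl
      · exact hq2 (hC _ (by rw [pow_one] at haz; rw [← mul_inv_eq_iff_eq_mul, haz])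
          (by rw [pow_one] at hbw; rw [← mul_inv_eq_iff_eq_mul, hbw]))
      · exact notcomm_h (hself h (by rw [hhz, haz, pow_one]) (by rw [hhw, hbw, hw2]))
    · rfl
  have hb2 : b = 2 := by
    rcases (by omega : b = 1 ∨ b = 2) with rfl | rfl
    · exfalso
      have hc := hself k (by rw [hkz, haz, ha2, hz2]) (by rw [hkw, hbw, pow_one])
      have hm := (mem_normalizer_iff.1 hqN w).1 hwD
      obtain ⟨b', hb', he⟩ := kfix _ hm (by
        rw [swap_of k hkN q _ hc (by group) w hwD hkw]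
        exact hDc _ hc _ hm)
      have hb'0 : b' ≠ 0 := fun e => by
        rw [e, pow_zero, mul_inv_eq_one, mul_eq_left] at he; exact hw1 he
      obtain ⟨a', c', ha', hc', hz'⟩ := hDmem _ hqzD
      -- then `q` normalises the second generator, and `k` forces the first one to be normalised
      have hk' : k * (q * z * q⁻¹) * k⁻¹ = (q * z * q⁻¹)⁻¹ := by
        calc k * (q * z * q⁻¹) * k⁻¹ = (k * q * k⁻¹ * q⁻¹) * (q * (k * z * k⁻¹) * q⁻¹) *
              (k * q * k⁻¹ * q⁻¹)⁻¹ := by group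
          _ = _ := by
              rw [hkz, hDc _ hc _ ((mem_normalizer_iff.1 hqN _).1 (inv_mem hzD))]; group
      rw [hz', ← conj_mul, ← conj_pow, ← conj_pow, hkz, hkw, mul_inv_rev,
        (hzw.pow_pow a' c').inv_inv.symm.eq, inv_pow, mul_right_inj] at hk'
      have hc0 : c' = 0 := by
        by_contra hne
        rcases (by omega : c' = 1 ∨ c' = 2) with rfl | rfl
        · rw [pow_one] at hk'
          exact hw1 (by calc w = (w * w)⁻¹ * (w ^ 3) := by group
                          _ = 1 := by rw [hw, mul_one]; nth_rewrite 2 [hk']; simp)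
        · rw [hw2, inv_inv] at hk'
          exact hw1 (by calc w = (w ^ 3) * (w * w)⁻¹ := by group
                          _ = 1 := by rw [hw, one_mul]; nth_rewrite 1 [← hk']; simp)
      exact hqz (by rw [hz', hc0, pow_zero, mul_one]; exact pow_mem (mem_zpowers z) a')
    · rfl
  subst ha2 hb2
  rw [hz2] at haz
  rw [hw2] at hbw
  obtain ⟨a, b, ha, hb, hv⟩ := hDmem _ hqzD
  have hb0 : b ≠ 0 := fun e => hqz (by rw [hv, e, pow_zero, mul_one]; exact pow_mem (mem_zpowers z) a)
  -- `h q h⁻¹` is congruent to `q⁻¹`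
  have hinvq : q⁻¹ * z * q = z ^ a * (w⁻¹) ^ b := by
    have h1 : h * (q * z * q⁻¹) * h⁻¹ = z ^ a * (w⁻¹) ^ b := by
      rw [hv, ← conj_mul, ← conj_pow, ← conj_pow, hhz, hhw]
    have h2 : h * (q * z * q⁻¹) * h⁻¹ =
        (h * q * h⁻¹ * q) * (q⁻¹ * z * q) * (h * q * h⁻¹ * q)⁻¹ := by
      calc h * (q * z * q⁻¹) * h⁻¹ = (h * q * h⁻¹) * (h * z * h⁻¹) * (h * q * h⁻¹)⁻¹ := by group
        _ = _ := by rw [hhz]; group
    have hm : q⁻¹ * z * q ∈ D := by
      simpa using (mem_normalizer_iff.1 (inv_mem hqN) z).1 hzD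
    rw [hDc _ hhq _ hm] at h2
    rw [← h2, h1]
  have hinvq' : q⁻¹ * z * q = (z ^ a * w ^ b)⁻¹ := by
    calc q⁻¹ * z * q = q⁻¹ * (q * q * z * (q * q)⁻¹)⁻¹ * q := by rw [haz, inv_inv]
      _ = (q * z * q⁻¹)⁻¹ := by group
      _ = _ := by rw [hv]
  rw [hinvq, mul_inv_rev, inv_pow, (hzw.pow_pow a b).inv_inv.symm.eq, mul_left_inj] at hinvq'
  have ha0 : a = 0 := by
    by_contra hne
    rcases (by omega : a = 1 ∨ a = 2) with rfl | rfl
    · rw [pow_one] at hinvq'
      exact hz1 (by calc z = (z * z)⁻¹ * (z ^ 3) := by group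
                      _ = 1 := by rw [hz, mul_one]; nth_rewrite 1 [hinvq']; simp)
    · rw [hz2, inv_inv] at hinvq'
      exact hz1 (by calc z = (z ^ 3) * (z * z)⁻¹ := by group
                      _ = 1 := by rw [hz, one_mul]; nth_rewrite 2 [← hinvq']; simp)
  subst ha0
  rw [pow_zero, one_mul] at hv
  -- the swapping element
  have hn' : ∃ t : G, t * z * t⁻¹ = w ∧ t * w * t⁻¹ = z := by
    rcases (by omega : b = 1 ∨ b = 2) with rfl | rfl
    · rw [pow_one] at hv
      refine ⟨k * q, ?_, ?_⟩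
      · calc k * q * z * (k * q)⁻¹ = k * (q * z * q⁻¹) * k⁻¹ := by group
          _ = w := by rw [hv, hkw]
      · calc k * q * w * (k * q)⁻¹ = k * (q * (q * z * q⁻¹) * q⁻¹) * k⁻¹ := by rw [hv]; group
          _ = k * (q * q * z * (q * q)⁻¹) * k⁻¹ := by group
          _ = (k * z * k⁻¹)⁻¹ := by rw [haz]; group
          _ = z := by rw [hkz, inv_inv]
    · rw [hw2] at hv
      refine ⟨h * q, ?_, ?_⟩
      · calc h * q * z * (h * q)⁻¹ = h * (q * z * q⁻¹) * h⁻¹ := by group
          _ = (h * w * h⁻¹)⁻¹ := by rw [hv]; group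
          _ = w := by rw [hhw, inv_inv]
      · calc h * q * w * (h * q)⁻¹ = h * (q * (q * z * q⁻¹) * q⁻¹)⁻¹ * h⁻¹ := by rw [hv]; group
          _ = h * (q * q * z * (q * q)⁻¹)⁻¹ * h⁻¹ := by group
          _ = h * z * h⁻¹ := by rw [haz, inv_inv]
          _ = z := hhz
  obtain ⟨t, htz, htw⟩ := hn'
  obtain ⟨c, c', -, -, hcc⟩ := hDmem (t * t) (hC _
    (by rw [← mul_inv_eq_iff_eq_mul]
        calc t * t * z * (t * t)⁻¹ = t * (t * z * t⁻¹) * t⁻¹ := by group
          _ = z := by rw [htz, htw])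
    (by rw [← mul_inv_eq_iff_eq_mul]
        calc t * t * w * (t * t)⁻¹ = t * (t * w * t⁻¹) * t⁻¹ := by group
          _ = w := by rw [htw, htz]))
  have ht18 : t ^ 18 = 1 := by
    have : (t * t) ^ 3 = 1 := by
      rw [hcc, (hzw.pow_pow c c').mul_pow, ← pow_mul, ← pow_mul, mul_comm c, mul_comm c',
        pow_mul, pow_mul, hz, hw, one_pow, one_pow, mul_one]
    calc t ^ 18 = ((t * t) ^ 3) ^ 3 := by rw [← pow_two, ← pow_mul, ← pow_mul]
      _ = 1 := by rw [this, one_pow]
  obtain ⟨d, hdD, hdt⟩ : ∃ d ∈ D, t ^ 8 = d := ⟨(t * t) ^ 4, pow_mem (hcc ▸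
    mul_mem (pow_mem hzD c) (pow_mem hwD c')) 4, by rw [← pow_two, ← pow_mul]⟩
  set n := t ^ 9 with hn
  have hnn : n * n = 1 := by rw [hn, ← pow_add, ht18]
  have hninv : n⁻¹ = n := inv_eq_of_mul_eq_one_right hnn
  have hnt : ∀ x ∈ D, n * x * n = t * x * t⁻¹ := by
    intro x hx
    calc n * x * n = n * x * n⁻¹ := by rw [hninv]
      _ = t * (d * x * d⁻¹) * t⁻¹ := by
          rw [← hdt, hn, pow_succ' t 8]; group
      _ = _ := by rw [hDc d hdD x hx]
  have hC18 : Nat.card (centralizer ({z * w} : Set G)) = 18 := by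
    obtain ⟨a, b, ha, hb, rfl⟩ := hDmem y hy
    have c1 : Nat.card (centralizer ({w} : Set G)) = 180 := by
      rw [← htz, card_centralizer_conj, hC180]
    have e1 : Nat.card (centralizer ({z * w⁻¹} : Set G)) =
        Nat.card (centralizer ({z * w} : Set G)) := by
      rw [← card_centralizer_conj h (z * w), ← conj_mul, hhz, hhw]
    have e2 : Nat.card (centralizer ({z⁻¹ * w} : Set G)) =
        Nat.card (centralizer ({z * w} : Set G)) := by
      rw [← card_centralizer_conj k (z * w), ← conj_mul, hkz, hkw]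
    have e3 : Nat.card (centralizer ({z⁻¹ * w⁻¹} : Set G)) =
        Nat.card (centralizer ({z * w} : Set G)) := by
      rw [← mul_inv_rev, card_centralizer_inv, hzw.eq]
    interval_cases a <;> interval_cases b <;>
      simp only [pow_zero, pow_one, one_mul, mul_one, hz2, hw2, card_centralizer_inv] at hy18
    · have hG : Nat.card G = 18 := by
        rw [← hy18]
        have : centralizer ({1} : Set G) = ⊤ := by
          ext u; simp [mem_centralizer_singleton_iff]
        rw [this, card_top]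
      have := Nat.le_of_dvd (Nat.card_pos (α := G))
        (Subgroup.card_subgroup_dvd_card (centralizer ({z} : Set G)))
      omega
    all_goals first
      | (rw [c1] at hy18; exact absurd hy18 (by norm_num))
      | (rw [hC180] at hy18; exact absurd hy18 (by norm_num))
      | exact hy18
      | (rw [← e1]; exact hy18)
      | (rw [← e2]; exact hy18)
      | (rw [← e3]; exact hy18)
  refine ⟨{ ι := ι, inj := inj, range_eq := range_eq, n := n, n_sq := hnn, n_z := ?_,
            n_w := ?_, cent_D := ?_, card_zw := hC18, not27 := h27 }⟩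
  · rw [← hzdef, ← hwdef, hnt z hzD, htz]
  · rw [← hzdef, ← hwdef, hnt w hwD, htw]
  · intro g h1 h2
    obtain ⟨a, b, -, -, rfl⟩ := hDmem g (hC g h1 h2)
    exact ⟨a, b, by rw [map_mul, map_pow, map_pow]⟩

end CfsgLib.AltEight29
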