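import Cfsg.Agent.AltEight29.Fours
import Cfsg.Agent.S0111
import Cfsg.Agent.S0112
import Cfsg.Agent.S0113

/-!
The centraliser of the four group is not of order twelve: otherwise a Sylow two-subgroup has
maximal class and transfer leads to a contradiction.
-/

set_option autoImplicit false

open Equiv Subgroup

namespace CfsgLib.AltEight29.Config

variable {G : Type*} [Group G] (K : Config G)

/-- The image of `((0 1), (0 1))`. -/
abbrev d : G := K.ι dM

theorem E_sq : K.E * K.E = 1 := by rw [← map_mul, eP_sq, map_one]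
theorem F_sq : K.F * K.F = 1 := by rw [← map_mul, fP_sq, map_one]
theorem d_sq : K.d * K.d = 1 := by rw [← map_mul, dM_sq, map_one]

theorem A_inj : Function.Injective K.A :=
  K.inj.comp fun _ _ h => Subtype.ext (congrArg (fun x : M35 => x.1.2) h)

theorem E_ne : K.E ≠ 1 := fun e => eP_ne (K.A_inj (by rw [map_one]; exact e))
theorem E_F : K.E * K.F = K.F * K.E := by rw [← map_mul, ← map_mul, eP_fP]
theorem E_inv : K.E⁻¹ = K.E := inv_eq_of_mul_eq_one_right K.E_sq
theorem F_inv : K.F⁻¹ = K.F := inv_eq_of_mul_eq_one_right K.F_sq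

theorem d_E : K.d * K.E * K.d⁻¹ = K.E := by
  change K.ι dM * K.ι (jA eP) * (K.ι dM)⁻¹ = K.ι (jA eP)
  rw [← map_inv, ← map_mul, ← map_mul, dM_e]

theorem d_F : K.d * K.F * K.d⁻¹ = K.E * K.F := by
  change K.ι dM * K.ι (jA fP) * (K.ι dM)⁻¹ = K.ι (jA eP) * K.ι (jA fP)
  rw [← map_inv, ← map_mul, ← map_mul, ← map_mul, dM_f, map_mul]

theorem F_ne : K.F ≠ 1 := by
  intro e
  have : fP = 1 := K.A_inj (by rw [map_one]; exact e)
  exact absurd this (by decide +kernel)

theorem EF_ne_F : K.E * K.F ≠ K.F := fun e => K.E_ne (mul_eq_right.1 e)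

/-- An element of a cyclic group of even order has only one possible value as an involution. -/
theorem invol_unique {H : Subgroup G} [Finite G] (hH : IsCyclic H) {a b : G} (ha : a ∈ H)
    (hb : b ∈ H) (ha2 : a * a = 1) (hb2 : b * b = 1) (ha1 : a ≠ 1) (hb1 : b ≠ 1) : a = b := by
  classical
  by_contra hne
  have : Fintype H := Fintype.ofFinite H
  have h := IsCyclic.card_pow_eq_one_le (α := H) (show 0 < 2 by norm_num)
  let T : Finset H := {1, ⟨a, ha⟩, ⟨b, hb⟩}
  have hT : T.card = 3 := Finset.card_eq_three.2 ⟨1, ⟨a, ha⟩, ⟨b, hb⟩,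
    fun e => ha1 (congrArg Subtype.val e).symm, fun e => hb1 (congrArg Subtype.val e).symm,
    fun e => hne (congrArg Subtype.val e), rfl⟩
  have hsub : T ⊆ Finset.univ.filter fun x : H => x ^ 2 = 1 := by
    intro x hx
    simp only [T, Finset.mem_insert, Finset.mem_singleton] at hx
    rw [Finset.mem_filter]
    refine ⟨Finset.mem_univ _, Subtype.ext ?_⟩
    rcases hx with rfl | rfl | rfl <;> simp [pow_two, ha2, hb2]
  have := (Finset.card_le_card hsub).trans h
  omega

variable [Finite G]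

theorem card_centralizer_z : 18 < Nat.card (centralizer ({K.z} : Set G)) := by
  let f : alternatingGroup (Fin 5) → centralizer ({K.z} : Set G) :=
    fun π => ⟨K.A π, mem_centralizer_singleton_iff.2 (K.A_z π)⟩
  have hf : Function.Injective f := fun _ _ h => K.A_inj (congrArg Subtype.val h)
  have h := Nat.card_le_card_of_injective f hf
  rw [nat_card_alternatingGroup, Nat.card_eq_fintype_card, Fintype.card_fin] at h
  exact lt_of_lt_of_le (by decide) h

/-- The swapping involution is not conjugate to the involution of the four group. -/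
theorem n_not_conj (g : G) : g * K.E * g⁻¹ ≠ K.n := by
  intro h
  have hn1 : K.n ≠ 1 := by
    intro e
    have := K.n_z
    rw [e, one_mul, mul_one] at this
    exact absurd (K.inj this) (by decide +kernel)
  have hzw : (K.z * K.w) * K.n = K.n * (K.z * K.w) := by
    calc (K.z * K.w) * K.n = K.n * (K.n * (K.z * K.w) * K.n) := by
          rw [← mul_assoc, ← mul_assoc, K.n_sq, one_mul]
      _ = K.n * ((K.n * K.z * K.n) * (K.n * K.w * K.n)) := by rw [K.n_conj_mul]
      _ = K.n * (K.w * K.z) := by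
          change K.n * ((K.n * K.ι zM * K.n) * (K.n * K.ι wM * K.n)) = _
          rw [K.n_z, K.n_w]
      _ = _ := by rw [K.zw_comm.eq]
  have hp : (g * K.z * g⁻¹) * K.n = K.n * (g * K.z * g⁻¹) := by
    rw [← h, conj_mul, conj_mul, K.A_z]
  have hzw1 : K.z * K.w ≠ 1 := by
    rw [← map_mul]
    intro e
    have : zM * wM = 1 := K.inj (e.trans (map_one _).symm)
    exact absurd this (by decide +kernel)
  have heq := K.card_centralizer_eq K.n (g * K.z * g⁻¹) (K.z * K.w) K.n_sq hn1
    (by rw [conj_pow, K.z_cube, mul_one, mul_inv_cancel])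
    (fun e => K.z_ne (conj_eq_one_iff.1 e))
    (by rw [K.zw_comm.mul_pow, K.z_cube, K.w_cube, one_mul]) hzw1 hp hzw
  rw [card_centralizer_conj, K.card_zw] at heq
  have := K.card_centralizer_z
  omega

theorem mem_of_index_two_sq {H : Subgroup G} (hH : H.index = 2) (x : G) : x * x ∈ H :=
  Subgroup.sq_mem_of_index_two hH x |> fun h => by rwa [pow_two] at h

/-- Both alternating subgroups lie in every normal subgroup of index two. -/
theorem A_mem_of_index_two (M : Subgroup G) [M.Normal] (hM : M.index = 2)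
    (f : alternatingGroup (Fin 5) →* G) (π : alternatingGroup (Fin 5)) : f π ∈ M := by
  have hsimp : IsSimpleGroup (alternatingGroup (Fin 5)) := alternatingGroup.isSimpleGroup_five
  rcases hsimp.eq_bot_or_eq_top_of_normal (M.comap f) inferInstance with h | h
  · exfalso
    have hne : cP * fP * cP⁻¹ * fP⁻¹ ≠ 1 := by decide +kernel
    apply hne
    rw [← mem_bot, ← h, mem_comap, map_mul, map_mul, map_mul, map_inv, map_inv]
    have : ∀ a b : G, a * b * a⁻¹ * b⁻¹ ∈ M := by
      intro a b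
      by_cases ha : a ∈ M
      · rw [show a * b * a⁻¹ * b⁻¹ = a * (b * a⁻¹ * b⁻¹) by group]
        exact mul_mem ha (Subgroup.Normal.conj_mem ‹_› _ (inv_mem ha) b)
      by_cases hb : b ∈ M
      · exact mul_mem (Subgroup.Normal.conj_mem ‹_› b hb a) (inv_mem hb)
      have h1 : a * b ∈ M := (Subgroup.mul_mem_iff_of_index_two hM).2 (iff_of_false ha hb)
      have h2 : a⁻¹ * b⁻¹ ∈ M := (Subgroup.mul_mem_iff_of_index_two hM).2
        (iff_of_false (fun e => ha (inv_mem_iff.1 e)) (fun e => hb (inv_mem_iff.1 e)))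
      rw [mul_assoc]
      exact mul_mem h1 h2
    exact this _ _
  · rw [← mem_comap, h]
    exact mem_top π

theorem not_three_dvd_two_pow (k : ℕ) : ¬ 3 ∣ 2 ^ k := fun h =>
  absurd (Nat.prime_three.dvd_of_dvd_pow h) (by norm_num)

/-- If the centraliser of the four group has order twelve, a contradiction follows. -/
theorem degenerate_false
    (hL : ∀ g ∈ K.L, ∃ a, a < 3 ∧ ∃ v ∈ fourList, g = K.z ^ a * K.A v) : False := by
  classical
  have : Fact (Nat.Prime 2) := ⟨Nat.prime_two⟩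
  -- the centraliser contains `⟨z⟩` as its only subgroup of order three
  have L_three : ∀ g ∈ K.L, g ^ 3 = 1 → g ∈ zpowers K.z := by
    intro g hg h3
    obtain ⟨a, -, v, hv, rfl⟩ := hL g hg
    rw [((show Commute K.z (K.A v) from (K.A_z v).symm).pow_left a).mul_pow, ← pow_mul,
      mul_comm a, pow_mul, K.z_cube, one_pow, one_mul, pow_succ, pow_two, K.four_sq hv,
      one_mul] at h3
    rw [h3, mul_one]
    exact pow_mem (mem_zpowers _) a
  -- a Sylow subgroup containing the dihedral group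
  set T1 := T1M.map K.ι with hT1
  have hT1card : Nat.card T1 = 2 ^ 3 := by
    rw [hT1, ← Nat.card_congr (equivMapOfInjective _ K.ι K.inj).toEquiv, T1M_card]; rfl
  obtain ⟨P, hP⟩ := (IsPGroup.of_card hT1card).exists_le_sylow
  have hEP : K.E ∈ (P : Subgroup G) := hP ⟨jA eP, by simp [T1M], rfl⟩
  have hFP : K.F ∈ (P : Subgroup G) := hP ⟨jA fP, by simp [T1M], rfl⟩
  have hdP : K.d ∈ (P : Subgroup G) := hP ⟨dM, by simp [T1M], rfl⟩
  obtain ⟨k, hk⟩ := P.2.exists_card_eq
  have hk3 : 3 ≤ k := by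
    have h := Subgroup.card_le_of_le hP
    rw [hT1card, hk] at h
    exact (Nat.pow_le_pow_iff_right (by norm_num)).1 h
  have hPL : ∀ g ∈ (P : Subgroup G), g ∈ K.L → ∃ v ∈ fourList, g = K.A v := by
    intro g hgP hgL
    obtain ⟨a, ha, v, hv, rfl⟩ := hL g hgL
    refine ⟨v, hv, ?_⟩
    suffices ha0 : a = 0 by rw [ha0, pow_zero, one_mul]
    by_contra ha0
    have hAP : K.A v ∈ (P : Subgroup G) := by
      simp only [fourList, List.mem_cons, List.not_mem_nil, or_false] at hv
      rcases hv with rfl | rfl | rfl | rfl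
      · rw [map_one]; exact one_mem _
      · exact hEP
      · exact hFP
      · rw [map_mul]; exact mul_mem hEP hFP
    have hz : K.z ^ a ∈ (P : Subgroup G) := by
      have := mul_mem hgP (inv_mem hAP); rwa [mul_inv_cancel_right] at this
    have h1 : orderOf (K.z ^ a) ∣ 2 ^ k := hk ▸ Subgroup.orderOf_dvd_natCard _ hz
    have h2 : orderOf (K.z ^ a) = 3 := by
      have : Fact (Nat.Prime 3) := ⟨Nat.prime_three⟩
      refine orderOf_eq_prime (by rw [← pow_mul, mul_comm, pow_mul, K.z_cube, one_pow]) fun e => ?_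
      have := orderOf_dvd_of_pow_eq_one e
      rw [orderOf_eq_prime K.z_cube K.z_ne] at this
      omega
    exact not_three_dvd_two_pow k (h2 ▸ h1)
  -- the four group is self-centralising in `P`
  let VM : Subgroup G := closure ({K.E, K.F} : Set G)
  have hVmem : ∀ x ∈ VM, ∃ v ∈ fourList, x = K.A v := by
    intro x hx
    induction hx using Subgroup.closure_induction with
    | mem y hy =>
      rcases hy with rfl | rfl
      · exact ⟨eP, by simp [fourList], rfl⟩
      · exact ⟨fP, by simp [fourList], rfl⟩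
    | one => exact ⟨1, by simp [fourList], (map_one _).symm⟩
    | mul y y' _ _ h h' =>
      obtain ⟨u, hu, rfl⟩ := h
      obtain ⟨v, hv, rfl⟩ := h'
      exact ⟨u * v, four_closed u hu v hv, (map_mul _ _ _).symm⟩
    | inv y _ h =>
      obtain ⟨u, hu, rfl⟩ := h
      exact ⟨u, hu, inv_eq_of_mul_eq_one_right (K.four_sq hu)⟩
  have hVM : ∀ v ∈ fourList, K.A v ∈ VM := by
    intro v hv
    simp only [fourList, List.mem_cons, List.not_mem_nil, or_false] at hv
    rcases hv with rfl | rfl | rfl | rfl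
    · rw [map_one]; exact one_mem _
    · exact subset_closure (by simp)
    · exact subset_closure (by simp)
    · rw [map_mul]; exact mul_mem (subset_closure (by simp)) (subset_closure (by simp))
  have hVP : VM ≤ (P : Subgroup G) := by
    rw [closure_le]; rintro u (rfl | rfl)
    · exact hEP
    · exact hFP
  have hVcard : Nat.card VM = 4 := by
    let f : {v // v ∈ fourList.toFinset} → VM := fun v => ⟨K.A v.1, hVM _ (List.mem_toFinset.1 v.2)⟩
    have hf : Function.Bijective f := by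
      refine ⟨fun u v h => Subtype.ext (K.A_inj (congrArg Subtype.val h)), fun x => ?_⟩
      obtain ⟨v, hv, hvx⟩ := hVmem x x.2
      exact ⟨⟨v, List.mem_toFinset.2 hv⟩, Subtype.ext hvx.symm⟩
    rw [← Nat.card_eq_of_bijective f hf, Nat.card_eq_fintype_card, Fintype.card_coe,
      List.toFinset_card_of_nodup (by decide +kernel)]
    rfl
  have hA : Nat.card (VM.subgroupOf (P : Subgroup G)) = 2 ^ 2 := by
    rw [Nat.card_congr (Subgroup.subgroupOfEquivOfLe hVP).toEquiv, hVcard]; rfl
  have hC : centralizer (VM.subgroupOf (P : Subgroup G) : Set (P : Subgroup G)) =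
      VM.subgroupOf (P : Subgroup G) := by
    ext ⟨x, hx⟩
    rw [mem_subgroupOf, mem_centralizer_iff]
    constructor
    · intro h
      have hxL : x ∈ K.L := K.mem_L.2
        ⟨(congrArg Subtype.val (h ⟨K.E, hEP⟩ (subset_closure (by simp)))).symm,
          (congrArg Subtype.val (h ⟨K.F, hFP⟩ (subset_closure (by simp)))).symm⟩
      obtain ⟨v, hv, hxv⟩ := hPL x hx hxL
      change x ∈ VM
      rw [hxv]; exact hVM v hv
    · intro hxV u hu
      obtain ⟨v, hv, hxv⟩ := hVmem x hxV
      obtain ⟨v', hv', huv⟩ := hVmem u hu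
      refine Subtype.ext ?_
      change (u : G) * x = x * u
      rw [hxv, huv, ← map_mul, ← map_mul]
      have hcomm : ∀ a ∈ fourList, ∀ b ∈ fourList, a * b = b * a := by decide +kernel
      rw [hcomm v' hv' v hv]
  have hclass := Cfsg.Agent.S0112.result k hk _ hA hC
  obtain ⟨C, hCcyc, hCidx⟩ := Cfsg.Agent.S0113.result k hk3 hk hclass
  set X := C.map (P : Subgroup G).subtype with hX
  have hXcyc : IsCyclic X :=
    (MulEquiv.isCyclic (equivMapOfInjective C _ Subtype.val_injective)).1 hCcyc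
  have hXP : X ≤ (P : Subgroup G) := Subgroup.map_subtype_le C
  have memX : ∀ (x : G) (hx : x ∈ (P : Subgroup G)), x ∈ X ↔ (⟨x, hx⟩ : (P : Subgroup G)) ∈ C := by
    intro x hx
    constructor
    · rintro ⟨y, hy, rfl⟩; exact hy
    · intro h; exact ⟨_, h, rfl⟩
  have hCn : C.Normal := Subgroup.normal_of_index_eq_two hCidx
  have conjX : ∀ g ∈ (P : Subgroup G), ∀ x ∈ X, g * x * g⁻¹ ∈ X := by
    intro g hg x hx
    rw [memX _ (mul_mem (mul_mem hg (hXP hx)) (inv_mem hg))]
    exact hCn.conj_mem ⟨x, hXP hx⟩ ((memX x (hXP hx)).1 hx) ⟨g, hg⟩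
  have mulX : ∀ a ∈ (P : Subgroup G), ∀ b ∈ (P : Subgroup G), a ∉ X → b ∉ X → a * b ∈ X := by
    intro a ha b hb hna hnb
    rw [memX _ (mul_mem ha hb)]
    exact (Subgroup.mul_mem_iff_of_index_two hCidx (a := ⟨a, ha⟩) (b := ⟨b, hb⟩)).2
      (iff_of_false (fun h => hna ((memX a ha).2 h)) (fun h => hnb ((memX b hb).2 h)))
  have hEX : K.E ∈ X := by
    have hone : ∀ v ∈ X, v * v = 1 → v ≠ 1 → v ∈ [K.E, K.F, K.E * K.F] → v = K.E := by
      intro v hv hv2 hv1 hmem
      have h := conjX K.d hdP v hv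
      have hu := invol_unique hXcyc h hv (by rw [conj_mul, hv2, mul_one, mul_inv_cancel]) hv2
        (fun e => hv1 (conj_eq_one_iff.1 e)) hv1
      simp only [List.mem_cons, List.not_mem_nil, or_false] at hmem
      rcases hmem with rfl | rfl | rfl
      · rfl
      · rw [K.d_F] at hu; exact absurd hu K.EF_ne_F
      · rw [← conj_mul, K.d_E, K.d_F, ← mul_assoc, K.E_sq, one_mul] at hu
        exact absurd hu.symm K.EF_ne_F
    by_contra hE
    by_cases hF : K.F ∈ X
    · exact hE (hone K.F hF K.F_sq K.F_ne (by simp) ▸ hF)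
    · have hEF := mulX _ hEP _ hFP hE hF
      have hEF1 : K.E * K.F ≠ 1 := fun e => by
        have h2 := congrArg (K.E * ·) e
        simp only [← mul_assoc, K.E_sq, one_mul, mul_one] at h2
        exact hF (h2 ▸ hEF |> fun _ => by
          have hd : eP = fP := K.A_inj h2.symm
          exact absurd hd (by decide +kernel))
      have hsq : K.E * K.F * (K.E * K.F) = 1 := by
        rw [← map_mul, ← map_mul, show eP * fP * (eP * fP) = 1 from by decide +kernel, map_one]
      exact hE (hone _ hEF hsq hEF1 (by simp) ▸ hEF)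
  have Xinv : ∀ x ∈ X, x * x = 1 → x ≠ 1 → x = K.E := fun x hx hx2 hx1 =>
    invol_unique hXcyc hx hEX hx2 K.E_sq hx1 K.E_ne
  have hPE : ∀ g ∈ (P : Subgroup G), g * K.E = K.E * g := by
    intro g hg
    have := Xinv _ (conjX g hg _ hEX) (by rw [conj_mul, K.E_sq, mul_one, mul_inv_cancel])
      (fun e => K.E_ne (conj_eq_one_iff.1 e))
    exact (mul_inv_eq_iff_eq_mul.1 this)
  have hFX : K.F ∉ X := fun h => by
    have hd : fP = eP := K.A_inj (Xinv _ h K.F_sq K.F_ne)
    exact absurd hd (by decide +kernel)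
  -- `F` is conjugate to `E`
  have hFE : K.w⁻¹ * K.E * K.w = K.F := by rw [← K.w_conj_F]; group
  -- an involution conjugate to `n`
  have hn1 : K.n ≠ 1 := fun e => K.n_not_conj 1 (by
    exfalso
    have := K.n_z
    rw [e, one_mul, mul_one] at this
    exact absurd (K.inj this) (by decide +kernel))
  obtain ⟨c, hs⟩ : ∃ c : G, c * K.n * c⁻¹ ∈ (P : Subgroup G) := by
    have hpn : IsPGroup 2 (zpowers K.n) := IsPGroup.of_card (n := 1) (by
      rw [Nat.card_zpowers, orderOf_eq_prime (by rw [pow_two, K.n_sq]) hn1, pow_one])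
    obtain ⟨Q, hQ⟩ := hpn.exists_le_sylow
    obtain ⟨c, rfl⟩ := MulAction.exists_smul_eq G P Q
    refine ⟨c⁻¹, ?_⟩
    have := hQ (mem_zpowers K.n)
    rw [Sylow.coe_subgroup_smul, Subgroup.mem_pointwise_smul_iff_inv_smul_mem] at this
    simpa [MulAut.smul_def] using this
  set s := c * K.n * c⁻¹ with hsdef
  have hs_sq : s * s = 1 := by rw [hsdef, conj_mul, K.n_sq, mul_one, mul_inv_cancel]
  have hs_ne : s ≠ 1 := fun e => hn1 (conj_eq_one_iff.1 e)
  have not_E : ∀ g : G, g * K.E * g⁻¹ ≠ s := fun g h => K.n_not_conj (c⁻¹ * g) (by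
    calc c⁻¹ * g * K.E * (c⁻¹ * g)⁻¹ = c⁻¹ * (g * K.E * g⁻¹) * c := by group
      _ = K.n := by rw [h, hsdef]; group)
  have hsX : s ∉ X := fun h => not_E 1 (by rw [Xinv s h hs_sq hs_ne]; group)
  -- the complement of `X` consists of two classes of involutions
  have hfix : ∀ r ∈ (P : Subgroup G), r ∉ X → ∀ x ∈ X, x * r = r * x → x = 1 ∨ x = K.E := by
    intro r hr hrX x hx hxr
    have hFr := mulX _ hFP _ hr hFX hrX
    have hab : x * (K.F * r) = (K.F * r) * x := congrArg Subtype.val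
      ((IsCyclic.commutative (α := X)).is_comm.comm ⟨x, hx⟩ ⟨_, hFr⟩)
    have hxF : x * K.F = K.F * x := by
      have h2 := (show Commute x (K.F * r) from hab).mul_right (show Commute x r from hxr).inv_right
      rw [mul_inv_cancel_right] at h2
      exact h2.eq
    obtain ⟨v, hv, rfl⟩ := hPL x (hXP hx) (K.mem_L.2 ⟨hPE x (hXP hx), hxF⟩)
    by_cases hv1 : K.A v = 1
    · exact Or.inl hv1
    · exact Or.inr (Xinv _ hx (K.four_sq hv) hv1)
  have hcover : ∀ r ∈ (P : Subgroup G), r ∉ X →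
      ∃ x ∈ X, r = x * K.F * x⁻¹ ∨ r = x * s * x⁻¹ := by
    have : Fintype G := Fintype.ofFinite G
    intro r hr hrX
    set XS := Finset.univ.filter (fun x : G => x ∈ X) with hXS
    set SF := XS.image (fun x => x * K.F * x⁻¹) with hSF
    set SS := XS.image (fun x => x * s * x⁻¹) with hSS
    set CF := XS.image (fun x => K.F * x) with hCF
    have hmemXS : ∀ x, x ∈ XS ↔ x ∈ X := fun x => by simp [hXS]
    have hfib : ∀ t : G, t ∈ (P : Subgroup G) → t ∉ X →
        XS.card ≤ 2 * (XS.image (fun x => x * t * x⁻¹)).card := by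
      intro t htP htX
      refine Finset.card_le_mul_card_image XS 2 fun b hb => ?_
      obtain ⟨x₀, hx₀, rfl⟩ := Finset.mem_image.1 hb
      refine le_trans (Finset.card_le_card (t := {x₀, x₀ * K.E}) ?_) Finset.card_le_two
      intro x hx
      rw [Finset.mem_filter] at hx
      have hx' : (x₀⁻¹ * x) * t = t * (x₀⁻¹ * x) := by
        calc x₀⁻¹ * x * t = x₀⁻¹ * (x * t * x⁻¹) * x := by group
          _ = _ := by rw [hx.2]; group
      rw [Finset.mem_insert, Finset.mem_singleton]
      rcases hfix t htP htX _ (mul_mem (inv_mem ((hmemXS _).1 hx₀)) ((hmemXS _).1 hx.1)) hx' with e | e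
      · exact Or.inl (inv_mul_eq_one.1 e).symm
      · exact Or.inr (by rw [← e, mul_inv_cancel_left])
    have hinCF : ∀ t : G, t ∈ (P : Subgroup G) → t ∉ X → t ∈ CF := by
      intro t htP htX
      refine Finset.mem_image.2 ⟨K.F * t, (hmemXS _).2 (mulX _ hFP _ htP hFX htX), ?_⟩
      rw [← mul_assoc, K.F_sq, one_mul]
    have hout : ∀ t : G, t ∈ (P : Subgroup G) → t ∉ X → ∀ x ∈ X, x * t * x⁻¹ ∉ X := by
      intro t _ htX x hx h
      apply htX
      have := mul_mem (mul_mem (inv_mem hx) h) hx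
      rwa [show x⁻¹ * (x * t * x⁻¹) * x = t by group] at this
    have hsub : SF ∪ SS ⊆ CF := by
      intro t ht
      rw [Finset.mem_union] at ht
      rcases ht with ht | ht <;> obtain ⟨x, hx, rfl⟩ := Finset.mem_image.1 ht <;>
        rw [hmemXS] at hx
      · exact hinCF _ (mul_mem (mul_mem (hXP hx) hFP) (inv_mem (hXP hx))) (hout _ hFP hFX x hx)
      · exact hinCF _ (mul_mem (mul_mem (hXP hx) hs) (inv_mem (hXP hx))) (hout _ hs hsX x hx)
    have hdisj : Disjoint SF SS := by
      rw [Finset.disjoint_left]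
      intro t ht ht'
      obtain ⟨x, -, rfl⟩ := Finset.mem_image.1 ht
      obtain ⟨y, -, hy⟩ := Finset.mem_image.1 ht'
      apply not_E (y⁻¹ * x * K.w⁻¹)
      calc y⁻¹ * x * K.w⁻¹ * K.E * (y⁻¹ * x * K.w⁻¹)⁻¹
          = y⁻¹ * (x * (K.w⁻¹ * K.E * K.w) * x⁻¹) * y := by group
        _ = s := by rw [hFE, ← hy]; group
    have heq : SF ∪ SS = CF := by
      refine Finset.eq_of_subset_of_card_le hsub ?_
      rw [Finset.card_union_of_disjoint hdisj, hCF,
        Finset.card_image_of_injective _ (mul_right_injective K.F)]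
      have h1 := hfib K.F hFP hFX
      have h2 := hfib s hs hsX
      rw [← hSF] at h1; rw [← hSS] at h2
      omega
    have := hinCF r hr hrX
    rw [← heq, Finset.mem_union] at this
    rcases this with h | h <;> obtain ⟨x, hx, rfl⟩ := Finset.mem_image.1 h
    · exact ⟨x, (hmemXS x).1 hx, Or.inl rfl⟩
    · exact ⟨x, (hmemXS x).1 hx, Or.inr rfl⟩
  have hdE' : K.d * K.E = K.E * K.d := (mul_inv_eq_iff_eq_mul.1 K.d_E)
  have hdX : K.d ∉ X := fun h => by
    have hd1 : K.d ≠ 1 := fun e => dM_ne (K.inj (e.trans (map_one _).symm))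
    have := K.inj (Xinv _ h K.d_sq hd1)
    exact absurd this (by decide +kernel)
  have hXrel : X.relIndex (P : Subgroup G) = 2 := by
    rw [relIndex, hX, Subgroup.subgroupOf, Subgroup.comap_map_eq_self_of_injective
      Subtype.val_injective]
    exact hCidx
  obtain ⟨t, htX, ht | ht⟩ := hcover K.d hdP hdX
  swap
  · -- `d` is conjugate to `n`: transfer in the whole group
    rcases Cfsg.Agent.S0111.result P X hXP hXrel K.d
      (orderOf_eq_prime (by rw [pow_two, K.d_sq]) (fun e => dM_ne (K.inj (e.trans (map_one _).symm))))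
      hdP hdX with ⟨M, hMn, hMi, hMd⟩ | ⟨g, hg⟩
    · apply hMd
      have hA5 : ∀ π, K.A π ∈ M := fun π => A_mem_of_index_two M hMi K.A π
      have hB5 : ∀ π, K.B π ∈ M := fun π => A_mem_of_index_two M hMi K.B π
      set π := mk5 (swap 0 1 * swap 3 4) with hπ
      set g := K.B π with hg
      have hgz : g * K.z * g⁻¹ = K.z⁻¹ := by
        rw [← K.B_cP, hg, ← map_inv, ← map_mul, ← map_mul, ← map_inv]
        exact congrArg K.B (by decide +kernel)
      obtain ⟨m, hm⟩ := K.mem_range_of g (by rw [hgz]; exact inv_mem (mem_zpowers _))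
      have hm' : m * zM * m⁻¹ = zM⁻¹ := K.inj (by
        rw [map_mul, map_mul, map_inv, map_inv, hm]; exact hgz)
      have hodd : ∀ σ : Perm (Fin 3), σ * c3 * σ⁻¹ = c3⁻¹ → Perm.sign σ = -1 ∧
          (σ⁻¹ * swap 0 1 = 1 ∨ σ⁻¹ * swap 0 1 = c3 ∨ σ⁻¹ * swap 0 1 = c3 * c3) := by
        decide +kernel
      obtain ⟨hσ1, hσ2⟩ := hodd _ (congrArg (fun x : M35 => x.1.1) hm')
      have hτ : Perm.sign (m.1.2⁻¹ * swap 0 1) = 1 := by
        have hs : Perm.sign m.1.1 * Perm.sign m.1.2 = 1 := m.2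
        rw [hσ1] at hs
        rw [map_mul, Perm.sign_inv, Perm.sign_swap (by decide)]
        have : Perm.sign m.1.2 = -1 := by
          rcases Int.units_eq_one_or (Perm.sign m.1.2) with e | e
          · rw [e] at hs; exact absurd hs (by decide)
          · exact e
        rw [this]; rfl
      obtain ⟨a, ha⟩ : ∃ a : ℕ, m.1.1⁻¹ * swap 0 1 = c3 ^ a := by
        rcases hσ2 with e | e | e
        · exact ⟨0, e⟩
        · exact ⟨1, by rw [e, pow_one]⟩
        · exact ⟨2, by rw [e, pow_two]⟩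
      have hdec : dM = m * (zM ^ a * jA ⟨m.1.2⁻¹ * swap 0 1, hτ⟩) := by
        refine Subtype.ext (Prod.ext ?_ ?_)
        · simp [dM, mk35, zM, jA, ← ha]
        · simp [dM, mk35, zM, jA]
      change K.ι dM ∈ M
      rw [hdec, map_mul, map_mul, map_pow, hm]
      refine mul_mem (hB5 π) (mul_mem (pow_mem ?_ a) (hA5 _))
      rw [show K.ι zM = K.z from rfl, ← K.B_cP]
      exact hB5 _
    · have hi := Xinv _ hg (by rw [conj_mul, K.d_sq, mul_one, mul_inv_cancel])
        (fun e => dM_ne (K.inj ((conj_eq_one_iff.1 e).trans (map_one _).symm)))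
      apply not_E (t⁻¹ * g⁻¹)
      rw [← hi, ht]; group
  -- `d` is conjugate to `F` inside the centraliser of `E`
  have htP := hXP htX
  set Y := centralizer ({K.E} : Set G) with hY
  have hPY : (P : Subgroup G) ≤ Y := fun g hg => mem_centralizer_singleton_iff.2 (hPE g hg)
  set PY := P.subtype hPY with hPYdef
  have hXY : X.subgroupOf Y ≤ (PY : Subgroup Y) := Subgroup.comap_mono hXP
  have hXYrel : (X.subgroupOf Y).relIndex (PY : Subgroup Y) = 2 := by
    rw [Sylow.coe_subtype, Subgroup.relIndex_subgroupOf hPY, hXrel]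
  have transfer_in : ∀ r ∈ (P : Subgroup G), r * r = 1 → r ≠ 1 → r ∉ X → (∀ g : Y, (g : G) * r * (g : G)⁻¹ ≠ K.E) →
      ∃ M : Subgroup Y, M.Normal ∧ M.index = 2 ∧ ∀ hr : r ∈ Y, (⟨r, hr⟩ : Y) ∉ M := by
    intro r hrP hr2 hr1 hrX hne
    have hr : r ∈ Y := hPY hrP
    rcases Cfsg.Agent.S0111.result PY (X.subgroupOf Y) hXY hXYrel ⟨r, hr⟩
      (orderOf_eq_prime (Subtype.ext (by rw [pow_two]; exact hr2))
        (fun e => hr1 (congrArg Subtype.val e)))
      hrP hrX with ⟨M, hM1, hM2, hM3⟩ | ⟨g, hg⟩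
    · exact ⟨M, hM1, hM2, fun _ => hM3⟩
    · exfalso
      exact hne g (Xinv _ hg (by rw [conj_mul, hr2, mul_one, mul_inv_cancel])
        (fun e => hr1 (conj_eq_one_iff.1 e)))
  obtain ⟨MF, hMFn, hMFi, hMF⟩ := transfer_in K.F hFP K.F_sq K.F_ne hFX (by
    intro g h
    have hg := mem_centralizer_singleton_iff.1 g.2
    apply hFX
    have hFeq : K.F = K.E := by
      calc K.F = (g : G)⁻¹ * ((g : G) * K.F * (g : G)⁻¹) * g := by group
        _ = (g : G)⁻¹ * (K.E * g) := by rw [h]; group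
        _ = K.E := by rw [← hg]; group
    rw [hFeq]; exact hEX)
  obtain ⟨Ms, hMsn, hMsi, hMs⟩ := transfer_in s hs hs_sq hs_ne hsX (by
    intro g h
    exact not_E (g : G)⁻¹ (by rw [← h]; group))
  set Kg := (MF ⊓ Ms).map Y.subtype with hKg
  have memK : ∀ (x : G) (hx : x ∈ Y), x ∈ Kg ↔ (⟨x, hx⟩ : Y) ∈ MF ∧ (⟨x, hx⟩ : Y) ∈ Ms := by
    intro x hx
    constructor
    · rintro ⟨y, hy, rfl⟩; exact hy
    · intro h; exact ⟨_, h, rfl⟩
  have hKgY : Kg ≤ Y := Subgroup.map_subtype_le _
  have conjK : ∀ g ∈ Y, ∀ x ∈ Kg, g * x * g⁻¹ ∈ Kg := by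
    intro g hg x hx
    obtain ⟨h1, h2⟩ := (memK x (hKgY hx)).1 hx
    exact ⟨⟨g, hg⟩ * ⟨x, hKgY hx⟩ * ⟨g, hg⟩⁻¹,
      ⟨hMFn.conj_mem _ h1 _, hMsn.conj_mem _ h2 _⟩, rfl⟩
  have sqK : ∀ g ∈ Y, g * g ∈ Kg := by
    intro g hg
    exact ⟨⟨g, hg⟩ * ⟨g, hg⟩, ⟨mem_of_index_two_sq hMFi _, mem_of_index_two_sq hMsi _⟩, rfl⟩
  have hKP : ∀ r ∈ (P : Subgroup G), r ∈ Kg → r ∈ X := by
    intro r hr hrK
    by_contra hrX
    obtain ⟨x, hx, rfl | rfl⟩ := hcover r hr hrX
    · have hxY := hPY (hXP hx)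
      have := conjK _ (inv_mem hxY) _ hrK
      rw [show x⁻¹ * (x * K.F * x⁻¹) * x⁻¹⁻¹ = K.F by group] at this
      exact hMF (hPY hFP) ((memK _ (hPY hFP)).1 this).1
    · have hxY := hPY (hXP hx)
      have := conjK _ (inv_mem hxY) _ hrK
      rw [show x⁻¹ * (x * s * x⁻¹) * x⁻¹⁻¹ = s by group] at this
      exact hMs (hPY hs) ((memK _ (hPY hs)).1 this).2
  -- `Kg` has a normal two-complement
  have hEK : K.E ∈ Kg := by
    have hdF : K.d * K.F * (K.d * K.F) = K.E := by
      have hdi : K.d⁻¹ = K.d := inv_eq_of_mul_eq_one_right K.d_sq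
      calc K.d * K.F * (K.d * K.F) = (K.d * K.F * K.d⁻¹) * K.F := by rw [hdi]; group
        _ = K.E := by rw [K.d_F, mul_assoc, K.F_sq, mul_one]
    rw [← hdF]
    exact sqK _ (mul_mem (hPY hdP) (hPY hFP))
  obtain ⟨R⟩ : Nonempty (Sylow 2 Kg) := inferInstance
  have hRcyc : IsCyclic R := by
    have hpR : IsPGroup 2 ((R : Subgroup Kg).map Kg.subtype) := R.2.map _
    have hpR' : IsPGroup 2 (((R : Subgroup Kg).map Kg.subtype).subgroupOf Y) :=
      hpR.comap_subtype
    obtain ⟨Q, hQ⟩ := hpR'.exists_le_sylow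
    obtain ⟨g, rfl⟩ := MulAction.exists_smul_eq Y PY Q
    let f : R →* X :=
      { toFun := fun r => ⟨(g : G)⁻¹ * ((r : Kg) : G) * g, by
          have hrK : ((r : Kg) : G) ∈ Kg := (r : Kg).2
          refine hKP _ ?_ ?_
          · have := hQ (show (⟨((r : Kg) : G), hKgY hrK⟩ : Y) ∈
              ((R : Subgroup Kg).map Kg.subtype).subgroupOf Y from ⟨(r : Kg), r.2, rfl⟩)
            rw [Sylow.coe_subgroup_smul, Subgroup.mem_pointwise_smul_iff_inv_smul_mem] at this
            simpa [MulAut.smul_def, hPYdef, mem_subgroupOf] using this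
          · have := conjK _ (inv_mem g.2) _ hrK
            rwa [inv_inv] at this⟩
        map_one' := Subtype.ext (by simp)
        map_mul' := fun a b => Subtype.ext (by simp [mul_assoc]) }
    refine isCyclic_of_injective f fun a b h => ?_
    have := congrArg Subtype.val h
    exact Subtype.ext (Subtype.ext (mul_left_cancel (mul_right_cancel this)))
  have hmin : (Nat.card Kg).minFac = 2 := by
    rw [Nat.minFac_eq_two_iff]
    have hd := orderOf_dvd_natCard (⟨K.E, hEK⟩ : Kg)
    rwa [orderOf_eq_prime (p := 2) (x := (⟨K.E, hEK⟩ : Kg))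
      (Subtype.ext (by rw [pow_two]; exact K.E_sq)) (fun e => K.E_ne (congrArg Subtype.val e))] at hd
  have hnc := IsCyclic.normalizer_le_centralizer hmin hRcyc
  set W := (MonoidHom.transferSylow R hnc).ker.map Kg.subtype with hW
  have hWodd : ¬ 2 ∣ Nat.card W := by
    rw [hW, ← Nat.card_congr (equivMapOfInjective _ Kg.subtype Subtype.val_injective).toEquiv]
    exact MonoidHom.not_dvd_card_ker_transferSylow R hnc
  have memW : ∀ x, x ∈ W ↔ x ∈ Kg ∧ ¬ 2 ∣ orderOf x := by
    intro x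
    constructor
    · intro hx
      exact ⟨Subgroup.map_subtype_le _ hx, fun h => hWodd (h.trans (Subgroup.orderOf_dvd_natCard _ hx))⟩
    · rintro ⟨hx, hno⟩
      refine ⟨⟨x, hx⟩, ?_, rfl⟩
      rw [SetLike.mem_coe, MonoidHom.mem_ker, ← orderOf_eq_one_iff]
      obtain ⟨j, hj⟩ := R.2.exists_card_eq
      refine Nat.eq_one_of_dvd_coprimes (Nat.Coprime.pow_left j
        ((Nat.prime_two.coprime_iff_not_dvd).2 hno)) (hj ▸ orderOf_dvd_natCard _) ?_
      rw [← Subgroup.orderOf_mk x hx]
      exact orderOf_map_dvd _ _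
  have three_W : ∀ u ∈ Y, u ^ 3 = 1 → u ∈ W := by
    intro u hu h3
    refine (memW u).2 ⟨?_, fun h => ?_⟩
    · have : u = (u * u) * (u * u) := by
        rw [← mul_assoc, show u * u * u = u ^ 3 by rw [pow_succ, pow_two], h3, one_mul]
      rw [this]; exact sqK _ (mul_mem hu hu)
    · exact absurd (h.trans (orderOf_dvd_of_pow_eq_one h3)) (by norm_num)
  have hFY : K.F ∈ Y := hPY hFP
  have hzY : K.z ∈ Y := mem_centralizer_singleton_iff.2 (K.A_z eP).symm
  set z' := t * K.z * t⁻¹ with hz'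
  have hz'Y : z' ∈ Y := mul_mem (mul_mem (hPY htP) hzY) (inv_mem (hPY htP))
  have hz'3 : z' ^ 3 = 1 := by rw [hz', conj_pow, K.z_cube, mul_one, mul_inv_cancel]
  have hz'1 : z' ≠ 1 := fun e => K.z_ne (conj_eq_one_iff.1 e)
  have hdz' : K.d * z' = z' * K.d := by
    rw [ht, hz', conj_mul, conj_mul, K.A_z]
  have htinv : ∀ a b : G, a * b = b * a → (t⁻¹ * a * t) * (t⁻¹ * b * t) = (t⁻¹ * b * t) * (t⁻¹ * a * t) := by
    intro a b hab
    calc (t⁻¹ * a * t) * (t⁻¹ * b * t) = t⁻¹ * (a * b) * t := by group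
      _ = t⁻¹ * (b * a) * t := by rw [hab]
      _ = _ := by group
  have hEt : t⁻¹ * K.E * t = K.E := by rw [mul_assoc, ← hPE t htP]; group
  have hdt : t⁻¹ * K.d * t = K.F := by rw [ht]; group
  -- `F` normalises the conjugate subgroup of order three
  have hFz : K.F * z' * K.F ∈ zpowers z' := by
    have h1 : (t⁻¹ * (K.F * z' * K.F) * t) ∈ K.L := by
      refine K.mem_L.2 ⟨?_, ?_⟩
      · have := htinv _ _ (mem_centralizer_singleton_iff.1 (mul_mem (mul_mem hFY hz'Y) hFY) :
          (K.F * z' * K.F) * K.E = K.E * (K.F * z' * K.F))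
        rwa [hEt] at this
      · have hd' : (K.F * z' * K.F) * K.d = K.d * (K.F * z' * K.F) := by
          have hFd : K.F * K.d * K.F = K.E * K.d := by
            have h := K.d_F
            have hdi : K.d⁻¹ = K.d := inv_eq_of_mul_eq_one_right K.d_sq
            rw [hdi] at h
            calc K.F * K.d * K.F = K.F * (K.d * K.F * K.d) * K.d := by
                  simp only [mul_assoc, K.d_sq, mul_one]
              _ = _ := by rw [h, ← mul_assoc, ← K.E_F, mul_assoc K.E, K.F_sq, mul_one]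
          have hz'E : z' * (K.E * K.d) = (K.E * K.d) * z' := by
            rw [← mul_assoc, mem_centralizer_singleton_iff.1 hz'Y, mul_assoc, ← hdz', mul_assoc]
          calc K.F * z' * K.F * K.d = K.F * z' * (K.F * K.d * K.F) * K.F := by
                simp only [mul_assoc, K.F_sq, mul_one]
            _ = K.F * (z' * (K.E * K.d)) * K.F := by rw [hFd]; group
            _ = K.F * (K.E * K.d) * (z' * K.F) := by rw [hz'E]; group
            _ = K.F * (K.F * K.d * K.F) * (z' * K.F) := by rw [hFd]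
            _ = (K.F * K.F) * K.d * (K.F * z' * K.F) := by group
            _ = _ := by rw [K.F_sq, one_mul]
        have := htinv _ _ hd'
        rwa [hdt] at this
    have h3 : (t⁻¹ * (K.F * z' * K.F) * t) ^ 3 = 1 := by
      have h4 : (K.F * z' * K.F) ^ 3 = 1 := by
        have := conj_pow (a := K.F) (b := z') (i := 3)
        rw [K.F_inv, hz'3, mul_one, K.F_sq] at this; exact this
      have := conj_pow (a := t⁻¹) (b := K.F * z' * K.F) (i := 3)
      rw [inv_inv, h4, mul_one, inv_mul_cancel] at this; exact this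
    obtain ⟨i, hi⟩ := mem_zpowers_iff.1 (L_three _ h1 h3)
    refine mem_zpowers_iff.2 ⟨i, ?_⟩
    rw [show z' ^ i = t * K.z ^ i * t⁻¹ by rw [hz', conj_zpow], hi]; group
  obtain ⟨i, hi⟩ := (Submonoid.mem_powers_iff _ _).1 ((mem_powers_iff_mem_zpowers).2 hFz)
  rw [pow_eq_pow_mod i hz'3] at hi
  have hlt := Nat.mod_lt i (by norm_num : 3 > 0)
  interval_cases hj : i % 3
  · rw [pow_zero] at hi
    apply hz'1
    calc z' = (K.F * K.F) * z' * (K.F * K.F) := by rw [K.F_sq, one_mul, mul_one]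
      _ = K.F * (K.F * z' * K.F) * K.F := by group
      _ = 1 := by rw [← hi, mul_one, K.F_sq]
  · rw [pow_one] at hi
    have hz'L : z' ∈ K.L := K.mem_L.2 ⟨mem_centralizer_singleton_iff.1 hz'Y, by
      calc z' * K.F = (K.F * z' * K.F) * K.F := by rw [← hi]
        _ = K.F * z' := by rw [mul_assoc, K.F_sq, mul_one]⟩
    obtain ⟨j, hj⟩ := (Submonoid.mem_powers_iff _ _).1
      ((mem_powers_iff_mem_zpowers).2 (L_three _ hz'L hz'3))
    rw [pow_eq_pow_mod j K.z_cube] at hj
    have := Nat.mod_lt j (by norm_num : 3 > 0)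
    have hcontra : ∀ m, m < 3 → dM * zM ^ m = zM ^ m * dM → m = 0 := by decide +kernel
    have hj0 := hcontra _ this (K.inj (by
      simp only [map_mul, map_pow]; rw [← hj] at hdz'; exact hdz'))
    rw [hj0, pow_zero] at hj
    exact hz'1 hj.symm
  · obtain ⟨u, hu, huz⟩ := K.exists_conj_three K.E K.E_sq K.E_ne W
      (fun x hx => hKgY ((memW x).1 hx).1) K.z z' (three_W _ hzY K.z_cube) (three_W _ hz'Y hz'3)
      K.z_cube K.z_ne hz'3 hz'1
    have hz2 : z' ^ 2 = z'⁻¹ := eq_inv_of_mul_eq_one_left (by rw [← pow_succ, hz'3])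
    rw [hz2] at hi
    set q := u * K.z * u⁻¹ with hq
    have hFq : K.F * q * K.F = q⁻¹ := by
      rcases huz with e | e <;> rw [e]
      · exact hi.symm
      · calc K.F * z'⁻¹ * K.F = (K.F * z' * K.F)⁻¹ := by
              simp only [mul_inv_rev, K.F_inv, mul_assoc]
          _ = _ := by rw [← hi]
    set c' := u⁻¹ * (K.F * u * K.F) with hc'
    have hc'W : c' ∈ W := by
      refine mul_mem (inv_mem hu) ((memW _).2 ⟨?_, ?_⟩)
      · have := conjK _ hFY _ ((memW u).1 hu).1; rwa [K.F_inv] at this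
      · have e : K.F * u * K.F = MulAut.conj K.F u := by rw [MulAut.conj_apply, K.F_inv]
        rw [e, ← MulEquiv.coe_toMonoidHom, orderOf_injective _ (MulAut.conj K.F).injective]
        exact ((memW u).1 hu).2
    have hFzc : K.F * K.z * K.F = K.z := by
      rw [mul_assoc, ← K.A_z fP, ← mul_assoc, K.F_sq, one_mul]
    have hcz : c' * K.z * c'⁻¹ = K.z⁻¹ := by
      calc c' * K.z * c'⁻¹ = u⁻¹ * (K.F * (u * (K.F * K.z * K.F) * u⁻¹) * K.F) * u := by
            rw [hc']; simp only [mul_inv_rev, inv_inv, K.F_inv, mul_assoc]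
        _ = u⁻¹ * q⁻¹ * u := by rw [hFzc, ← hq, hFq]
        _ = _ := by rw [hq]; group
    have hc2 : Commute (c' ^ 2) K.z := by
      change c' ^ 2 * K.z = K.z * c' ^ 2
      rw [← mul_inv_eq_iff_eq_mul, pow_two]
      calc c' * c' * K.z * (c' * c')⁻¹ = c' * (c' * K.z * c'⁻¹) * c'⁻¹ := by group
        _ = (c' * K.z * c'⁻¹)⁻¹ := by rw [hcz]; nth_rewrite 2 [← hcz]; group
        _ = K.z := by rw [hcz, inv_inv]
    obtain ⟨e, he⟩ : ∃ e, orderOf c' = 2 * e + 1 := by
      rcases Nat.even_or_odd' (orderOf c') with ⟨e, h | h⟩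
      · exact absurd (h ▸ dvd_mul_right 2 e) ((memW c').1 hc'W).2
      · exact ⟨e, h⟩
    have hcc : c' = (c' ^ 2) ^ (e + 1) := by
      rw [← pow_mul, show 2 * (e + 1) = orderOf c' + 1 by omega, pow_succ, pow_orderOf_eq_one, one_mul]
    have hcomm : c' * K.z * c'⁻¹ = K.z := by
      rw [mul_inv_eq_iff_eq_mul, hcc]; exact (hc2.pow_left _).eq
    rw [hcz] at hcomm
    apply K.z_ne
    calc K.z = K.z ^ 3 * (K.z * K.z)⁻¹ := by rw [pow_succ, pow_two]; group
      _ = 1 := by rw [K.z_cube, one_mul, mul_inv_rev]; nth_rewrite 2 [hcomm]; rw [← hcomm]; group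

end CfsgLib.AltEight29.Config
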