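import Cfsg.Agent.AltEight29.Config

/-!
From the three-local hypotheses to a normalised configuration.
-/

set_option autoImplicit false

open Equiv Subgroup

namespace CfsgLib.AltEight29

variable {G : Type*} [Group G] [Finite G]

theorem alt_card_five : Nat.card (Multiplicative (ZMod 3) × alternatingGroup (Fin 5)) = 180 := by
  rw [Nat.card_prod, nat_card_alternatingGroup, Nat.card_eq_fintype_card, Fintype.card_multiplicative,
    ZMod.card, Nat.card_eq_fintype_card, Fintype.card_fin]
  rfl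

/-- The three-local hypotheses give a configuration. -/
theorem exists_config (P : Sylow 3 G) (D : Subgroup G) (hDP : D = P) (y z : G)
    (hgen : closure {y, z} = D) (hcard : Nat.card D = 9) (hexp : ∀ a ∈ D, a ^ 3 = 1)
    (hC : centralizer (D : Set G) = D)
    (eN : normalizer (D : Set G) ⧸ D.subgroupOf (normalizer (D : Set G)) ≃* DihedralGroup 4)
    (hycard : Nat.card (centralizer ({y} : Set G)) = 18)
    (eC : centralizer ({z} : Set G) ≃* Multiplicative (ZMod 3) × alternatingGroup (Fin 5))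
    (eL : normalizer (zpowers z : Set G) ≃* M35) : Nonempty (Config G) := by
  classical
  have hyD : y ∈ D := hgen ▸ subset_closure (by simp)
  have hzD : z ∈ D := hgen ▸ subset_closure (by simp)
  have hz1 : z ≠ 1 := by
    intro hz
    have h1 : D ≤ zpowers y := by
      rw [← hgen, closure_le]
      rintro u (rfl | rfl)
      · exact mem_zpowers _
      · exact hz ▸ one_mem _
    have h2 := Nat.le_of_dvd (by norm_num)
      (Nat.card_zpowers y ▸ orderOf_dvd_of_pow_eq_one (hexp y hyD) : Nat.card (zpowers y) ∣ 3)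
    have h3 := Subgroup.card_le_of_le h1
    omega
  set ι₀ : M35 →* G := (normalizer (zpowers z : Set G)).subtype.comp eL.symm.toMonoidHom with hι
  have inj₀ : Function.Injective ι₀ := Subtype.val_injective.comp eL.symm.injective
  have range₀ : ι₀.range = normalizer (zpowers z : Set G) := by
    rw [hι, MonoidHom.range_comp, MonoidHom.range_eq_top.2 eL.symm.surjective,
      ← MonoidHom.range_eq_map, range_subtype]
  have hzN : z ∈ normalizer (zpowers z : Set G) := le_normalizer (mem_zpowers z)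
  obtain ⟨m, hm⟩ : ∃ m, ι₀ m = z := by rwa [← range₀] at hzN
  have hzn : z⁻¹ = z * z := inv_eq_of_mul_eq_one_right (by rw [← mul_assoc, ← pow_two, ← pow_succ, hexp z hzD])
  have hm3 : m ^ 3 = 1 := inj₀ (by rw [map_pow, hm, hexp z hzD, map_one])
  have hm1 : m ≠ 1 := fun e => hz1 (by rw [← hm, e, map_one])
  have hmc := central_three_table m hm3 hm1 (by
    set g := mk35 1 (swap 0 1 * swap 1 2 * swap 2 3 * swap 3 4)
    have hgN : ι₀ g ∈ normalizer (zpowers z : Set G) := range₀ ▸ ⟨g, rfl⟩
    have hmem : ι₀ g * z * (ι₀ g)⁻¹ ∈ zpowers z := (mem_normalizer_iff.1 hgN z).1 (mem_zpowers z)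
    obtain ⟨k, hk⟩ := (Submonoid.mem_powers_iff _ _).1
      ((mem_powers_iff_mem_zpowers).2 hmem)
    have hk' : ι₀ g * z * (ι₀ g)⁻¹ = z ^ (k % 3) := by
      rw [← hk]; exact pow_eq_pow_mod k (hexp z hzD)
    have hlt := Nat.mod_lt k (by norm_num : 3 > 0)
    simp only [List.mem_cons, List.not_mem_nil, or_false]
    interval_cases hj : k % 3
    · exact Or.inl (inj₀ (by rw [map_mul, map_mul, map_inv, map_one, hm, hk', pow_zero]))
    · exact Or.inr (Or.inl (inj₀ (by rw [map_mul, map_mul, map_inv, hm, hk', pow_one])))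
    · exact Or.inr (Or.inr (inj₀ (by rw [map_mul, map_mul, map_inv, map_mul, hm, hk', pow_two]))))
  -- replace `z` by the image of the standard element
  obtain ⟨z', hz', hzz, hzc⟩ : ∃ z', z' = ι₀ zM ∧ zpowers z' = zpowers z ∧
      centralizer ({z'} : Set G) = centralizer ({z} : Set G) := by
    refine ⟨_, rfl, ?_⟩
    rcases hmc with e | e
    · rw [← e, hm]; exact ⟨rfl, rfl⟩
    · have he : ι₀ zM = z⁻¹ := by
        rw [hzn, ← hm, ← map_mul, e, show zM * zM * (zM * zM) = zM ^ 3 * zM by simp only [pow_succ, pow_zero, one_mul, mul_assoc], zM_cube, one_mul]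
      rw [he]
      refine ⟨zpowers_inv, ?_⟩
      ext u
      rw [mem_centralizer_singleton_iff, mem_centralizer_singleton_iff]
      exact ⟨fun h => by simpa using (show Commute u z⁻¹ from h).inv_right.eq,
        fun h => (show Commute u z from h).inv_right.eq⟩
  have range_eq : ι₀.range = normalizer (zpowers (ι₀ zM) : Set G) := by
    rw [← hz', hzz, range₀]
  have hC180 : Nat.card (centralizer ({ι₀ zM} : Set G)) = 180 := by
    rw [← hz', hzc, Nat.card_congr eC.toEquiv, alt_card_five]
  set D0 := closure ({ι₀ zM, ι₀ wM} : Set G) with hD0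
  have hmap : D0 = (closure ({zM, wM} : Set M35)).map ι₀ := by
    rw [MonoidHom.map_closure, Set.image_pair]
  have hc0 : Nat.card D0 = 9 := by
    rw [hmap, ← Nat.card_congr (equivMapOfInjective _ ι₀ inj₀).toEquiv]
    let f : Fin 3 × Fin 3 → closure ({zM, wM} : Set M35) := fun p =>
      ⟨zM ^ p.1.1 * wM ^ p.2.1, mul_mem (pow_mem (subset_closure (by simp)) _)
        (pow_mem (subset_closure (by simp)) _)⟩
    have hf : Function.Bijective f := by
      refine ⟨fun p q h => ?_, fun x => ?_⟩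
      · have hinj : ∀ p q : Fin 3 × Fin 3,
            zM ^ p.1.1 * wM ^ p.2.1 = zM ^ q.1.1 * wM ^ q.2.1 → p = q := by decide +kernel
        exact hinj p q (congrArg Subtype.val h)
      · obtain ⟨a, b, ha, hb, he⟩ := mem_closure_two zM_wM zM_cube wM_cube x.2
        exact ⟨(⟨a, ha⟩, ⟨b, hb⟩), Subtype.ext he.symm⟩
    rw [← Nat.card_eq_of_bijective f hf, Nat.card_prod, Nat.card_eq_fintype_card, Fintype.card_fin]
  have hpD : IsPGroup 3 D0 := IsPGroup.of_card (n := 2) (by rw [hc0]; rfl)
  obtain ⟨Q, hQ⟩ := hpD.exists_le_sylow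
  obtain ⟨c, rfl⟩ := MulAction.exists_smul_eq G P Q
  have hQeq : D0 = ((c • P : Sylow 3 G) : Subgroup G) := by
    refine Subgroup.eq_of_le_of_card_ge hQ ?_
    rw [hc0, ← hcard, hDP]
    exact le_of_eq (Nat.card_congr (Sylow.equiv (c • P) P).toEquiv)
  have hmem : ∀ x, x ∈ D0 ↔ c⁻¹ * x * c ∈ D := by
    intro x
    rw [hQeq, hDP, Sylow.coe_subgroup_smul, Subgroup.mem_pointwise_smul_iff_inv_smul_mem]
    simp [MulAut.smul_def, MulAut.conj_apply]
  have hnorm : ∀ x, x ∈ normalizer (D0 : Set G) → c⁻¹ * x * c ∈ normalizer (D : Set G) := by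
    intro x hx
    rw [mem_normalizer_iff]
    intro u
    have h1 := mem_normalizer_iff.1 hx (c * u * c⁻¹)
    rw [hmem, hmem] at h1
    rw [show c⁻¹ * (c * u * c⁻¹) * c = u by group,
      show c⁻¹ * (x * (c * u * c⁻¹) * x⁻¹) * c = c⁻¹ * x * c * u * (c⁻¹ * x * c)⁻¹ by group] at h1
    exact h1
  have hC0 : ∀ g : G, g * ι₀ zM = ι₀ zM * g → g * ι₀ wM = ι₀ wM * g → g ∈ D0 := by
    intro g h1 h2
    have hle : D0 ≤ centralizer ({g} : Set G) := by
      rw [hD0, closure_le]
      rintro u (rfl | rfl)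
      · exact mem_centralizer_singleton_iff.2 h1.symm
      · exact mem_centralizer_singleton_iff.2 h2.symm
    rw [hmem, ← hC, mem_centralizer_iff]
    intro u hu
    have hu' : c * u * c⁻¹ ∈ D0 := by
      rw [hmem, show c⁻¹ * (c * u * c⁻¹) * c = u by group]; exact hu
    have h := mem_centralizer_singleton_iff.1 (hle hu')
    calc u * (c⁻¹ * g * c) = c⁻¹ * (c * u * c⁻¹ * g) * c := by group
      _ = c⁻¹ * (g * (c * u * c⁻¹)) * c := by rw [h]
      _ = _ := by group
  have h27 : ¬ 27 ∣ Nat.card G := by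
    intro h
    have : Fact (Nat.Prime 3) := ⟨Nat.prime_three⟩
    have := P.pow_dvd_card_of_pow_dvd_card (n := 3) h
    rw [← hDP, hcard] at this
    norm_num at this
  obtain ⟨qb, hqb⟩ := QuotientGroup.mk_surjective (eN.symm (DihedralGroup.r 1))
  set q := c * (qb : G) * c⁻¹ with hq
  have hq' : c⁻¹ * q * c = qb := by rw [hq]; group
  have key : ∀ u : normalizer (D : Set G), (u : G) ∈ D ↔
      eN (QuotientGroup.mk u) = 1 := fun u => by
    rw [MulEquiv.map_eq_one_iff, QuotientGroup.eq_one_iff, mem_subgroupOf]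
  have hr : eN (QuotientGroup.mk qb) = DihedralGroup.r 1 := by rw [hqb, MulEquiv.apply_symm_apply]
  refine exists_config_of ι₀ inj₀ range_eq h27 hC0 q ?_ ?_ ?_ hC180 (c * y * c⁻¹) ?_ ?_
  · rw [hmem, show c⁻¹ * (q * q) * c = ((qb * qb : normalizer (D : Set G)) : G) by
      rw [Subgroup.coe_mul, ← hq']; group, key, QuotientGroup.mk_mul, map_mul, hr]
    exact dihedral_table.1
  · rw [mem_normalizer_iff]
    intro u
    change u ∈ D0 ↔ q * u * q⁻¹ ∈ D0
    rw [hmem, hmem, mem_normalizer_iff.1 qb.2 (c⁻¹ * u * c), ← hq']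
    convert Iff.rfl using 2; group
  · intro x hx
    obtain ⟨xb, hxb⟩ : ∃ xb : normalizer (D : Set G), (xb : G) = c⁻¹ * x * c :=
      ⟨⟨_, hnorm x hx⟩, rfl⟩
    obtain ⟨hd1, hd2⟩ := dihedral_table.2 (eN (QuotientGroup.mk xb))
    refine ⟨?_, ?_⟩
    · rcases hd1 with h | h
      · left
        rw [hmem, show c⁻¹ * (x * q * x⁻¹ * q⁻¹) * c =
          ((xb * qb * xb⁻¹ * qb⁻¹ : normalizer (D : Set G)) : G) by
            simp only [Subgroup.coe_mul, Subgroup.coe_inv, hxb, hq]; group, key]
        simp only [QuotientGroup.mk_mul, QuotientGroup.mk_inv, map_mul, map_inv, hr]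
        exact mul_inv_eq_one.2 h
      · right
        rw [hmem, show c⁻¹ * (x * q * x⁻¹ * q) * c =
          ((xb * qb * xb⁻¹ * qb : normalizer (D : Set G)) : G) by
            simp only [Subgroup.coe_mul, Subgroup.coe_inv, hxb, hq]; group, key]
        simp only [QuotientGroup.mk_mul, QuotientGroup.mk_inv, map_mul, map_inv, hr]
        rw [h, inv_mul_cancel]
    · rw [hmem, show c⁻¹ * (x * (q * q) * x⁻¹ * (q * q)⁻¹) * c =
        ((xb * (qb * qb) * xb⁻¹ * (qb * qb)⁻¹ : normalizer (D : Set G)) : G) by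
          simp only [Subgroup.coe_mul, Subgroup.coe_inv, hxb, hq]; group, key]
      simp only [QuotientGroup.mk_mul, QuotientGroup.mk_inv, map_mul, map_inv, hr]
      exact mul_inv_eq_one.2 hd2
  · rw [hmem, show c⁻¹ * (c * y * c⁻¹) * c = y by group]
    exact hyD
  · rw [card_centralizer_conj, hycard]

end CfsgLib.AltEight29
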