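import Cfsg.Agent.AltEight29.CentralTables

/-!
Finite facts for the centraliser of a fixed-point-free involution.
-/

set_option autoImplicit false
set_option maxRecDepth 16000

open Equiv

attribute [local instance 10000] List.decidableBAll List.decidableBEx

namespace CfsgLib.AltEight29

theorem L96_sv : ∀ σ ∈ L96, σ * sv = sv * σ → σ ^ 4 = 1 := by decide +kernel

theorem pk_cent : ∀ e : Fin 2, ∀ a b : Fin 3,
    let σ := pk * (sw ^ e.1 * (u1 ^ a.1 * u2 ^ b.1)) * pk⁻¹
    σ * sv = sv * σ → σ ∈ [1, pv, pv * pv] ∨ σ * sv ∈ [1, pv, pv * pv] := by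
  decide +kernel

theorem small_facts : qv * sv = sv * qv ∧ cv * ev = ev * cv ∧ cv * sv = sv * cv ∧
    ev * sv = sv * ev ∧ pv * sv = sv * pv ∧ (pv * sv) ^ 3 ≠ 1 ∧ cv ≠ 1 ∧ cv ≠ ev := by
  decide +kernel

theorem sv_support : sv.1.support.card = 8 ∧ ev.1.support.card = 4 := by decide +kernel

theorem odd_comm : Perm.sign (swap (0 : Fin 8) 1) = -1 ∧ swap 0 1 * sv.1 = sv.1 * swap 0 1 ∧
    swap 0 1 * ev.1 = ev.1 * swap 0 1 := by
  decide +kernel

end CfsgLib.AltEight29
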