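import Cfsg.Agent.AltEight29.Tables

/-!
Finite facts about four groups in the alternating group of degree five.
-/

set_option autoImplicit false
set_option maxRecDepth 8000

open Equiv

namespace CfsgLib.AltEight29

/-- The second factor, as a homomorphism into `M35`. -/
def jA : alternatingGroup (Fin 5) →* M35 where
  toFun π := ⟨(1, π.1), by rw [mem_M35, map_one, π.2, one_mul]⟩
  map_one' := rfl
  map_mul' π ρ := Subtype.ext (Prod.ext (mul_one 1).symm rfl)

/-- An even permutation of five points. -/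
def mk5 (π : Perm (Fin 5)) (h : Perm.sign π = 1 := by decide +kernel) : alternatingGroup (Fin 5) :=
  ⟨π, h⟩

def eP : alternatingGroup (Fin 5) := mk5 (swap 0 1 * swap 2 3)
def fP : alternatingGroup (Fin 5) := mk5 (swap 0 2 * swap 1 3)
def cP : alternatingGroup (Fin 5) := mk5 c5

/-- The four group fixing the last point. -/
def fourList : List (alternatingGroup (Fin 5)) := [1, eP, fP, eP * fP]

/-- Conjugation by the transposition of the last two points. -/
def twist : alternatingGroup (Fin 5) →* alternatingGroup (Fin 5) where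
  toFun π := ⟨swap 3 4 * π.1 * swap 3 4, by
    rw [Perm.mem_alternatingGroup, map_mul, map_mul, π.2, Perm.sign_swap (by decide)]; rfl⟩
  map_one' := Subtype.ext (by
    change swap 3 4 * 1 * swap 3 4 = (1 : Perm (Fin 5))
    rw [mul_one, swap_mul_self])
  map_mul' π ρ := Subtype.ext (by
    change swap 3 4 * (π.1 * ρ.1) * swap 3 4 =
      swap 3 4 * π.1 * swap 3 4 * (swap 3 4 * ρ.1 * swap 3 4)
    simp only [mul_assoc, swap_mul_self_mul])

/-- `((0 1), (0 1))`. -/
def dM : M35 := mk35 (swap 0 1) (swap 0 1)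

theorem jA_cP : jA cP = wM := by decide +kernel
theorem dM_sq : dM * dM = 1 := by decide +kernel
theorem dM_ne : dM ≠ 1 := by decide +kernel
theorem dM_e : dM * jA eP * dM⁻¹ = jA eP := by decide +kernel
theorem dM_f : dM * jA fP * dM⁻¹ = jA (eP * fP) := by decide +kernel
theorem eP_sq : eP * eP = 1 := by decide +kernel
theorem fP_sq : fP * fP = 1 := by decide +kernel
theorem eP_fP : eP * fP = fP * eP := by decide +kernel
theorem cP_e : cP * eP * cP⁻¹ = eP * fP := by decide +kernel
theorem cP_f : cP * fP * cP⁻¹ = eP := by decide +kernel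
theorem eP_ne : eP ≠ 1 := by decide +kernel

theorem five_centralizer_four : ∀ τ : Perm (Fin 5), τ * eP.1 = eP.1 * τ → τ * fP.1 = fP.1 * τ →
    τ ∈ fourList.map Subtype.val := by
  decide +kernel

theorem three_centralizer : ∀ σ : Perm (Fin 3), σ * c3 = c3 * σ → σ ∈ [1, c3, c3 * c3] := by
  decide +kernel

theorem three_even : ∀ σ : Perm (Fin 3), Perm.sign σ = 1 → σ * c3 = c3 * σ := by
  decide +kernel

theorem four_square : ∀ v ∈ fourList, v * v = 1 := by decide +kernel

theorem four_closed : ∀ u ∈ fourList, ∀ v ∈ fourList, u * v ∈ fourList := by decide +kernel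

theorem four_orbit : ∀ π ∈ fourList, π ≠ 1 → ∀ v ∈ fourList,
    v ∈ [1, π, cP * π * cP⁻¹, cP * cP * π * (cP * cP)⁻¹] := by
  decide +kernel

/-- Short words in a permutation and its conjugates under `(0 1 2)`. -/
def words (π : Perm (Fin 5)) : List (Perm (Fin 5)) :=
  [π, π * (c5 * π * c5⁻¹), π * (c5⁻¹ * π * c5), π⁻¹ * (c5 * π * c5⁻¹), π⁻¹ * (c5⁻¹ * π * c5),
    π * π * (c5 * π * c5⁻¹), π * π * (c5⁻¹ * π * c5), π * (c5 * (π * π) * c5⁻¹),
    π * (c5⁻¹ * (π * π) * c5), π * π * (c5 * (π * π) * c5⁻¹),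
    π * (c5 * π * c5⁻¹) * (c5⁻¹ * π * c5), π * (c5⁻¹ * π * c5) * (c5 * π * c5⁻¹),
    π * (c5 * π * c5⁻¹) * π * (c5⁻¹ * π * c5)]

theorem four_of_words : ∀ π : Perm (Fin 5), Perm.sign π = 1 → π ≠ 1 →
    (∀ x ∈ words π, x * x * x = 1 → x = 1) →
    π ∈ fourList.map Subtype.val ∨ swap 3 4 * π * swap 3 4 ∈ fourList.map Subtype.val := by
  decide +kernel

/-- The dihedral group of order eight containing the four group. -/
def T1M : Subgroup M35 where
  carrier := {m | m ∈ [1, jA eP, jA fP, jA (eP * fP), dM, dM * jA eP, dM * jA fP, dM * jA (eP * fP)]}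
  mul_mem' {a b} ha hb := by
    have h : ∀ x ∈ [1, jA eP, jA fP, jA (eP * fP), dM, dM * jA eP, dM * jA fP, dM * jA (eP * fP)],
        ∀ y ∈ [1, jA eP, jA fP, jA (eP * fP), dM, dM * jA eP, dM * jA fP, dM * jA (eP * fP)],
        x * y ∈ [1, jA eP, jA fP, jA (eP * fP), dM, dM * jA eP, dM * jA fP, dM * jA (eP * fP)] := by
      decide +kernel
    exact h a ha b hb
  one_mem' := by simp
  inv_mem' {a} ha := by
    have h : ∀ x ∈ [1, jA eP, jA fP, jA (eP * fP), dM, dM * jA eP, dM * jA fP, dM * jA (eP * fP)],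
        x⁻¹ ∈ [1, jA eP, jA fP, jA (eP * fP), dM, dM * jA eP, dM * jA fP, dM * jA (eP * fP)] := by
      decide +kernel
    exact h a ha

theorem T1M_card : Nat.card T1M = 8 := by
  classical
  have hl : ([1, jA eP, jA fP, jA (eP * fP), dM, dM * jA eP, dM * jA fP, dM * jA (eP * fP)] :
      List M35).Nodup := by decide +kernel
  let L : List M35 := [1, jA eP, jA fP, jA (eP * fP), dM, dM * jA eP, dM * jA fP, dM * jA (eP * fP)]
  have : Nat.card T1M = Nat.card {m : M35 // m ∈ L.toFinset} :=
    Nat.card_congr (Equiv.subtypeEquivRight fun m => (List.mem_toFinset (a := m) (l := L)).symm)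
  rw [this, Nat.card_eq_fintype_card, Fintype.card_coe, List.toFinset_card_of_nodup hl]
  rfl

end CfsgLib.AltEight29
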