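import Cfsg.Agent.AltEight29.Basic
import Cfsg.Agent.AltEight29.FourTables

/-!
The centraliser of a four group of the first alternating subgroup of degree five: either the
two alternating subgroups contain commuting four groups, or this centraliser has order twelve.
-/

set_option autoImplicit false

open Equiv Subgroup

namespace CfsgLib.AltEight29.Config

variable {G : Type*} [Group G] (K : Config G)

/-- The alternating subgroup of degree five in the centraliser of `z`. -/
def A : alternatingGroup (Fin 5) →* G := K.ι.comp jA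

/-- The alternating subgroup of degree five in the centraliser of `w`. -/
def B : alternatingGroup (Fin 5) →* G :=
  MonoidHom.mk' (fun π => K.n * K.A π * K.n) fun π ρ => by rw [map_mul, K.n_conj_mul]

theorem A_apply (π : alternatingGroup (Fin 5)) : K.A π = K.ι (jA π) := rfl
theorem B_apply (π : alternatingGroup (Fin 5)) : K.B π = K.n * K.A π * K.n := rfl
theorem A_cP : K.A cP = K.w := by rw [A_apply, jA_cP]
theorem B_cP : K.B cP = K.z := by rw [B_apply, A_cP]; exact K.n_w

/-- The first generator of the four group. -/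
abbrev E : G := K.A eP
/-- The second generator of the four group. -/
abbrev F : G := K.A fP

/-- The centraliser of the four group. -/
def L : Subgroup G := centralizer ({K.E} : Set G) ⊓ centralizer ({K.F} : Set G)

theorem mem_L {g : G} : g ∈ K.L ↔ g * K.E = K.E * g ∧ g * K.F = K.F * g := by
  rw [L, Subgroup.mem_inf, mem_centralizer_singleton_iff, mem_centralizer_singleton_iff]

theorem A_z (π : alternatingGroup (Fin 5)) : K.A π * K.z = K.z * K.A π := by
  rw [A_apply, ← map_mul, ← map_mul]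
  refine congrArg K.ι (Subtype.ext (Prod.ext ?_ ?_))
  · exact (one_mul c3).trans (mul_one c3).symm
  · exact (mul_one π.1).trans (one_mul π.1).symm

theorem z_mem_L : K.z ∈ K.L := K.mem_L.2 ⟨(K.A_z _).symm, (K.A_z _).symm⟩

theorem four_comm {v : alternatingGroup (Fin 5)} (hv : v ∈ fourList) : K.A v ∈ K.L := by
  have h : ∀ v ∈ fourList, v * eP = eP * v ∧ v * fP = fP * v := by decide +kernel
  exact K.mem_L.2 ⟨by rw [← map_mul, (h v hv).1, map_mul], by rw [← map_mul, (h v hv).2, map_mul]⟩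

theorem L_range {g : G} (hg : g ∈ K.L) (m : M35) (hm : K.ι m = g) :
    m.1.2 ∈ fourList.map Subtype.val := by
  subst hm
  obtain ⟨h1, h2⟩ := K.mem_L.1 hg
  change K.ι m * K.ι (jA eP) = K.ι (jA eP) * K.ι m at h1
  change K.ι m * K.ι (jA fP) = K.ι (jA fP) * K.ι m at h2
  rw [← map_mul, ← map_mul] at h1 h2
  exact five_centralizer_four _ (congrArg (fun x : M35 => x.1.2) (K.inj h1))
    (congrArg (fun x : M35 => x.1.2) (K.inj h2))

theorem L_cent {g : G} (hg : g ∈ K.L) (h : g * K.z = K.z * g) :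
    ∃ a, a < 3 ∧ ∃ v ∈ fourList, g = K.z ^ a * K.A v := by
  obtain ⟨m, hm, rfl⟩ := K.centralizer_z g h
  obtain ⟨v, hv, hvτ⟩ := List.mem_map.1 (K.L_range hg m rfl)
  have hσ := three_centralizer m.1.1 (congrArg (fun x : M35 => x.1.1) hm)
  obtain ⟨a, ha, haσ⟩ : ∃ a, a < 3 ∧ m.1.1 = c3 ^ a := by
    simp only [List.mem_cons, List.not_mem_nil, or_false] at hσ
    rcases hσ with e | e | e
    · exact ⟨0, by norm_num, e⟩
    · exact ⟨1, by norm_num, by rw [e, pow_one]⟩
    · exact ⟨2, by norm_num, by rw [e, pow_two]⟩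
  refine ⟨a, ha, v, hv, ?_⟩
  rw [A_apply, ← map_pow, ← map_mul]
  refine congrArg K.ι (Subtype.ext (Prod.ext ?_ ?_))
  · simp [zM, mk35, jA, haσ]
  · simp [zM, mk35, jA, hvτ]

theorem four_sq {v : alternatingGroup (Fin 5)} (hv : v ∈ fourList) : K.A v * K.A v = 1 := by
  rw [← map_mul, four_square v hv, map_one]

theorem L_cent_order {g : G} (hg : g ∈ K.L) (h : g * K.z = K.z * g) (h3 : ¬ 3 ∣ orderOf g) :
    ∃ v ∈ fourList, g = K.A v := by
  obtain ⟨a, ha, v, hv, rfl⟩ := K.L_cent hg h
  refine ⟨v, hv, ?_⟩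
  suffices ha0 : a = 0 by rw [ha0, pow_zero, one_mul]
  by_contra ha0
  apply h3
  have hsq : (K.z ^ a * K.A v) ^ 2 = K.z ^ (2 * a) := by
    rw [(show Commute K.z (K.A v) from (K.A_z v).symm).pow_left a |>.mul_pow, pow_two (K.A v),
      K.four_sq hv, mul_one, ← pow_mul, mul_comm]
  have hne : K.z ^ (2 * a) ≠ 1 := by
    intro e
    have := orderOf_dvd_of_pow_eq_one e
    rw [orderOf_eq_prime K.z_cube K.z_ne] at this
    omega
  have hord : orderOf ((K.z ^ a * K.A v) ^ 2) = 3 := by
    have : Fact (Nat.Prime 3) := ⟨Nat.prime_three⟩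
    refine orderOf_eq_prime ?_ (hsq ▸ hne)
    rw [hsq, ← pow_mul, mul_comm, pow_mul, K.z_cube, one_pow]
  exact hord ▸ orderOf_pow_dvd _

theorem w_conj_E : K.w * K.E * K.w⁻¹ = K.A (eP * fP) := by
  rw [← K.A_cP, ← map_inv, ← map_mul, ← map_mul, cP_e]

theorem w_conj_F : K.w * K.F * K.w⁻¹ = K.E := by
  rw [← K.A_cP, ← map_inv, ← map_mul, ← map_mul, cP_f]

theorem w_normal_L {g : G} (hg : g ∈ K.L) : K.w * g * K.w⁻¹ ∈ K.L := by
  obtain ⟨h1, h2⟩ := K.mem_L.1 hg
  have key : ∀ x, g * x = x * g →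
      (K.w * g * K.w⁻¹) * (K.w * x * K.w⁻¹) = (K.w * x * K.w⁻¹) * (K.w * g * K.w⁻¹) := by
    intro x hx
    rw [conj_mul, conj_mul, hx]
  have hE := key _ h2
  have hEF := key _ h1
  rw [K.w_conj_F] at hE
  rw [K.w_conj_E, map_mul] at hEF
  refine K.mem_L.2 ⟨hE, ?_⟩
  have := (show Commute _ K.E from hE).inv_right.mul_right (show Commute _ (K.E * K.F) from hEF)
  rw [inv_mul_cancel_left] at this
  exact this.eq

variable [Finite G]

theorem exists_O : ∃ O : Subgroup G, (∀ x, x ∈ O ↔ x ∈ K.L ∧ ¬ 3 ∣ orderOf x) ∧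
    (Nat.card O).Coprime 3 ∧ ∀ x ∈ K.L, ∃ k : ℕ, x * K.z ^ k ∈ O := by
  refine exists_complement_three K.not27 K.L K.z K.z_mem_L K.z_cube K.z_ne ?_ ?_
  · intro g hg hgz h9
    have h3 : ∀ v ∈ fourList, K.A v ^ 9 = 1 → K.A v = 1 := by
      intro v hv h
      rwa [pow_succ, show (8 : ℕ) = 2 * 4 by norm_num, pow_mul, pow_two, K.four_sq hv, one_pow,
        one_mul] at h
    obtain ⟨a, -, v, hv, rfl⟩ := K.L_cent hg hgz
    rw [((show Commute K.z (K.A v) from (K.A_z v).symm).pow_left a).mul_pow, ← pow_mul,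
      show a * 9 = 3 * (3 * a) by ring, pow_mul, K.z_cube, one_pow, one_mul] at h9
    rw [h3 v hv h9, mul_one]
    exact pow_mem (mem_zpowers _) a
  · intro g hg hgz
    obtain ⟨m, rfl⟩ := K.mem_range_of g hgz
    obtain ⟨v, -, hvτ⟩ := List.mem_map.1 (K.L_range hg m rfl)
    have hsgn : Perm.sign m.1.1 * Perm.sign m.1.2 = 1 := m.2
    rw [← hvτ, v.2, mul_one] at hsgn
    rw [← map_mul, ← map_mul]
    refine congrArg K.ι (Subtype.ext (Prod.ext (three_even _ hsgn) ?_))
    exact (mul_one _).trans (one_mul _).symm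

/-- The key alternative. -/
theorem fours_alternative : (∃ ψ : alternatingGroup (Fin 5) →* alternatingGroup (Fin 5),
      (ψ = MonoidHom.id _ ∨ ψ = twist) ∧
      ∀ u ∈ fourList, ∀ v ∈ fourList, Commute (K.A u) (K.B (ψ v))) ∨
    ∀ g ∈ K.L, ∃ a, a < 3 ∧ ∃ v ∈ fourList, g = K.z ^ a * K.A v := by
  obtain ⟨O, hO, hco, hOz⟩ := K.exists_O
  have hnorm : ∀ x : G, (∀ g ∈ K.L, x * g * x⁻¹ ∈ K.L) → ∀ g ∈ O, x * g * x⁻¹ ∈ O := by
    intro x hx g hg
    rw [hO] at hg ⊢
    refine ⟨hx g hg.1, ?_⟩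
    rw [← MulAut.conj_apply, ← MulEquiv.coe_toMonoidHom,
      orderOf_injective _ (MulAut.conj x).injective]
    exact hg.2
  have hzO := hnorm K.z fun g hg => mul_mem (mul_mem K.z_mem_L hg) (inv_mem K.z_mem_L)
  have hwO := hnorm K.w fun g hg => K.w_normal_L hg
  have mem_norm : ∀ x : G, (∀ g ∈ O, x * g * x⁻¹ ∈ O) → x ∈ normalizer (O : Set G) := by
    intro x hx
    have hcard : O.map (MulAut.conj x).toMonoidHom = O :=
      Subgroup.eq_of_le_of_card_ge (by rintro _ ⟨u, hu, rfl⟩; exact hx u hu) (le_of_eq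
        (Nat.card_congr (Subgroup.equivMapOfInjective O _ (MulAut.conj x).injective).toEquiv))
    rw [mem_normalizer_iff]
    refine fun u => ⟨hx u, fun hu => ?_⟩
    rw [← hcard] at hu
    obtain ⟨v, hv, hvu⟩ := hu
    rwa [← (MulAut.conj x).injective hvu]
  by_cases hT : ∀ t ∈ O, t * K.w = K.w * t → t = 1
  · right
    let S : Subgroup G := (closure (fourList.toFinset : Set (alternatingGroup (Fin 5)))).map K.A
    have hS : O ≤ S := by
      refine K.le_of_normalised O S hco (mem_norm _ hzO) (mem_norm _ hwO) ?_ ?_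
      · intro g hg hgz
        obtain ⟨v, hv, rfl⟩ := K.L_cent_order ((hO g).1 hg).1 hgz ((hO g).1 hg).2
        exact ⟨v, subset_closure (List.mem_toFinset.2 hv), rfl⟩
      · intro g hg hgw
        exact hT g hg hgw ▸ one_mem S
    intro g hg
    obtain ⟨k, hk⟩ := hOz g hg
    obtain ⟨v, hv, hve⟩ := hS hk
    have hv' : v ∈ fourList := by
      have hin : ∀ v ∈ closure (fourList.toFinset : Set (alternatingGroup (Fin 5))), v ∈ fourList := by
        intro v hv
        induction hv using Subgroup.closure_induction with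
        | mem y hy => exact List.mem_toFinset.1 hy
        | one => simp [fourList]
        | mul y y' _ _ h h' => exact four_closed _ h _ h'
        | inv y _ h => rwa [inv_eq_of_mul_eq_one_right (four_square y h)]
      exact hin v hv
    refine ⟨(2 * k) % 3, Nat.mod_lt _ (by norm_num), v, hv', ?_⟩
    have hz3 : K.z ^ k * K.z ^ (2 * k) = 1 := by
      rw [← pow_add, show k + 2 * k = 3 * k by ring, pow_mul, K.z_cube, one_pow]
    rw [← pow_eq_pow_mod _ K.z_cube,
      ((show Commute K.z (K.A v) from (K.A_z v).symm).pow_left _).eq, hve, mul_assoc, hz3, mul_one]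
  · left
    push Not at hT
    obtain ⟨t, ht, htw, ht1⟩ := hT
    obtain ⟨m, hm, rfl⟩ := K.centralizer_w t htw
    have hσ : m.1.1 = 1 := by
      have h3 := ((hO _).1 ht).2
      have ho : orderOf (K.n * K.ι m * K.n) = orderOf m := by
        have : K.n * K.ι m * K.n = MulAut.conj K.n (K.ι m) := by rw [MulAut.conj_apply, K.n_inv]
        rw [this, ← MulEquiv.coe_toMonoidHom, orderOf_injective _ (MulAut.conj K.n).injective,
          orderOf_injective K.ι K.inj]
      rw [ho] at h3
      by_contra hne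
      apply h3
      have hc := three_centralizer m.1.1 (congrArg (fun x : M35 => x.1.1) hm)
      have h31 : orderOf m.1.1 = 3 := by
        have : Fact (Nat.Prime 3) := ⟨Nat.prime_three⟩
        refine orderOf_eq_prime ?_ hne
        simp only [List.mem_cons, List.not_mem_nil, or_false] at hc
        rcases hc with e | e | e <;> rw [e]
        · exact one_pow 3
        · decide +kernel
        · decide +kernel
      exact (dvd_of_eq h31.symm).trans (orderOf_map_dvd ((MonoidHom.fst _ _).comp M35.subtype) m)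
    have hsg : Perm.sign m.1.1 * Perm.sign m.1.2 = 1 := m.2
    rw [hσ, map_one, one_mul] at hsg
    obtain ⟨π, hπ⟩ : ∃ π : alternatingGroup (Fin 5), π.1 = m.1.2 := ⟨⟨m.1.2, hsg⟩, rfl⟩
    have hmπ : jA π = m := Subtype.ext (Prod.ext hσ.symm hπ)
    have htB : K.B π ∈ O := by rw [B_apply, A_apply, hmπ]; exact ht
    have hπ1 : π ≠ 1 := fun e => ht1 (by rw [← hmπ, e, map_one, map_one, mul_one, K.n_sq])
    set U := O.comap K.B with hU
    have hπU : π ∈ U := htB
    have hcU : ∀ ρ ∈ U, cP * ρ * cP⁻¹ ∈ U := by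
      intro ρ hρ
      change K.B (cP * ρ * cP⁻¹) ∈ O
      rw [map_mul, map_mul, map_inv, B_cP]
      exact hzO _ hρ
    have hc'U : ∀ ρ ∈ U, cP⁻¹ * ρ * cP ∈ U := by
      intro ρ hρ
      have := hcU _ (hcU ρ hρ)
      convert this using 1
      have hcc : cP * cP = cP⁻¹ := by decide +kernel
      rw [show cP * (cP * ρ * cP⁻¹) * cP⁻¹ = (cP * cP) * ρ * (cP * cP)⁻¹ by group, hcc, inv_inv]
    have hfour := four_of_words π.1 π.2 (fun e => hπ1 (Subtype.ext e)) (by
      intro x hx hx3
      obtain ⟨ρ, hρ, rfl⟩ : ∃ ρ ∈ U, ρ.1 = x := by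
        have a1 := hcU π hπU
        have a2 := hc'U π hπU
        have b1 := hcU _ (mul_mem hπU hπU)
        have b2 := hc'U _ (mul_mem hπU hπU)
        simp only [words, List.mem_cons, List.not_mem_nil, or_false] at hx
        rcases hx with rfl | rfl | rfl | rfl | rfl | rfl | rfl | rfl | rfl | rfl | rfl | rfl | rfl
        · exact ⟨_, hπU, rfl⟩
        · exact ⟨_, mul_mem hπU a1, rfl⟩
        · exact ⟨_, mul_mem hπU a2, rfl⟩
        · exact ⟨_, mul_mem (inv_mem hπU) a1, rfl⟩
        · exact ⟨_, mul_mem (inv_mem hπU) a2, rfl⟩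
        · exact ⟨_, mul_mem (mul_mem hπU hπU) a1, rfl⟩
        · exact ⟨_, mul_mem (mul_mem hπU hπU) a2, rfl⟩
        · exact ⟨_, mul_mem hπU b1, rfl⟩
        · exact ⟨_, mul_mem hπU b2, rfl⟩
        · exact ⟨_, mul_mem (mul_mem hπU hπU) b1, rfl⟩
        · exact ⟨_, mul_mem (mul_mem hπU a1) a2, rfl⟩
        · exact ⟨_, mul_mem (mul_mem hπU a2) a1, rfl⟩
        · exact ⟨_, mul_mem (mul_mem (mul_mem hπU a1) hπU) a2, rfl⟩
      by_contra hne
      have hρ3 : ρ ^ 3 = 1 := Subtype.ext (by
        rw [pow_succ, pow_two]; exact hx3)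
      have hB3 : orderOf (K.B ρ) ∣ 3 := orderOf_dvd_of_pow_eq_one (by rw [← map_pow, hρ3, map_one])
      rcases (Nat.dvd_prime Nat.prime_three).1 hB3 with e | e
      · rw [orderOf_eq_one_iff, B_apply] at e
        have : K.A ρ = 1 := by
          have := congrArg (fun u => K.n * u * K.n) e
          simpa only [K.n_conj_n, mul_one, K.n_sq] using this
        have h1 := congrArg (fun x : M35 => x.1.2) (K.inj (this.trans (map_one K.ι).symm))
        exact hne h1
      · exact ((hO _).1 hρ).2 (e ▸ dvd_rfl))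
    obtain ⟨ψ, hψ, π', hπ', hψπ⟩ : ∃ ψ : alternatingGroup (Fin 5) →* alternatingGroup (Fin 5),
        (ψ = MonoidHom.id _ ∨ ψ = twist) ∧ ∃ π' ∈ fourList, ψ π' = π := by
      rcases hfour with h | h <;> obtain ⟨v, hv, hve⟩ := List.mem_map.1 h
      · exact ⟨_, Or.inl rfl, v, hv, Subtype.ext hve⟩
      · refine ⟨_, Or.inr rfl, v, hv, Subtype.ext ?_⟩
        change swap 3 4 * v.1 * swap 3 4 = π.1
        rw [hve]
        simp [mul_assoc]
    have hψc : ψ cP = cP := by
      rcases hψ with rfl | rfl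
      · rfl
      · decide +kernel
    refine ⟨ψ, hψ, fun u hu v hv => ?_⟩
    have hπ'1 : π' ≠ 1 := fun e => hπ1 (by rw [← hψπ, e, map_one])
    have hvU : ψ v ∈ U := by
      have := four_orbit π' hπ' hπ'1 v hv
      simp only [List.mem_cons, List.not_mem_nil, or_false] at this
      rcases this with rfl | rfl | rfl | rfl
      · rw [map_one]; exact one_mem _
      · rw [hψπ]; exact hπU
      · rw [map_mul, map_mul, map_inv, hψc, hψπ]; exact hcU _ hπU
      · rw [show cP * cP * π' * (cP * cP)⁻¹ = cP * (cP * π' * cP⁻¹) * cP⁻¹ by group]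
        simp only [map_mul, map_inv, hψc, hψπ]
        exact hcU _ (hcU _ hπU)
    obtain ⟨h1, h2⟩ := K.mem_L.1 ((hO _).1 hvU).1
    simp only [fourList, List.mem_cons, List.not_mem_nil, or_false] at hu
    rcases hu with rfl | rfl | rfl | rfl
    · rw [map_one]; exact Commute.one_left _
    · exact h1.symm
    · exact h2.symm
    · rw [map_mul]
      exact (show Commute K.E (K.B (ψ v)) from h1.symm).mul_left h2.symm

end CfsgLib.AltEight29.Config
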