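import Cfsg.Agent.AltEight29.FourTables
import Cfsg.Agent.AltPres54.Carmichael

/-!
Finite facts used in the construction of the embedding of the alternating group of degree eight.
-/

set_option autoImplicit false
set_option maxRecDepth 8000

open Equiv

namespace CfsgLib.AltEight29

open CfsgLib.AltPres54 (tri)

/-- An even permutation of eight points. -/
def mk8 (π : Perm (Fin 8)) (h : Perm.sign π = 1 := by decide +kernel) : alternatingGroup (Fin 8) :=
  ⟨π, h⟩

/-- Even permutations of five points, moved to the last five of eight points. -/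
def shift : alternatingGroup (Fin 5) →* alternatingGroup (Fin 8) where
  toFun π := ⟨(finSumFinEquiv (m := 3) (n := 5)).permCongr (Perm.sumCongr 1 π.1), by
    rw [Perm.mem_alternatingGroup, Perm.sign_permCongr, Perm.sign_sumCongr, map_one, π.2, one_mul]⟩
  map_one' := Subtype.ext (by
    change (finSumFinEquiv (m := 3) (n := 5)).permCongr (Perm.sumCongr 1 1) = 1
    rw [Perm.sumCongr_one]
    ext x
    simp)
  map_mul' π ρ := Subtype.ext (by
    change (finSumFinEquiv (m := 3) (n := 5)).permCongr (Perm.sumCongr 1 (π.1 * ρ.1)) =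
      (finSumFinEquiv (m := 3) (n := 5)).permCongr (Perm.sumCongr 1 π.1) *
        (finSumFinEquiv (m := 3) (n := 5)).permCongr (Perm.sumCongr 1 ρ.1)
    rw [← Equiv.permCongr_mul, Perm.sumCongr_mul, one_mul])

theorem shift_apply_low (π : alternatingGroup (Fin 5)) (i : Fin 3) :
    (shift π).1 (Fin.castAdd 5 i) = Fin.castAdd 5 i := by
  change (finSumFinEquiv (m := 3) (n := 5)).permCongr (Perm.sumCongr 1 π.1) (Fin.castAdd 5 i) = _
  rw [Equiv.permCongr_apply]
  erw [finSumFinEquiv_symm_apply_castAdd]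
  rfl

theorem shift_apply_high (π : alternatingGroup (Fin 5)) (i : Fin 5) :
    (shift π).1 (Fin.natAdd 3 i) = Fin.natAdd 3 (π.1 i) := by
  change (finSumFinEquiv (m := 3) (n := 5)).permCongr (Perm.sumCongr 1 π.1) (Fin.natAdd 3 i) = _
  rw [Equiv.permCongr_apply]
  erw [finSumFinEquiv_symm_apply_natAdd]
  rfl

/-- `(0 1 2)` on eight points. -/
def u1 : alternatingGroup (Fin 8) := mk8 (tri 0 1 2)
/-- `(3 4 5)` on eight points. -/
def u2 : alternatingGroup (Fin 8) := mk8 (tri 3 4 5)
/-- `(0 3)(1 4)(2 5)(6 7)`. -/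
def sw : alternatingGroup (Fin 8) := mk8 (swap 0 3 * swap 1 4 * swap 2 5 * swap 6 7)

theorem shift_cP : shift cP = u2 := by decide +kernel

theorem sw_table : sw * (u1 * u2) = u1 * u2 * sw := by decide +kernel

/-- The three-cycle `(0 1 3)` on five points. -/
def xP : alternatingGroup (Fin 5) := mk5 (tri 0 1 3)

theorem stab_table : ∀ π : alternatingGroup (Fin 5), π.1 4 = 4 →
    ∃ v ∈ fourList, π = v ∨ π = v * cP ∨ π = v * (cP * cP) := by
  decide +kernel

theorem exists_four : ∀ p : Fin 5, ∃ π : alternatingGroup (Fin 5), π.1 4 = p := by decide +kernel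

theorem exists_four_three : ∀ p q : Fin 5, p ≠ q →
    ∃ π : alternatingGroup (Fin 5), π.1 4 = p ∧ π.1 3 = q := by decide +kernel

theorem xP_mem : ∃ v ∈ fourList, xP = v ∨ xP = v * cP ∨ xP = v * (cP * cP) :=
  stab_table _ (by decide +kernel)

theorem xP_cube : xP ^ 3 = 1 := by decide +kernel
theorem cP_xP : (cP * xP) ^ 2 = 1 := by decide +kernel
theorem xP_cP : (xP * cP) ^ 2 = 1 := by decide +kernel
theorem cP_cube : cP ^ 3 = 1 := by decide +kernel
theorem xP_twist : (xP * twist xP) ^ 2 = 1 := by decide +kernel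
theorem twist_invol (π : alternatingGroup (Fin 5)) : twist (twist π) = π :=
  Subtype.ext (by
    change swap 3 4 * (swap 3 4 * π.1 * swap 3 4) * swap 3 4 = π.1
    simp [mul_assoc])
theorem twist_cP : twist cP = cP := by decide +kernel

/-- `(1 2)(3 4)` on five points. -/
def hP : alternatingGroup (Fin 5) := mk5 (swap 1 2 * swap 3 4)

theorem jA_hP : jA hP = hM := by decide +kernel
theorem hP_four : hP.1 4 = 3 := by decide +kernel

theorem odd_centralizer : ∀ τ : Perm (Fin 5), τ * τ = 1 → Perm.sign τ = -1 → τ * c5 = c5 * τ →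
    τ = swap 3 4 := by
  decide +kernel

theorem three_inverting : ∀ σ : Perm (Fin 3), σ * c3 = c3⁻¹ * σ → Perm.sign σ = -1 := by
  decide +kernel

theorem coset_table : Function.Injective fun p : Fin 2 × Fin 3 × Fin 3 =>
    sw ^ p.1.1 * (u1 ^ p.2.1.1 * u2 ^ p.2.2.1) := by
  decide +kernel

theorem u1_powers : Function.Injective fun k : Fin 3 => (u1 ^ k.1).1 0 := by decide +kernel

theorem u1_high : ∀ k : Fin 3, ∀ i : Fin 5, (u1 ^ k.1).1 (Fin.natAdd 3 i) = Fin.natAdd 3 i := by
  decide +kernel

end CfsgLib.AltEight29
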