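import Cfsg.Agent.AltEight29.Degenerate
import Cfsg.Agent.AltEight29.HomTables
import Cfsg.Agent.AltPres54.Tiny

/-!
The embedding of the alternating group of degree eight, by Carmichael's relations.
-/

set_option autoImplicit false

open Equiv Subgroup CfsgLib.AltPres54

namespace CfsgLib.AltEight29

/-- A configuration with an embedded alternating group of degree eight containing the
centralisers of the elements of order three of the standard subgroup. -/
structure Embedded (G : Type*) [Group G] where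
  K : Config G
  Φ : alternatingGroup (Fin 8) →* G
  inj : Function.Injective Φ
  map_u1 : Φ u1 = K.z
  map_u2 : Φ u2 = K.w
  cz : ∀ g : G, g * K.z = K.z * g → ∃ (a : Fin 3) (π : alternatingGroup (Fin 5)),
    g = Φ (u1 ^ a.1 * shift π)
  czw : ∀ g : G, g * (K.z * K.w) = K.z * K.w * g →
    ∃ (e : Fin 2) (a b : Fin 3), g = Φ (sw ^ e.1 * (u1 ^ a.1 * u2 ^ b.1))

variable {G : Type*} [Group G] [Finite G]

/-- A configuration extends to an embedding. -/
theorem exists_embedded (K : Config G) : Nonempty (Embedded G) := by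
  classical
  obtain ⟨ψ, hψ, hcomm⟩ := (K.fours_alternative).resolve_right fun h => K.degenerate_false h
  set B' := K.B.comp ψ with hB'
  have hψc : ψ cP = cP := by
    rcases hψ with rfl | rfl
    · rfl
    · exact twist_cP
  have hψt : ∀ π, ψ (twist π) = twist (ψ π) := by
    intro π; rcases hψ with rfl | rfl <;> rfl
  have hBc : B' cP = K.z := by rw [hB', MonoidHom.comp_apply, hψc, K.B_cP]
  have hBw : ∀ π, K.B π * K.w = K.w * K.B π := by
    intro π
    have hw : K.n * K.z * K.n = K.w := K.n_z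
    rw [← hw, K.B_apply, ← K.n_conj_mul, ← K.n_conj_mul, K.A_z]
  set xs := B' xP with hxs
  have hxs_four : ∀ u ∈ fourList, Commute (K.A u) xs := by
    intro u hu
    obtain ⟨v, hv, h | h | h⟩ := xP_mem <;> rw [hxs, h]
    · exact hcomm u hu v hv
    · rw [map_mul, hBc]; exact (hcomm u hu v hv).mul_right (K.A_z u)
    · rw [map_mul, map_mul, hBc]
      exact (hcomm u hu v hv).mul_right ((show Commute (K.A u) K.z from K.A_z u).mul_right (K.A_z u))
  have hxs_w : Commute (K.A cP) xs := by rw [K.A_cP]; exact (hBw _).symm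
  have hstab : ∀ π : alternatingGroup (Fin 5), π.1 4 = 4 → Commute (K.A π) xs := by
    intro π hπ
    obtain ⟨v, hv, rfl | rfl | rfl⟩ := stab_table π hπ
    · exact hxs_four _ hv
    · rw [map_mul]; exact (hxs_four _ hv).mul_left hxs_w
    · rw [map_mul, map_mul]; exact (hxs_four _ hv).mul_left (hxs_w.mul_left hxs_w)
  choose pick hpick using exists_four
  set Fx : Fin 5 → G := fun p => K.A (pick p) * xs * (K.A (pick p))⁻¹ with hFx
  have hF : ∀ (a : alternatingGroup (Fin 5)) (p : Fin 5),
      K.A a * Fx p * (K.A a)⁻¹ = Fx (a.1 p) := by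
    intro a p
    have h4 : ((pick (a.1 p))⁻¹ * (a * pick p)).1 4 = 4 := by
      change (pick (a.1 p)).1⁻¹ (a.1 ((pick p).1 4)) = 4
      rw [hpick, Perm.inv_eq_iff_eq, hpick]
    have hc := (hstab _ h4).eq
    rw [map_mul, map_mul, map_inv] at hc
    simp only [hFx]
    calc K.A a * (K.A (pick p) * xs * (K.A (pick p))⁻¹) * (K.A a)⁻¹
        = K.A (pick (a.1 p)) * ((K.A (pick (a.1 p)))⁻¹ * (K.A a * K.A (pick p)) * xs) *
            (K.A (pick p))⁻¹ * (K.A a)⁻¹ := by group
      _ = _ := by rw [hc]; group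
  have hF4 : Fx 4 = xs := by
    simp only [hFx]
    rw [(hstab _ (hpick 4)).eq, mul_inv_cancel_right]
  -- the effect of `h`
  set h := K.A hP with hh
  have hhB : ∀ π, h * B' π * h⁻¹ = B' (twist π) := by
    intro π
    have hzc : h * K.z = K.z * h := K.A_z hP
    obtain ⟨m, hm⟩ := K.mem_range_of (K.n * h * K.n) (by
      have hhw : h * K.w * h⁻¹ = K.w⁻¹ := by
        rw [hh, ← K.A_cP, ← map_inv, ← map_mul, ← map_mul, ← map_inv]
        exact congrArg K.A (by decide +kernel)
      have : K.n * h * K.n * K.z * (K.n * h * K.n)⁻¹ = K.n * (h * (K.n * K.z * K.n) * h⁻¹) * K.n := by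
        simp only [mul_inv_rev, K.n_inv, mul_assoc]
      rw [this, show K.n * K.z * K.n = K.w from K.n_z, hhw,
        show K.n * K.w⁻¹ * K.n = K.z⁻¹ by
          rw [show K.z = K.n * K.w * K.n from K.n_w.symm]; simp only [mul_inv_rev, K.n_inv, mul_assoc]]
      exact inv_mem (mem_zpowers _))
    have hm_w : m * wM = wM * m := K.inj (by
      rw [map_mul, map_mul, hm]
      change K.n * h * K.n * K.w = K.w * (K.n * h * K.n)
      rw [show K.w = K.n * K.z * K.n from K.n_z.symm, ← K.n_conj_mul, ← K.n_conj_mul, hzc])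
    have hm_z : m * zM = zM⁻¹ * m := K.inj (by
      rw [map_mul, map_mul, map_inv, hm]
      change K.n * h * K.n * K.z = K.z⁻¹ * (K.n * h * K.n)
      have hhw : h * K.w = K.w⁻¹ * h := by
        rw [hh, ← K.A_cP, ← map_inv, ← map_mul, ← map_mul]
        exact congrArg K.A (by decide +kernel)
      rw [show K.z = K.n * K.w * K.n from K.n_w.symm, ← K.n_conj_mul,
        show (K.n * K.w * K.n)⁻¹ = K.n * K.w⁻¹ * K.n by simp only [mul_inv_rev, K.n_inv, mul_assoc],
        ← K.n_conj_mul, hhw])
    have hmm : m * m = 1 := K.inj (by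
      rw [map_mul, hm, map_one, ← K.n_conj_mul,
        show h * h = 1 by rw [hh, ← map_mul, show hP * hP = 1 from by decide +kernel, map_one],
        mul_one, K.n_sq])
    have hσ : Perm.sign m.1.1 = -1 :=
      three_inverting _ (congrArg (fun x : M35 => x.1.1) hm_z)
    have hτs : Perm.sign m.1.2 = -1 := by
      have hs : Perm.sign m.1.1 * Perm.sign m.1.2 = 1 := m.2
      rw [hσ] at hs
      rcases Int.units_eq_one_or (Perm.sign m.1.2) with e | e
      · rw [e] at hs; exact absurd hs (by decide)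
      · exact e
    have hτ : m.1.2 = swap 3 4 := odd_centralizer _ (congrArg (fun x : M35 => x.1.2) hmm) hτs
      (congrArg (fun x : M35 => x.1.2) hm_w)
    have hconj : ∀ ρ, m * jA ρ * m⁻¹ = jA (twist ρ) := fun ρ =>
      Subtype.ext (Prod.ext (by simp [jA]) (by simp [jA, twist, hτ]))
    rw [hB', MonoidHom.comp_apply, MonoidHom.comp_apply, hψt, K.B_apply, K.B_apply, K.A_apply,
      K.A_apply, ← hconj, map_mul, map_mul, map_inv, hm]
    calc h * (K.n * K.ι (jA (ψ π)) * K.n) * h⁻¹
        = (K.n * K.n) * h * (K.n * K.ι (jA (ψ π)) * K.n) * h⁻¹ * (K.n * K.n) := by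
          rw [K.n_sq, one_mul, mul_one]
      _ = _ := by simp only [mul_inv_rev, K.n_inv, mul_assoc]
  have hF3 : Fx 3 = B' (twist xP) := by
    have := hF hP 4
    rw [hP_four, hF4] at this
    rw [← this, hxs, hhB]
  -- relations
  let x : Fin 8 → G := fun i => if h2 : i.val = 2 then K.z else
    if h3 : 3 ≤ i.val then Fx ⟨i.val - 3, by omega⟩ else 1
  have hcube : ∀ p, Fx p ^ 3 = 1 := by
    intro p
    simp only [hFx]
    rw [conj_pow, hxs, ← map_pow, xP_cube, map_one, mul_one, mul_inv_cancel]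
  have hzF : ∀ p, (K.z * Fx p) ^ 2 = 1 ∧ (Fx p * K.z) ^ 2 = 1 := by
    intro p
    have hz : K.z = K.A (pick p) * K.z * (K.A (pick p))⁻¹ := by
      rw [K.A_z, mul_inv_cancel_right]
    simp only [hFx]
    constructor <;> rw [hz, conj_mul, conj_pow, hxs, ← hBc, ← map_mul, ← map_pow]
    · rw [cP_xP, map_one, mul_one, mul_inv_cancel]
    · rw [xP_cP, map_one, mul_one, mul_inv_cancel]
  have hFF : ∀ p q, p ≠ q → (Fx p * Fx q) ^ 2 = 1 := by
    intro p q hpq
    obtain ⟨b, hb4, hb3⟩ := exists_four_three p q hpq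
    rw [← hb4, ← hb3, ← hF b 4, ← hF b 3, conj_mul, conj_pow, hF4, hF3, hxs, ← map_mul, ← map_pow,
      xP_twist, map_one, mul_one, mul_inv_cancel]
  have hx2 : x 2 = K.z := dif_pos rfl
  have hxp : ∀ p : Fin 5, x (Fin.natAdd 3 p) = Fx p := by
    intro p
    simp only [x, Fin.val_natAdd]
    rw [dif_neg (by omega), dif_pos (by omega)]
    congr 1; exact Fin.ext (by simp)
  have cases8 : ∀ i : Fin 8, i ≠ 0 → i ≠ 1 → i = 2 ∨ ∃ p : Fin 5, i = Fin.natAdd 3 p := by
    decide +kernel
  obtain ⟨Φ, hΦ⟩ := exists_hom_alt (P := G) (0 : Fin 8) 1 (by decide) x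
    (by
      intro i _ h0 h1
      rcases cases8 i h0 h1 with rfl | ⟨p, rfl⟩
      · rw [hx2]; exact K.z_cube
      · rw [hxp]; exact hcube p)
    (by
      intro i _ j _ hi0 hi1 hj0 hj1 hij
      rcases cases8 i hi0 hi1 with rfl | ⟨p, rfl⟩ <;>
        rcases cases8 j hj0 hj1 with rfl | ⟨q, rfl⟩
      · exact absurd rfl hij
      · rw [hx2, hxp]; exact (hzF q).1
      · rw [hx2, hxp]; exact (hzF p).2
      · rw [hxp, hxp]; exact hFF p q fun e => hij (e ▸ rfl))
  have hu1 : Φ u1 = K.z := by
    have := hΦ 2 (by decide) (by decide)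
    rw [hx2] at this; exact this
  have inj : Function.Injective Φ := by
    rw [← MonoidHom.ker_eq_bot_iff]
    have hs : IsSimpleGroup (alternatingGroup (Fin 8)) := alternatingGroup.isSimpleGroup (by simp)
    refine (hs.eq_bot_or_eq_top_of_normal Φ.ker inferInstance).resolve_right fun h => K.z_ne ?_
    rw [← hu1, ← MonoidHom.mem_ker, h]
    exact mem_top _
  -- the centraliser of `z`
  have hu1s : ∀ π, u1 * shift π = shift π * u1 := by
    intro π
    refine Subtype.ext ?_
    have h := conj_tri (shift π).1 0 1 2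
    rw [show (shift π).1 0 = 0 from shift_apply_low π 0,
      show (shift π).1 1 = 1 from shift_apply_low π 1,
      show (shift π).1 2 = 2 from shift_apply_low π 2] at h
    exact (mul_inv_eq_iff_eq_mul.1 h).symm
  have cz : ∀ g : G, g * K.z = K.z * g → ∃ (a : Fin 3) (π : alternatingGroup (Fin 5)),
      g = Φ (u1 ^ a.1 * shift π) := by
    let f : Fin 3 × alternatingGroup (Fin 5) → centralizer ({K.z} : Set G) := fun p =>
      ⟨Φ (u1 ^ p.1.1 * shift p.2), mem_centralizer_singleton_iff.2 (by
        rw [← hu1, ← map_mul, ← map_mul, mul_assoc, ← hu1s, ← mul_assoc, ← pow_succ, pow_succ',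
          mul_assoc])⟩
    let g : Fin 3 × alternatingGroup (Fin 5) → centralizer ({K.z} : Set G) := fun p =>
      ⟨K.z ^ p.1.1 * K.A p.2, mem_centralizer_singleton_iff.2 (by
        rw [mul_assoc, K.A_z, ← mul_assoc, ← pow_succ, pow_succ', mul_assoc])⟩
    have hg : Function.Surjective g := by
      rintro ⟨c, hc⟩
      obtain ⟨m, hm, rfl⟩ := K.centralizer_z c (mem_centralizer_singleton_iff.1 hc)
      have hσ := three_centralizer m.1.1 (congrArg (fun x : M35 => x.1.1) hm)
      obtain ⟨a, ha⟩ : ∃ a : Fin 3, m.1.1 = c3 ^ a.1 := by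
        simp only [List.mem_cons, List.not_mem_nil, or_false] at hσ
        rcases hσ with e | e | e
        · exact ⟨0, e⟩
        · exact ⟨1, e.trans (pow_one _).symm⟩
        · exact ⟨2, e.trans (pow_two _).symm⟩
      have hτ : Perm.sign m.1.2 = 1 := by
        have hs : Perm.sign m.1.1 * Perm.sign m.1.2 = 1 := m.2
        rwa [ha, map_pow, show Perm.sign c3 = 1 from by decide +kernel, one_pow, one_mul] at hs
      refine ⟨(a, ⟨m.1.2, hτ⟩), Subtype.ext ?_⟩
      change K.z ^ a.1 * K.A _ = K.ι m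
      rw [K.A_apply, ← map_pow, ← map_mul]
      exact congrArg K.ι (Subtype.ext (Prod.ext (by simp [zM, mk35, jA, ha]) (by simp [zM, mk35, jA])))
    have hf : Function.Injective f := by
      rintro ⟨a, π⟩ ⟨b, ρ⟩ h
      have h' : u1 ^ a.1 * shift π = u1 ^ b.1 * shift ρ := inj (congrArg Subtype.val h)
      have h0 := Equiv.congr_fun (congrArg Subtype.val h') 0
      simp only [Subgroup.coe_mul, Perm.mul_apply] at h0
      rw [show (shift π).1 0 = 0 from shift_apply_low π 0,
        show (shift ρ).1 0 = 0 from shift_apply_low ρ 0] at h0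
      obtain rfl : a = b := u1_powers h0
      refine Prod.ext rfl (Subtype.ext (Equiv.ext fun i => ?_))
      have hi := Equiv.congr_fun (congrArg Subtype.val (mul_left_cancel h')) (Fin.natAdd 3 i)
      rw [shift_apply_high, shift_apply_high] at hi
      exact Fin.natAdd_injective 5 3 hi
    have hsurj : Function.Surjective f := by
      have := Fintype.ofFinite (centralizer ({K.z} : Set G))
      refine ((Fintype.bijective_iff_injective_and_card f).2 ⟨hf, le_antisymm ?_ ?_⟩).2
      · exact Fintype.card_le_of_injective f hf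
      · exact Fintype.card_le_of_surjective g hg
    intro c hc
    obtain ⟨p, hp⟩ := hsurj ⟨c, mem_centralizer_singleton_iff.2 hc⟩
    exact ⟨p.1, p.2, (congrArg Subtype.val hp).symm⟩
  -- the second generator
  have hA : ∀ π, K.A π = Φ (shift π) := by
    intro π
    set g := (Φ (shift π))⁻¹ * K.A π with hg
    have hgen : ∀ i, i ≠ 0 → (h1 : i ≠ 1) →
        Commute g (Φ ⟨tri 0 1 i, sign_tri (by decide) h1.symm⟩) := by
      intro i h0 h1
      have hkey : ∀ j, j ≠ 0 → (hj1 : j ≠ 1) → (shift π).1 j ≠ 0 → (hk : (shift π).1 j ≠ 1) →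
          Φ (shift π) * Φ ⟨tri 0 1 j, sign_tri (by decide) hj1.symm⟩ * (Φ (shift π))⁻¹ =
            Φ ⟨tri 0 1 ((shift π).1 j), sign_tri (by decide) hk.symm⟩ := by
        intro j _ _ _ _
        rw [← map_inv, ← map_mul, ← map_mul]
        refine congrArg Φ (Subtype.ext ?_)
        have h := conj_tri (shift π).1 0 1 j
        rwa [show (shift π).1 0 = 0 from shift_apply_low π 0,
          show (shift π).1 1 = 1 from shift_apply_low π 1] at h
      have h0' : (shift π).1 i ≠ 0 := fun e =>
        h0 ((shift π).1.injective (e.trans (shift_apply_low π 0).symm))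
      have h1' : (shift π).1 i ≠ 1 := fun e =>
        h1 ((shift π).1.injective (e.trans (shift_apply_low π 1).symm))
      have hk := hkey i h0 h1 h0' h1'
      have hA' : K.A π * Φ ⟨tri 0 1 i, sign_tri (by decide) h1.symm⟩ * (K.A π)⁻¹ =
          Φ ⟨tri 0 1 ((shift π).1 i), sign_tri (by decide) h1'.symm⟩ := by
        rw [hΦ i h0 h1, hΦ _ h0' h1']
        rcases cases8 i h0 h1 with rfl | ⟨p, rfl⟩
        · rw [show (shift π).1 2 = 2 from shift_apply_low π 2, hx2, K.A_z, mul_inv_cancel_right]
        · rw [shift_apply_high, hxp, hxp, hF]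
      change g * _ = _ * g
      rw [← mul_inv_eq_iff_eq_mul, hg, mul_inv_rev, inv_inv]
      calc (Φ (shift π))⁻¹ * K.A π * Φ ⟨tri 0 1 i, _⟩ * ((K.A π)⁻¹ * Φ (shift π))
          = (Φ (shift π))⁻¹ * (K.A π * Φ ⟨tri 0 1 i, sign_tri (by decide) h1.symm⟩ * (K.A π)⁻¹) *
              Φ (shift π) := by group
        _ = _ := by rw [hA', ← hk]; group
    have hall : ∀ σ, Commute g (Φ σ) := by
      intro σ
      have hle : altOn (Finset.univ : Finset (Fin 8)) ≤
          ((centralizer ({g} : Set G)).comap Φ).map (alternatingGroup (Fin 8)).subtype := by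
        refine le_trans (altOn_le_closure (Finset.mem_univ (0 : Fin 8)) (Finset.mem_univ 1)
          (by decide)) ?_
        rw [closure_le]
        rintro _ ⟨i, -, h0, h1, rfl⟩
        exact ⟨⟨tri 0 1 i, sign_tri (by decide) h1.symm⟩,
          mem_centralizer_singleton_iff.2 (hgen i h0 h1).eq.symm, rfl⟩
      obtain ⟨σ', hσ', he⟩ := hle (altOn_univ.ge σ.2)
      rw [show σ = σ' from Subtype.ext he.symm]
      exact (mem_centralizer_singleton_iff.1 hσ').symm
    obtain ⟨ag, πg, hag⟩ := cz g (hu1 ▸ hall u1).eq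
    obtain ⟨σg, hσg⟩ : ∃ σg, Φ σg = g := ⟨_, hag.symm⟩
    have hc : σg ∈ Subgroup.center (alternatingGroup (Fin 8)) := by
      rw [mem_center_iff]
      intro σ
      apply inj
      rw [map_mul, map_mul, hσg]
      exact (hall σ).eq.symm
    rw [alternatingGroup.center_eq_bot (by simp), mem_bot] at hc
    rw [hc, map_one] at hσg
    exact (inv_mul_eq_one.1 hσg.symm).symm
  have hu2 : Φ u2 = K.w := by rw [← shift_cP, ← hA, K.A_cP]
  -- the centraliser of the mixed element
  have czw : ∀ g : G, g * (K.z * K.w) = K.z * K.w * g →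
      ∃ (e : Fin 2) (a b : Fin 3), g = Φ (sw ^ e.1 * (u1 ^ a.1 * u2 ^ b.1)) := by
    let f : Fin 2 × Fin 3 × Fin 3 → centralizer ({K.z * K.w} : Set G) := fun p =>
      ⟨Φ (sw ^ p.1.1 * (u1 ^ p.2.1.1 * u2 ^ p.2.2.1)), mem_centralizer_singleton_iff.2 (by
        rw [← hu1, ← hu2, ← map_mul, ← map_mul, ← map_mul]
        refine congrArg Φ ?_
        have hu : Commute u1 u2 := by change u1 * u2 = u2 * u1; decide +kernel
        exact (((show Commute sw (u1 * u2) from sw_table).pow_left _).mul_left
          ((((Commute.refl u1).mul_right hu).pow_left _).mul_left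
            ((hu.symm.mul_right (Commute.refl u2)).pow_left _))).eq)⟩
    have hf : Function.Injective f := fun a b h => coset_table (inj (congrArg Subtype.val h))
    have := Fintype.ofFinite (centralizer ({K.z * K.w} : Set G))
    have hsurj : Function.Surjective f := by
      refine ((Fintype.bijective_iff_injective_and_card f).2 ⟨hf, ?_⟩).2
      rw [← Nat.card_eq_fintype_card (α := centralizer ({K.z * K.w} : Set G)), K.card_zw]
      rfl
    intro c hc
    obtain ⟨p, hp⟩ := hsurj ⟨c, mem_centralizer_singleton_iff.2 hc⟩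
    exact ⟨p.1, p.2.1, p.2.2, (congrArg Subtype.val hp).symm⟩
  exact ⟨{ K := K, Φ := Φ, inj := inj, map_u1 := hu1, map_u2 := hu2, cz := cz, czw := czw }⟩

end CfsgLib.AltEight29
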