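import Cfsg.Agent.AltEight29.HomTables

/-!
Finite facts about the two-local structure of the alternating group of degree eight.
-/

set_option autoImplicit false
set_option maxRecDepth 16000

open Equiv

attribute [local instance 10000] List.decidableBAll List.decidableBEx

namespace CfsgLib.AltEight29

open CfsgLib.AltPres54 (tri)

/-- `(3 4)(5 6)`. -/
def ev : alternatingGroup (Fin 8) := mk8 (swap 3 4 * swap 5 6)
/-- `(3 5)(4 6)`. -/
def fv : alternatingGroup (Fin 8) := mk8 (swap 3 5 * swap 4 6)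
/-- `(0 1)(2 7)`. -/
def av : alternatingGroup (Fin 8) := mk8 (swap 0 1 * swap 2 7)
/-- `(0 2)(1 7)`. -/
def bv : alternatingGroup (Fin 8) := mk8 (swap 0 2 * swap 1 7)
/-- `(0 1)(3 4)`. -/
def cv : alternatingGroup (Fin 8) := mk8 (swap 0 1 * swap 3 4)
/-- `(0 1)(2 7)(3 4)(5 6)`. -/
def sv : alternatingGroup (Fin 8) := ev * av
/-- `(0 3)(1 4)(2 5)(6 7)` composed to commute with `sv`. -/
def rv : alternatingGroup (Fin 8) := mk8 (swap 0 3 * swap 1 4 * swap 2 5 * swap 7 6)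
/-- `(0 3 5)(1 4 6)`. -/
def qv : alternatingGroup (Fin 8) := mk8 (tri 0 3 5 * tri 1 4 6)
/-- `(0 2 3)(1 7 4)`. -/
def pv : alternatingGroup (Fin 8) := mk8 (tri 0 2 3 * tri 1 7 4)

/-- The normal Sylow two-subgroup of the centraliser of the four group. -/
def O16 : List (alternatingGroup (Fin 8)) :=
  [1, ev, fv, ev * fv].flatMap fun v => [1, av, bv, av * bv].map fun v' => v * v'

/-- The centraliser of the four group. -/
def L48 : List (alternatingGroup (Fin 8)) :=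
  [1, u1, u1 * u1].flatMap fun u => O16.map fun o => o * u

/-- The centraliser of `ev`. -/
def L96 : List (alternatingGroup (Fin 8)) := [1, cv].flatMap fun c => L48.map fun l => l * c

theorem shift_eP : shift eP = ev := by decide +kernel
theorem shift_fP : shift fP = fv := by decide +kernel
theorem ev_sq : ev * ev = 1 := by decide +kernel
theorem sv_sq : sv * sv = 1 := by decide +kernel
theorem ev_ne : ev ≠ 1 := by decide +kernel
theorem sv_ne : sv ≠ 1 := by decide +kernel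
theorem fv_sq : fv * fv = 1 := by decide +kernel
theorem ev_fv : ev * fv = fv * ev := by decide +kernel

theorem four_shift_mem : ∀ v ∈ fourList, shift v ∈ O16 := by decide +kernel

theorem four_shift_L48 : ∀ v ∈ fourList, ∀ a : Fin 3, u1 ^ a.1 * shift v ∈ L48 := by
  decide +kernel

theorem four_shift_L48' : ∀ v ∈ fourList, ∀ a : Fin 3,
    (¬ (u1 ^ a.1 * shift v) ^ 2 = 1) ∨ u1 ^ a.1 * shift v ∈ O16 := by
  decide +kernel

theorem O16_basic : ∀ o ∈ O16, o * o = 1 ∧ o * ev = ev * o ∧ o * fv = fv * o ∧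
    o * sv = sv * o := by
  decide +kernel

theorem O16_mul : ∀ o ∈ O16, ∀ o' ∈ O16, o * o' ∈ O16 := by decide +kernel

theorem O16_nodup : O16.Nodup := by decide +kernel

theorem O16_cv : ∀ o ∈ O16, o * cv = cv * o →
    o ∈ [1, ev, av, ev * av] := by
  decide +kernel

theorem sw_conj : sw * u1 * sw⁻¹ = u2 ∧ sw⁻¹ = sw := by decide +kernel

theorem shift_w : ∀ π : alternatingGroup (Fin 5), ∀ a : Fin 3,
    (sw * (u1 ^ a.1 * shift π) * sw) * ev = ev * (sw * (u1 ^ a.1 * shift π) * sw) →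
    (sw * (u1 ^ a.1 * shift π) * sw) * fv = fv * (sw * (u1 ^ a.1 * shift π) * sw) →
    (sw * (u1 ^ a.1 * shift π) * sw) ∈ L48 := by
  decide +kernel

theorem L48_order : ∀ l ∈ L48, l ∈ O16 ∨ (l ^ 2) ^ 3 = 1 ∧ l ^ 2 ≠ 1 := by decide +kernel

theorem L48_cent_O16 : ∀ l ∈ L48, (∀ o ∈ O16, l * o = o * l) → l * l = 1 := by decide +kernel

theorem u2_norm : u2 * ev * u2⁻¹ ∈ [fv, ev * fv] ∧ u2 * fv * u2⁻¹ ∈ [ev, ev * fv] := by
  decide +kernel

theorem L48_comm : ∀ l ∈ L48, l * ev = ev * l ∧ l * fv = fv * l := by decide +kernel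

theorem cv_basic : cv * cv = 1 ∧ cv * ev = ev * cv ∧ cv * fv * cv⁻¹ = ev * fv ∧
    fv * cv * fv⁻¹ = cv * ev ∧ cv * sv = sv * cv := by
  decide +kernel

/-- `(0 3 4)(1 5 6)`, which commutes with `(0 1)(2 7)(3 5)(4 6)`. -/
def tv : alternatingGroup (Fin 8) := mk8 (tri 0 3 4 * tri 1 5 6)
theorem tv_table : tv * (av * fv) = av * fv * tv ∧ tv ^ 3 = 1 ∧ tv ≠ 1 := by decide +kernel

theorem qv_table : qv * ev * qv⁻¹ = cv * ev ∧ qv * cv * qv⁻¹ = ev ∧ qv * sv = sv * qv ∧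
    qv⁻¹ * fv * qv = mk8 (swap 0 3 * swap 1 4) := by
  decide +kernel

theorem pv_table : pv * sv = sv * pv ∧ pv ^ 3 = 1 ∧ pv ≠ 1 := by decide +kernel

/-- The four group. -/
def Vlist : List (alternatingGroup (Fin 8)) := [1, ev, fv, ev * fv]

theorem cz_four : ∀ π : alternatingGroup (Fin 5), ∀ a : Fin 3,
    (u1 ^ a.1 * shift π) * ev = ev * (u1 ^ a.1 * shift π) →
    (u1 ^ a.1 * shift π) * fv = fv * (u1 ^ a.1 * shift π) → π ∈ fourList := by
  decide +kernel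

/-- `(1 2)(6 7)`. -/
def iv : alternatingGroup (Fin 8) := mk8 (swap 1 2 * swap 6 7)

theorem iv_table : iv * u1 * iv⁻¹ = u1⁻¹ := by decide +kernel

theorem inverting_four : ∀ π : alternatingGroup (Fin 5), ∀ a : Fin 3,
    (iv⁻¹ * (u1 ^ a.1 * shift π)) * ev = ev * (iv⁻¹ * (u1 ^ a.1 * shift π)) →
    ¬ (iv⁻¹ * (u1 ^ a.1 * shift π)) * fv = fv * (iv⁻¹ * (u1 ^ a.1 * shift π)) := by
  decide +kernel

theorem cz_order : ∀ v ∈ fourList, ∀ a : Fin 3, a ≠ 0 →
    ((u1 ^ a.1 * shift v) ^ 2) ^ 3 = 1 ∧ (u1 ^ a.1 * shift v) ^ 2 ≠ 1 := by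
  decide +kernel

theorem L48_of_O16 : ∀ o ∈ O16, ∀ k : Fin 3, o * (u1 ^ k.1)⁻¹ ∈ L48 := by decide +kernel

theorem O16_inv : ∀ o ∈ O16, o⁻¹ ∈ O16 := by decide +kernel

theorem O16_one : (1 : alternatingGroup (Fin 8)) ∈ O16 := by decide +kernel

theorem O16_abelian : ∀ o ∈ O16, ∀ o' ∈ O16, o * o' = o' * o := by decide +kernel

theorem Vlist_generated : ∀ v ∈ Vlist, ∀ v' ∈ Vlist, v ≠ 1 → v' ≠ 1 → v ≠ v' →
    ∀ x ∈ Vlist, x ∈ [1, v, v', v * v'] := by
  decide +kernel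

theorem av_fixed : [1, ev, av, ev * av].length = 4 := rfl

theorem av_fv_sq : av ≠ 1 ∧ fv * fv = 1 := by decide +kernel

/-- An element conjugating `u1 * u2` to `tv`. -/
def tk : alternatingGroup (Fin 8) := mk8 (swap 1 3 * swap 2 4 * swap 4 5 * swap 5 6)
/-- An element conjugating `u1 * u2` to `pv`. -/
def pk : alternatingGroup (Fin 8) := mk8 (tri 1 2 3 * tri 4 7 5)

theorem conjugators : tk * (u1 * u2) * tk⁻¹ = tv ∧ pk * (u1 * u2) * pk⁻¹ = pv := by decide +kernel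

theorem u1_ev : u1 * ev = ev * u1 ∧ u1 * fv = fv * u1 := by decide +kernel

theorem Vlist_O16 : ∀ y ∈ Vlist, y ∈ O16 := by decide +kernel

theorem four_pow_nine : ∀ v ∈ fourList, ∀ a : Fin 3, (u1 ^ a.1 * shift v) ^ 9 = 1 →
    u1 ^ a.1 * shift v = u1 ^ a.1 := by
  decide +kernel

theorem fv_conj_cvev : fv * (cv * ev) * fv⁻¹ = cv := by decide +kernel

end CfsgLib.AltEight29
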