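import Cfsg.Agent.AltEight29.Hom
import Cfsg.Agent.AltEight29.LocalTables

/-!
The centraliser of the four group `⟨(3 4)(5 6), (3 5)(4 6)⟩` lies in the embedded alternating
group, and this four group is not conjugate to `⟨(3 4)(5 6), (0 1)(3 4)⟩`.
-/

set_option autoImplicit false

open Equiv Subgroup

namespace CfsgLib.AltEight29

theorem three_dvd_orderOf {M : Type*} [Monoid M] {x : M} (h3 : (x ^ 2) ^ 3 = 1) (h1 : x ^ 2 ≠ 1) :
    3 ∣ orderOf x := by
  have : Fact (Nat.Prime 3) := ⟨Nat.prime_three⟩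
  exact orderOf_eq_prime h3 h1 ▸ orderOf_pow_dvd 2

theorem not_three_dvd_of_invol {M : Type*} [Monoid M] {x : M} (h : x * x = 1) : ¬ 3 ∣ orderOf x :=
  fun h3 => absurd (h3.trans (orderOf_dvd_of_pow_eq_one (by rw [pow_two, h]))) (by norm_num)

namespace Embedded

variable {G : Type*} [Group G] (X : Embedded G)

theorem map_comm {a b : alternatingGroup (Fin 8)} (h : a * b = b * a) :
    X.Φ a * X.Φ b = X.Φ b * X.Φ a := by rw [← map_mul, h, map_mul]

theorem comm_of {a b : alternatingGroup (Fin 8)} (h : X.Φ a * X.Φ b = X.Φ b * X.Φ a) :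
    a * b = b * a := X.inj (by rw [map_mul, map_mul, h])

theorem map_sq {a : alternatingGroup (Fin 8)} (h : a * a = 1) : X.Φ a * X.Φ a = 1 := by
  rw [← map_mul, h, map_one]

theorem orderOf_map (a : alternatingGroup (Fin 8)) : orderOf (X.Φ a) = orderOf a :=
  orderOf_injective X.Φ X.inj a

theorem card_conj (k a : alternatingGroup (Fin 8)) :
    Nat.card (centralizer ({X.Φ (k * a * k⁻¹)} : Set G)) =
      Nat.card (centralizer ({X.Φ a} : Set G)) := by
  rw [map_mul, map_mul, map_inv, card_centralizer_conj]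

theorem map_u12 : X.Φ (u1 * u2) = X.K.z * X.K.w := by rw [map_mul, X.map_u1, X.map_u2]

/-- The centraliser of the four group. -/
def L : Subgroup G := centralizer ({X.Φ ev} : Set G) ⊓ centralizer ({X.Φ fv} : Set G)

theorem mem_L {g : G} : g ∈ X.L ↔ g * X.Φ ev = X.Φ ev * g ∧ g * X.Φ fv = X.Φ fv * g := by
  rw [L, Subgroup.mem_inf, mem_centralizer_singleton_iff, mem_centralizer_singleton_iff]

variable [Finite G]

theorem card_lt : Nat.card (centralizer ({X.Φ (u1 * u2)} : Set G)) <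
    Nat.card (centralizer ({X.Φ u1} : Set G)) := by
  rw [X.map_u12, X.map_u1, X.K.card_zw]
  exact X.K.card_centralizer_z

/-- An involution centralising a conjugate of `u1` centralises none of `u1 * u2`. -/
theorem not_both (s : G) (hs : s * s = 1) (hs1 : s ≠ 1) (g : G) (k : alternatingGroup (Fin 8))
    (h1 : (g * X.Φ u1 * g⁻¹) * s = s * (g * X.Φ u1 * g⁻¹))
    (h2 : X.Φ (k * (u1 * u2) * k⁻¹) * s = s * X.Φ (k * (u1 * u2) * k⁻¹)) : False := by
  have hne : u1 ≠ 1 := by decide +kernel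
  have hne2 : k * (u1 * u2) * k⁻¹ ≠ 1 := fun e =>
    absurd (conj_eq_one_iff.1 e) (by decide +kernel)
  have h3 : (k * (u1 * u2) * k⁻¹) ^ 3 = 1 := by
    rw [conj_pow, show (u1 * u2) ^ 3 = 1 from by decide +kernel, mul_one, mul_inv_cancel]
  have := X.K.card_centralizer_eq s (g * X.Φ u1 * g⁻¹) (X.Φ (k * (u1 * u2) * k⁻¹)) hs hs1
    (by rw [conj_pow, X.map_u1, X.K.z_cube, mul_one, mul_inv_cancel])
    (fun e => hne (X.inj ((conj_eq_one_iff.1 e).trans (map_one X.Φ).symm)))
    (by rw [← map_pow, h3, map_one]) (fun e => hne2 (X.inj (e.trans (map_one X.Φ).symm))) h1 h2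
  rw [card_centralizer_conj, X.card_conj] at this
  exact (this ▸ X.card_lt).false

theorem sv_not_conj_ev (g : G) : g * X.Φ ev * g⁻¹ ≠ X.Φ sv := by
  intro h
  refine X.not_both (X.Φ sv) (X.map_sq sv_sq) (fun e => sv_ne (X.inj (e.trans (map_one X.Φ).symm)))
    g pk ?_ ?_
  · rw [← h, conj_mul, conj_mul, X.map_comm u1_ev.1]
  · rw [conjugators.2]; exact X.map_comm pv_table.1

theorem mem_L_z {g : G} (hg : g ∈ X.L) (h : g * X.K.z = X.K.z * g) :
    ∃ a : Fin 3, ∃ v ∈ fourList, g = X.Φ (u1 ^ a.1 * shift v) := by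
  obtain ⟨a, π, rfl⟩ := X.cz g h
  obtain ⟨h1, h2⟩ := X.mem_L.1 hg
  exact ⟨a, π, cz_four π a (X.comm_of h1) (X.comm_of h2), rfl⟩

theorem u2_L {g : G} (hg : g ∈ X.L) : X.K.w * g * (X.K.w)⁻¹ ∈ X.L := by
  obtain ⟨h1, h2⟩ := X.mem_L.1 hg
  have h12 : g * X.Φ (ev * fv) = X.Φ (ev * fv) * g := by
    rw [map_mul]
    exact ((show Commute g (X.Φ ev) from h1).mul_right h2).eq
  have key : ∀ x, g * X.Φ x = X.Φ x * g →
      (X.K.w * g * (X.K.w)⁻¹) * X.Φ (u2 * x * u2⁻¹) =
        X.Φ (u2 * x * u2⁻¹) * (X.K.w * g * (X.K.w)⁻¹) := by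
    intro x hx
    rw [map_mul, map_mul, map_inv, X.map_u2, conj_mul, conj_mul, hx]
  have e1 : u2 * fv * u2⁻¹ = ev ∨ u2 * (ev * fv) * u2⁻¹ = ev := by decide +kernel
  have e2 : u2 * ev * u2⁻¹ = fv ∨ u2 * (ev * fv) * u2⁻¹ = fv := by decide +kernel
  refine X.mem_L.2 ⟨?_, ?_⟩
  · rcases e1 with e | e
    · rw [← e]; exact key _ h2
    · rw [← e]; exact key _ h12
  · rcases e2 with e | e
    · rw [← e]; exact key _ h1
    · rw [← e]; exact key _ h12

/-- The centraliser of the four group and its normal two-subgroup. -/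
theorem L_spec : (∀ g ∈ X.L, ∃ l ∈ L48, g = X.Φ l) ∧
    ∀ g ∈ X.L, ¬ 3 ∣ orderOf g → ∃ o ∈ O16, g = X.Φ o := by
  have hzL : X.K.z ∈ X.L := by
    rw [← X.map_u1]
    exact X.mem_L.2 ⟨X.map_comm u1_ev.1, X.map_comm u1_ev.2⟩
  obtain ⟨O, hO, hco, hOz⟩ := exists_complement_three X.K.not27 X.L X.K.z hzL X.K.z_cube X.K.z_ne
    (by
      intro g hg hgz h9
      obtain ⟨a, v, hv, rfl⟩ := X.mem_L_z hg hgz
      rw [four_pow_nine v hv a (X.inj (by rw [map_pow, h9, map_one])), map_pow, X.map_u1]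
      exact pow_mem (mem_zpowers _) _)
    (by
      intro g hg hgz
      obtain ⟨i, hi⟩ := (Submonoid.mem_powers_iff _ _).1 ((mem_powers_iff_mem_zpowers).2 hgz)
      rw [pow_eq_pow_mod i X.K.z_cube] at hi
      have := Nat.mod_lt i (by norm_num : 3 > 0)
      interval_cases hj : i % 3
      · rw [pow_zero] at hi; exact absurd (conj_eq_one_iff.1 hi.symm) X.K.z_ne
      · rw [pow_one] at hi; exact mul_inv_eq_iff_eq_mul.1 hi.symm
      · exfalso
        have hc : (X.Φ iv * g) * X.K.z = X.K.z * (X.Φ iv * g) := by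
          have hiv : X.Φ iv * X.K.z * (X.Φ iv)⁻¹ = (X.K.z)⁻¹ := by
            rw [← X.map_u1, ← map_inv, ← map_mul, ← map_mul, iv_table, map_inv]
          rw [← mul_inv_eq_iff_eq_mul]
          calc X.Φ iv * g * X.K.z * (X.Φ iv * g)⁻¹
              = X.Φ iv * (g * X.K.z * g⁻¹) * (X.Φ iv)⁻¹ := by group
            _ = X.Φ iv * (X.K.z)⁻¹ * (X.Φ iv)⁻¹ := by
              rw [← hi, show X.K.z ^ 2 = (X.K.z)⁻¹ from
                eq_inv_of_mul_eq_one_left (by rw [← pow_succ, X.K.z_cube])]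
            _ = (X.Φ iv * X.K.z * (X.Φ iv)⁻¹)⁻¹ := by group
            _ = _ := by rw [hiv, inv_inv]
        obtain ⟨a, π, hπ⟩ := X.cz _ hc
        obtain ⟨h1, h2⟩ := X.mem_L.1 hg
        have hg' : g = X.Φ (iv⁻¹ * (u1 ^ a.1 * shift π)) := by
          rw [map_mul, ← hπ, map_inv, inv_mul_cancel_left]
        rw [hg'] at h1 h2
        exact inverting_four π a (X.comm_of h1) (X.comm_of h2))
  let S : Subgroup G :=
    { carrier := {g | ∃ o ∈ O16, g = X.Φ o}
      one_mem' := ⟨1, O16_one, (map_one _).symm⟩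
      mul_mem' := by
        rintro _ _ ⟨o, ho, rfl⟩ ⟨o', ho', rfl⟩
        exact ⟨o * o', O16_mul o ho o' ho', (map_mul _ _ _).symm⟩
      inv_mem' := by
        rintro _ ⟨o, ho, rfl⟩
        exact ⟨o⁻¹, O16_inv o ho, (map_inv _ _).symm⟩ }
  have hnorm : ∀ x : G, (∀ g ∈ X.L, x * g * x⁻¹ ∈ X.L) → x ∈ normalizer (O : Set G) := by
    intro x hx
    have h1 : ∀ g ∈ O, x * g * x⁻¹ ∈ O := by
      intro g hg
      rw [hO] at hg ⊢
      refine ⟨hx g hg.1, ?_⟩
      rw [← MulAut.conj_apply, ← MulEquiv.coe_toMonoidHom,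
        orderOf_injective _ (MulAut.conj x).injective]
      exact hg.2
    have hcard : O.map (MulAut.conj x).toMonoidHom = O :=
      Subgroup.eq_of_le_of_card_ge (by rintro _ ⟨u, hu, rfl⟩; exact h1 u hu) (le_of_eq
        (Nat.card_congr (Subgroup.equivMapOfInjective O _ (MulAut.conj x).injective).toEquiv))
    rw [mem_normalizer_iff]
    refine fun u => ⟨h1 u, fun hu => ?_⟩
    rw [← hcard] at hu
    obtain ⟨v, hv, hvu⟩ := hu
    rwa [← (MulAut.conj x).injective hvu]
  have hOS : O ≤ S := by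
    refine X.K.le_of_normalised O S hco
      (hnorm _ fun g hg => mul_mem (mul_mem hzL hg) (inv_mem hzL))
      (hnorm _ fun g hg => X.u2_L hg) ?_ ?_
    · intro g hg hgz
      obtain ⟨hgL, h3⟩ := (hO g).1 hg
      obtain ⟨a, v, hv, rfl⟩ := X.mem_L_z hgL hgz
      by_cases ha : a = 0
      · subst ha
        exact ⟨shift v, four_shift_mem v hv, by rw [Fin.val_zero, pow_zero, one_mul]⟩
      · obtain ⟨e1, e2⟩ := cz_order v hv a ha
        exact absurd (X.orderOf_map _ ▸ three_dvd_orderOf e1 e2) h3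
    · intro g hg hgw
      obtain ⟨hgL, h3⟩ := (hO g).1 hg
      have hs : X.Φ sw * g * X.Φ sw * X.K.z = X.K.z * (X.Φ sw * g * X.Φ sw) := by
        have hzw : X.Φ sw * X.K.z = X.K.w * X.Φ sw := by
          rw [← X.map_u1, ← X.map_u2, ← map_mul, ← map_mul]
          exact congrArg X.Φ (by decide +kernel)
        have hwz : X.Φ sw * X.K.w = X.K.z * X.Φ sw := by
          rw [← X.map_u1, ← X.map_u2, ← map_mul, ← map_mul]
          exact congrArg X.Φ (by decide +kernel)
        calc X.Φ sw * g * X.Φ sw * X.K.z = X.Φ sw * g * (X.K.w * X.Φ sw) := by rw [mul_assoc, hzw]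
          _ = X.Φ sw * (g * X.K.w) * X.Φ sw := by group
          _ = (X.Φ sw * X.K.w) * g * X.Φ sw := by rw [hgw]; group
          _ = _ := by rw [hwz]; group
      obtain ⟨a, π, hπ⟩ := X.cz _ hs
      have hsw : X.Φ sw * X.Φ sw = 1 := X.map_sq (by decide +kernel)
      have hg' : g = X.Φ (sw * (u1 ^ a.1 * shift π) * sw) := by
        rw [map_mul, map_mul, ← hπ]
        calc g = (X.Φ sw * X.Φ sw) * g * (X.Φ sw * X.Φ sw) := by rw [hsw, one_mul, mul_one]
          _ = _ := by group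
      subst hg'
      obtain ⟨h1, h2⟩ := X.mem_L.1 hgL
      rcases L48_order _ (shift_w π a (X.comm_of h1) (X.comm_of h2)) with h | ⟨e1, e2⟩
      · exact ⟨_, h, rfl⟩
      · exact absurd (X.orderOf_map _ ▸ three_dvd_orderOf e1 e2) h3
  refine ⟨fun g hg => ?_, fun g hg h3 => hOS ((hO g).2 ⟨hg, h3⟩)⟩
  obtain ⟨k, hk⟩ := hOz g hg
  obtain ⟨o, ho, hoe⟩ := hOS hk
  refine ⟨o * (u1 ^ (⟨k % 3, Nat.mod_lt _ (by norm_num)⟩ : Fin 3).1)⁻¹, L48_of_O16 o ho _, ?_⟩
  rw [map_mul, map_inv, map_pow, X.map_u1, ← hoe, ← pow_eq_pow_mod k X.K.z_cube, mul_inv_cancel_right]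

theorem O16_mem_L {o : alternatingGroup (Fin 8)} (ho : o ∈ O16) : X.Φ o ∈ X.L :=
  X.mem_L.2 ⟨X.map_comm (O16_basic o ho).2.1, X.map_comm (O16_basic o ho).2.2.1⟩

/-- The four group `⟨ev, cv⟩` is not conjugate to `⟨ev, fv⟩`. -/
theorem fours_not_conj (g : G) (v v' : alternatingGroup (Fin 8)) (hv : v ∈ Vlist) (hv' : v' ∈ Vlist)
    (he : g * X.Φ ev * g⁻¹ = X.Φ v) (hc : g * X.Φ cv * g⁻¹ = X.Φ v') : False := by
  classical
  have hv1 : v ≠ 1 := fun e => ev_ne (X.inj (by
    rw [e, map_one] at he; rw [map_one]; exact conj_eq_one_iff.1 he))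
  have hv'1 : v' ≠ 1 := fun e => by
    rw [e, map_one] at hc
    have : cv = 1 := X.inj (by rw [map_one]; exact conj_eq_one_iff.1 hc)
    exact absurd this (by decide +kernel)
  have hne : v ≠ v' := fun e => by
    rw [← e, ← he] at hc
    have : cv = ev := X.inj (mul_left_cancel (mul_right_cancel hc))
    exact absurd this (by decide +kernel)
  -- elements of square one in the centraliser of the conjugate four group
  let P : G → Prop := fun x => x * X.Φ ev = X.Φ ev * x ∧ x * X.Φ cv = X.Φ cv * x ∧ x * x = 1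
  have toL : ∀ x, P x → ∃ o ∈ O16, g * x * g⁻¹ = X.Φ o := by
    rintro x ⟨h1, h2, h3⟩
    have c1 : (g * x * g⁻¹) * X.Φ v = X.Φ v * (g * x * g⁻¹) := by
      rw [← he, conj_mul, conj_mul, h1]
    have c2 : (g * x * g⁻¹) * X.Φ v' = X.Φ v' * (g * x * g⁻¹) := by
      rw [← hc, conj_mul, conj_mul, h2]
    have hall : ∀ y ∈ Vlist, (g * x * g⁻¹) * X.Φ y = X.Φ y * (g * x * g⁻¹) := by
      intro y hy
      have := Vlist_generated v hv v' hv' hv1 hv'1 hne y hy
      simp only [List.mem_cons, List.not_mem_nil, or_false] at this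
      rcases this with rfl | rfl | rfl | rfl
      · rw [map_one, mul_one, one_mul]
      · exact c1
      · exact c2
      · rw [map_mul]; exact ((show Commute _ (X.Φ v) from c1).mul_right c2).eq
    exact X.L_spec.2 _ (X.mem_L.2 ⟨hall ev (by simp [Vlist]), hall fv (by simp [Vlist])⟩)
      (not_three_dvd_of_invol (by rw [conj_mul, h3, mul_one, mul_inv_cancel]))
  have hVO := Vlist_O16
  have ofL : ∀ o ∈ O16, P (g⁻¹ * X.Φ o * g) := by
    intro o ho
    have hgg : ∀ a b : G, a * b = b * a →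
        (g⁻¹ * a * g) * (g⁻¹ * b * g) = (g⁻¹ * b * g) * (g⁻¹ * a * g) := by
      intro a b hab
      calc (g⁻¹ * a * g) * (g⁻¹ * b * g) = g⁻¹ * (a * b) * g := by group
        _ = g⁻¹ * (b * a) * g := by rw [hab]
        _ = _ := by group
    refine ⟨?_, ?_, ?_⟩
    · have := hgg _ _ (X.map_comm (O16_abelian o ho v (hVO v hv)))
      rwa [show g⁻¹ * X.Φ v * g = X.Φ ev by rw [← he]; group] at this
    · have := hgg _ _ (X.map_comm (O16_abelian o ho v' (hVO v' hv')))
      rwa [show g⁻¹ * X.Φ v' * g = X.Φ cv by rw [← hc]; group] at this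
    · calc (g⁻¹ * X.Φ o * g) * (g⁻¹ * X.Φ o * g) = g⁻¹ * (X.Φ o * X.Φ o) * g := by group
        _ = 1 := by rw [X.map_sq (O16_basic o ho).1, mul_one, inv_mul_cancel]
  set T := O16.toFinset.image (fun o => g⁻¹ * X.Φ o * g) with hT
  have hTcard : T.card = 16 := by
    rw [hT, Finset.card_image_of_injective _ (fun a b h => X.inj (mul_left_cancel (mul_right_cancel h))),
      List.toFinset_card_of_nodup O16_nodup]
    rfl
  have memT : ∀ x, x ∈ T ↔ P x := by
    intro x
    constructor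
    · intro hx
      obtain ⟨o, ho, rfl⟩ := Finset.mem_image.1 hx
      exact ofL o (List.mem_toFinset.1 ho)
    · intro hx
      obtain ⟨o, ho, hoe⟩ := toL x hx
      exact Finset.mem_image.2 ⟨o, List.mem_toFinset.2 ho, by rw [← hoe]; group⟩
  have mulT : ∀ x ∈ T, ∀ y ∈ T, x * y ∈ T ∧ x * y = y * x := by
    intro x hx y hy
    obtain ⟨o, ho, rfl⟩ := Finset.mem_image.1 hx
    obtain ⟨o', ho', rfl⟩ := Finset.mem_image.1 hy
    rw [List.mem_toFinset] at ho ho'
    refine ⟨Finset.mem_image.2 ⟨o * o', List.mem_toFinset.2 (O16_mul o ho o' ho'), ?_⟩, ?_⟩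
    · rw [map_mul]; group
    · calc g⁻¹ * X.Φ o * g * (g⁻¹ * X.Φ o' * g) = g⁻¹ * (X.Φ o * X.Φ o') * g := by group
        _ = g⁻¹ * (X.Φ o' * X.Φ o) * g := by rw [X.map_comm (O16_abelian o ho o' ho')]
        _ = _ := by group
  set F := X.Φ fv with hFdef
  have hF2 : F * F = 1 := X.map_sq fv_sq
  have hFi : F⁻¹ = F := inv_eq_of_mul_eq_one_right hF2
  have conjF : ∀ x ∈ T, F * x * F ∈ T := by
    intro x hx
    obtain ⟨h1, h2, h3⟩ := (memT x).1 hx
    have key : ∀ y : G, x * y = y * x → (F * x * F) * (F * y * F⁻¹) = (F * y * F⁻¹) * (F * x * F) := by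
      intro y hy
      rw [hFi]
      calc (F * x * F) * (F * y * F) = F * x * (F * F) * y * F := by group
        _ = F * (x * y) * F := by rw [hF2, mul_one]; group
        _ = F * y * (F * F) * x * F := by rw [hy, hF2, mul_one]; group
        _ = _ := by group
    refine (memT _).2 ⟨?_, ?_, ?_⟩
    · have := key _ h1
      rwa [hFdef, show X.Φ fv * X.Φ ev * (X.Φ fv)⁻¹ = X.Φ ev by
        rw [← X.map_comm ev_fv, mul_inv_cancel_right]] at this
    · have := key (X.Φ (cv * ev)) (by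
        rw [map_mul]; exact ((show Commute x (X.Φ cv) from h2).mul_right h1).eq)
      rwa [hFdef, ← map_inv, ← map_mul X.Φ fv (cv * ev), ← map_mul X.Φ (fv * (cv * ev)) fv⁻¹,
        fv_conj_cvev] at this
    · calc (F * x * F) * (F * x * F) = F * x * (F * F) * x * F := by group
        _ = F * (x * x) * F := by rw [hF2, mul_one]; group
        _ = 1 := by rw [h3, mul_one, hF2]
  set C4 := ([1, ev, av, ev * av] : List (alternatingGroup (Fin 8))).toFinset.image X.Φ with hC4
  have hfix : ∀ x ∈ T, F * x * F = x → x ∈ C4 := by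
    intro x hx hxF
    obtain ⟨h1, h2, h3⟩ := (memT x).1 hx
    have hxL : x ∈ X.L := X.mem_L.2 ⟨h1, by
      calc x * X.Φ fv = (F * x * F) * F := by rw [hxF]
        _ = X.Φ fv * x := by rw [mul_assoc, hF2, mul_one]⟩
    obtain ⟨o, ho, rfl⟩ := X.L_spec.2 x hxL (not_three_dvd_of_invol h3)
    exact Finset.mem_image.2 ⟨o, List.mem_toFinset.2 (O16_cv o ho (X.comm_of h2)), rfl⟩
  have himg : T.image (fun r => r * (F * r * F)) = C4 := by
    refine Finset.eq_of_subset_of_card_le ?_ ?_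
    · intro y hy
      obtain ⟨r, hr, rfl⟩ := Finset.mem_image.1 hy
      obtain ⟨hm, hcomm⟩ := mulT r hr _ (conjF r hr)
      refine hfix _ hm ?_
      calc F * (r * (F * r * F)) * F = (F * r * F) * r * (F * F) := by group
        _ = _ := by rw [hF2, mul_one, ← hcomm]
    · have h := Finset.card_le_mul_card_image (f := fun r => r * (F * r * F)) T 4 (fun b hb => by
        obtain ⟨r, hr, rfl⟩ := Finset.mem_image.1 hb
        refine le_trans (Finset.card_le_card (t := C4.image (fun d => r * d)) ?_)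
          (Finset.card_image_le.trans (Finset.card_image_le.trans (List.toFinset_card_le _)))
        intro r' hr'
        rw [Finset.mem_filter] at hr'
        obtain ⟨hr', he'⟩ := hr'
        obtain ⟨-, -, hrr⟩ := (memT r).1 hr
        refine Finset.mem_image.2 ⟨r * r', hfix _ (mulT r hr r' hr').1 ?_, ?_⟩
        · calc F * (r * r') * F = F * r * (F * F) * r' * F := by rw [hF2]; group
            _ = (F * r * F) * (F * r' * F) := by group
            _ = (r * r) * (F * r * F) * (F * r' * F) := by rw [hrr, one_mul]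
            _ = r * (r * (F * r * F)) * (F * r' * F) := by group
            _ = r * (r' * (F * r' * F)) * (F * r' * F) := by rw [he']
            _ = r * r' * ((F * r' * F) * (F * r' * F)) := by group
            _ = r * r' := by rw [((memT _).1 (conjF r' hr')).2.2, mul_one]
        · rw [← mul_assoc, hrr, one_mul])
      rw [hTcard] at h
      have : C4.card ≤ 4 := Finset.card_image_le.trans (List.toFinset_card_le _)
      omega
  have hav : X.Φ av ∈ C4 := Finset.mem_image.2 ⟨av, by simp, rfl⟩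
  rw [← himg] at hav
  obtain ⟨r, hr, hrav⟩ := Finset.mem_image.1 hav
  obtain ⟨-, -, hrr⟩ := (memT r).1 hr
  have hrF : r * F * r⁻¹ = X.Φ (av * fv) := by
    rw [inv_eq_of_mul_eq_one_right hrr, map_mul, ← hrav]
    simp only [mul_assoc, ← hFdef, hF2, mul_one]
  refine X.not_both (X.Φ (av * fv)) (X.map_sq (by decide +kernel))
    (fun e => absurd (X.inj (e.trans (map_one X.Φ).symm)) (by decide +kernel)) r tk ?_ ?_
  · rw [← hrF, conj_mul, conj_mul, hFdef, X.map_comm u1_ev.2]
  · rw [conjugators.1]; exact X.map_comm tv_table.1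

end Embedded

end CfsgLib.AltEight29
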