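import Mathlib

/-!
Finite facts about the two models used in the three-local recognition of the alternating group
of degree eight: the group `M35` of pairs of permutations with equal signs, and `DihedralGroup 4`.
-/

set_option autoImplicit false
set_option maxRecDepth 8000

open Equiv

namespace CfsgLib.AltEight29

/-- The pairs in `Perm (Fin 3) × Perm (Fin 5)` with equal signs. -/
abbrev M35 : Subgroup (Perm (Fin 3) × Perm (Fin 5)) :=
  ((Perm.sign.comp (MonoidHom.fst (Perm (Fin 3)) (Perm (Fin 5)))) *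
    (Perm.sign.comp (MonoidHom.snd (Perm (Fin 3)) (Perm (Fin 5))))).ker

theorem mem_M35 (σ : Perm (Fin 3)) (τ : Perm (Fin 5)) :
    (σ, τ) ∈ M35 ↔ Perm.sign σ * Perm.sign τ = 1 := Iff.rfl

/-- `(0 1 2)` on three points. -/
def c3 : Perm (Fin 3) := swap 0 1 * swap 1 2

/-- `(0 1 2)` on five points. -/
def c5 : Perm (Fin 5) := swap 0 1 * swap 1 2

/-- A pair with equal signs, as an element of `M35`. -/
def mk35 (σ : Perm (Fin 3)) (τ : Perm (Fin 5)) (h : Perm.sign σ * Perm.sign τ = 1 := by decide +kernel) :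
    M35 := ⟨(σ, τ), h⟩

def zM : M35 := mk35 c3 1
def wM : M35 := mk35 1 c5
/-- centralises `zM`, inverts `wM` -/
def hM : M35 := mk35 1 (swap 1 2 * swap 3 4)
/-- inverts `zM`, centralises `wM` -/
def kM : M35 := mk35 (swap 1 2) (swap 3 4)

theorem zM_cube : zM ^ 3 = 1 := by decide +kernel
theorem wM_cube : wM ^ 3 = 1 := by decide +kernel
theorem zM_wM : zM * wM = wM * zM := by decide +kernel
theorem zM_ne : zM ≠ 1 := by decide +kernel
theorem hM_z : hM * zM = zM * hM := by decide +kernel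
theorem hM_w : hM * wM = wM⁻¹ * hM := by decide +kernel
theorem kM_z : kM * zM = zM⁻¹ * kM := by decide +kernel
theorem kM_w : kM * wM = wM * kM := by decide +kernel

theorem three_table : ∀ σ : Perm (Fin 3), σ ^ 3 = 1 → σ = 1 ∨ σ = c3 ∨ σ = c3 * c3 := by
  decide +kernel

theorem five_table : ∀ τ : Perm (Fin 5), τ * τ * τ = 1 →
    (swap 0 1 * swap 1 2 * swap 2 3 * swap 3 4) * τ * (swap 0 1 * swap 1 2 * swap 2 3 * swap 3 4)⁻¹
      ∈ [1, τ, τ * τ] → τ = 1 := by
  decide +kernel

theorem central_three_table (m : M35) (h3 : m ^ 3 = 1) (hne : m ≠ 1)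
    (hc : mk35 1 (swap 0 1 * swap 1 2 * swap 2 3 * swap 3 4) * m *
      (mk35 1 (swap 0 1 * swap 1 2 * swap 2 3 * swap 3 4))⁻¹ ∈ [1, m, m * m]) :
    m = zM ∨ m = zM * zM := by
  obtain ⟨⟨σ, τ⟩, hm⟩ := m
  have h3' := congrArg Subtype.val h3
  simp only [pow_succ, pow_zero, one_mul, Subgroup.coe_mul, Subgroup.coe_one, Prod.mk_mul_mk,
    Prod.mk_eq_one] at h3'
  have hτ : τ = 1 := by
    refine five_table τ h3'.2 ?_
    simp only [List.mem_cons, List.not_mem_nil, or_false] at hc ⊢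
    rcases hc with h | h | h
    · exact Or.inl (congrArg (fun x : M35 => x.1.2) h)
    · exact Or.inr (Or.inl (congrArg (fun x : M35 => x.1.2) h))
    · exact Or.inr (Or.inr (congrArg (fun x : M35 => x.1.2) h))
  subst hτ
  rcases three_table σ (by rw [pow_succ, pow_succ, pow_one]; exact h3'.1) with rfl | rfl | rfl
  · exact absurd rfl hne
  · exact Or.inl rfl
  · exact Or.inr (Subtype.ext (by simp [zM, mk35]))

theorem normal_square_table : ∀ τ : Perm (Fin 5), τ * c5 * τ⁻¹ ∈ [c5, c5 * c5] →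
    τ * τ ∈ [1, c5, c5 * c5] := by
  decide +kernel

theorem dihedral_table :
    (DihedralGroup.r (1 : ZMod 4)) * DihedralGroup.r 1 ≠ 1 ∧
    ∀ x : DihedralGroup 4, (x * DihedralGroup.r 1 * x⁻¹ = DihedralGroup.r 1 ∨
        x * DihedralGroup.r 1 * x⁻¹ = (DihedralGroup.r 1)⁻¹) ∧
      x * (DihedralGroup.r 1 * DihedralGroup.r 1) * x⁻¹ =
        DihedralGroup.r 1 * DihedralGroup.r 1 := by
  decide +kernel

end CfsgLib.AltEight29
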